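import Mathlib
import Cfsg.Agent.Lib.Helper32.D8Stmt

/-! S3716 piece ALGB (pure algebra). -/

set_option autoImplicit false

namespace Cfsg.Agent.Lib.Helper67.D8ALGB

theorem main : Cfsg.Agent.Lib.Helper32.D8Stmt.ALGB := by
  intro ux uy n μ hn hμ h1 h2 h3 h4
  have h5 : 2 * μ * n * uy ^ 2 = 1 + μ := by linear_combination (h2 - h3) / 3
  have h6 : μ * n * (uy * (5 * uy - 2 * ux)) = 0 := by linear_combination (h1 - h4) / 3
  have h6' : uy * (5 * uy - 2 * ux) = 0 := by
    rcases mul_eq_zero.mp h6 with h | h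
    · exact absurd h (mul_ne_zero hμ hn)
    · exact h
  rcases mul_eq_zero.mp h6' with hu | hc
  · rw [hu] at h5
    linear_combination (-1) * h5
  · have h7 : μ * n * uy ^ 2 = 0 := by
      linear_combination (-4 / 7) * (h1 - 8 * h5) + (-4 / 7) * (μ * n * (ux + 5 / 2 * uy) / 2) * hc
    linear_combination (-1) * h5 + 2 * h7

end Cfsg.Agent.Lib.Helper67.D8ALGB
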