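import Mathlib
import Cfsg.Agent.Lib.Helper43.SpBalA
import Cfsg.Agent.Lib.Helper45.BalStmt2

/-! Piece CORE of S2731 (helper45's split): the abstract core lemma, a port of the first half of
`Cfsg.Agent.Lib.Helper43.SpBalD.core_trivial`. -/

set_option autoImplicit false

namespace Cfsg.Agent.Lib.Helper67.BalCORE

open Cfsg.Agent.Lib.Helper43.SpBalA

universe u

/-- The abstract core lemma (statement of `BalStmt2.Core`, spelled out). -/
theorem core (K : Type u) [Group K] [Finite K] (x : MulAut K) (p : ℕ) (hp : p.Prime)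
    (hinj : Function.Injective (MulAut.conj : K →* MulAut K))
    (D N : Subgroup (MulAut K)) (L : Subgroup K)
    (hD1 : ∀ d ∈ D, d * x = x * d) (hD2 : ∀ k : K, x k = k → MulAut.conj k ∈ D) (hND : N ≤ D)
    (hnorm : ∀ d ∈ D, ∀ ν ∈ N, d * ν * d⁻¹ ∈ N) (hcop : (Nat.card ↥N).Coprime p)
    (hsimple : IsSimpleGroup ↥L)
    (hLfix : ∀ k ∈ L, x k = k) (hsq : ∀ k : K, x k = k → k * k ∈ L)
    (hodd : p ≠ 2 → ∀ k : K, x k = k → k ∈ L) (heven : p = 2 → 2 ∣ Nat.card ↥L)
    (hdvd : p ∣ Nat.card ↥(MonoidHom.eqLocus x.toMonoidHom (MonoidHom.id K))) :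
    ∀ ν ∈ N, ∀ c : K, x c = c → ν c = c := by
  obtain ⟨M, hMdef⟩ : ∃ M : Subgroup K, M = Mof N := ⟨_, rfl⟩
  have hMfix : ∀ k ∈ M, x k = k := by
    intro k hk
    rw [hMdef] at hk
    exact Mof_le_fix hinj x (fun ν hν => hD1 ν (hND hν)) hk
  have hMconj : ∀ l ∈ L, ∀ k ∈ M, l * k * l⁻¹ ∈ M := by
    intro l hl k hk
    rw [hMdef] at hk ⊢
    exact Mof_conj hnorm (hD2 l (hLfix l hl)) hk
  have hMcard : (Nat.card M).Coprime p := by
    rw [hMdef]
    exact Nat.Coprime.coprime_dvd_left (card_Mof_dvd hinj N) hcop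
  have hMnd : ¬ p ∣ Nat.card M := by
    intro h
    have h1 := Nat.dvd_gcd h (dvd_refl p)
    rw [hMcard, Nat.dvd_one] at h1
    exact hp.one_lt.ne' h1
  have hL : p ∣ Nat.card L := by
    by_cases hp2 : p = 2
    · rw [hp2]; exact heven hp2
    · have h1 : MonoidHom.eqLocus x.toMonoidHom (MonoidHom.id K) = L := by
        ext k
        constructor
        · intro hk
          exact hodd hp2 k hk
        · intro hk
          exact hLfix k hk
      rw [← h1]
      exact hdvd
  have hML : M ⊓ L = ⊥ := by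
    have hn : (M.subgroupOf L).Normal := by
      refine ⟨fun n hn g => ?_⟩
      rw [Subgroup.mem_subgroupOf] at hn ⊢
      exact hMconj g g.2 n hn
    rcases hn.eq_bot_or_eq_top with h | h
    · rw [Subgroup.subgroupOf_eq_bot] at h
      exact disjoint_iff.1 h
    · exfalso
      rw [Subgroup.subgroupOf_eq_top] at h
      exact hMnd (hL.trans (Subgroup.card_dvd_of_le h))
  have hMbot : M = ⊥ := by
    rw [eq_bot_iff]
    intro k hk
    rw [Subgroup.mem_bot]
    have hkx := hMfix k hk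
    by_cases hp2 : p = 2
    · have h1 : k * k ∈ M ⊓ L := ⟨M.mul_mem hk hk, hsq k hkx⟩
      rw [hML, Subgroup.mem_bot] at h1
      have h2 : orderOf k ∣ 2 := orderOf_dvd_of_pow_eq_one (by rw [pow_two]; exact h1)
      have h3 : orderOf k ∣ Nat.card M := by
        have h4 := orderOf_dvd_natCard (⟨k, hk⟩ : M)
        rwa [← Subgroup.orderOf_coe] at h4
      have h4 : orderOf k ∣ Nat.gcd (Nat.card M) 2 := Nat.dvd_gcd h3 h2
      rw [hp2] at hMcard
      rw [hMcard, Nat.dvd_one] at h4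
      exact orderOf_eq_one_iff.1 h4
    · have h1 : k ∈ M ⊓ L := ⟨hk, hodd hp2 k hkx⟩
      rw [hML, Subgroup.mem_bot] at h1
      exact h1
  intro ν hν c hc
  exact fix_of_Mof_bot hnorm (by rw [← hMdef]; exact hMbot) hν (hD2 c hc)

/-- **Piece CORE of S2731.** -/
theorem main : Cfsg.Agent.Lib.Helper45.BalStmt2.Core.{u} := by
  intro K _ _ x p hp hinj D N L hD1 hD2 hND hnorm hcop hsimple hLfix hsq hodd heven hdvd
  exact core K x p hp hinj D N L hD1 hD2 hND hnorm hcop hsimple hLfix hsq hodd heven hdvd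

end Cfsg.Agent.Lib.Helper67.BalCORE
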