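import Mathlib

set_option autoImplicit false
set_option linter.style.haveILetI false

/-! Piece PL of S4025 (helper12's split): plane counting for a group of semilinear maps which is
transitive on the subgroups of order `p ^ 2` of an elementary abelian group. -/

namespace Cfsg.Agent.Lib.Helper67.EqPL

universe u

section PowAut

variable {Q : Type u} [Group Q] {p : ℕ} [Fact p.Prime]

/-- The power map `x ↦ x ^ u` (for a unit `u` of `ZMod p`) of an elementary abelian `p`-group. -/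
noncomputable def powAut (hQc : ∀ a b : Q, a * b = b * a) (hQp : ∀ a : Q, a ^ p = 1)
    (u : (ZMod p)ˣ) : MulAut Q where
  toFun x := x ^ (u : ZMod p).val
  invFun x := x ^ ((u⁻¹ : (ZMod p)ˣ) : ZMod p).val
  left_inv x := by
    show (x ^ (u : ZMod p).val) ^ ((u⁻¹ : (ZMod p)ˣ) : ZMod p).val = x
    rw [← pow_mul, pow_eq_pow_mod _ (hQp x), ← ZMod.val_mul, Units.mul_inv, ZMod.val_one, pow_one]
  right_inv x := by
    show (x ^ ((u⁻¹ : (ZMod p)ˣ) : ZMod p).val) ^ (u : ZMod p).val = x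
    rw [← pow_mul, pow_eq_pow_mod _ (hQp x), ← ZMod.val_mul, Units.inv_mul, ZMod.val_one, pow_one]
  map_mul' x y := Commute.mul_pow (hQc x y) _

theorem powAut_apply (hQc : ∀ a b : Q, a * b = b * a) (hQp : ∀ a : Q, a ^ p = 1)
    (u : (ZMod p)ˣ) (x : Q) : powAut hQc hQp u x = x ^ (u : ZMod p).val := rfl

/-- The power maps, as a homomorphism `(ZMod p)ˣ →* MulAut Q`. -/
noncomputable def powHom (hQc : ∀ a b : Q, a * b = b * a) (hQp : ∀ a : Q, a ^ p = 1) :
    (ZMod p)ˣ →* MulAut Q where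
  toFun := powAut hQc hQp
  map_one' := by
    ext x
    rw [powAut_apply, Units.val_one, ZMod.val_one, pow_one]; rfl
  map_mul' u v := by
    ext x
    rw [MulAut.mul_apply, powAut_apply, powAut_apply, powAut_apply, Units.val_mul, ZMod.val_mul,
      ← pow_eq_pow_mod _ (hQp x), ← pow_mul, Nat.mul_comm]

theorem powHom_apply (hQc : ∀ a b : Q, a * b = b * a) (hQp : ∀ a : Q, a ^ p = 1)
    (u : (ZMod p)ˣ) (x : Q) : powHom hQc hQp u x = x ^ (u : ZMod p).val := rfl

theorem powHom_injective (hQc : ∀ a b : Q, a * b = b * a) (hQp : ∀ a : Q, a ^ p = 1)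
    {x₀ : Q} (hx₀ : x₀ ≠ 1) : Function.Injective (powHom hQc hQp) := by
  intro u v huv
  have h1 : x₀ ^ (u : ZMod p).val = x₀ ^ (v : ZMod p).val := by
    rw [← powHom_apply hQc hQp u, ← powHom_apply hQc hQp v, huv]
  have ho : orderOf x₀ = p := orderOf_eq_prime (hQp x₀) hx₀
  rw [pow_eq_pow_iff_modEq, ho] at h1
  have h2 : (u : ZMod p).val = (v : ZMod p).val := by
    have hu := ZMod.val_lt (u : ZMod p)
    have hv := ZMod.val_lt (v : ZMod p)
    exact Nat.ModEq.eq_of_lt_of_lt h1 hu hv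
  exact Units.ext (ZMod.val_injective p h2)

end PowAut

/-- **Piece PL of S4025.** -/
theorem planes_dvd {Q : Type u} [Group Q] [Finite Q] {F : Type*} [Field F] [Finite F]
    {p n : ℕ} [Fact p.Prime] (hn : 2 ≤ n)
    (hQc : ∀ a b : Q, a * b = b * a) (hQp : ∀ a : Q, a ^ p = 1) (hQ : Nat.card Q = p ^ n)
    (hcnt : Nat.card {W : Subgroup Q // Nat.card W = p ^ 2} * ((p ^ 2 - 1) * (p ^ 2 - p)) =
      (p ^ n - 1) * (p ^ n - p))
    (e : Additive Q ≃+ F)
    (hsemi : ∀ T : Subgroup (MulAut Q), (∀ s ∈ T, ∃ (a : F) (σ : F ≃+* F),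
      ∀ x : Q, e (Additive.ofMul (s x)) = a * σ (e (Additive.ofMul x))) →
      Nat.card T ∣ n * (p ^ n - 1))
    (S : Subgroup (MulAut Q))
    (hS : ∀ s ∈ S, ∃ (a : F) (σ : F ≃+* F),
      ∀ x : Q, e (Additive.ofMul (s x)) = a * σ (e (Additive.ofMul x)))
    (htr : ∀ A B : Subgroup Q, Nat.card A = p ^ 2 → Nat.card B = p ^ 2 →
      ∃ s ∈ S, B = A.map (s : MulAut Q).toMonoidHom) :
    (p ^ (n - 1) - 1) ∣ n * (p ^ 2 - 1) := by
  classical
  have hp : p.Prime := Fact.out
  have hcard2 : 1 < Nat.card Q := by rw [hQ]; exact Nat.one_lt_pow (by omega) hp.one_lt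
  haveI : Nontrivial Q := Finite.one_lt_card_iff_nontrivial.1 hcard2
  obtain ⟨x₀, hx₀⟩ := exists_ne (1 : Q)
  have hane : ∀ s : MulAut Q, ∀ (a : F) (σ : F ≃+* F),
      (∀ x : Q, e (Additive.ofMul (s x)) = a * σ (e (Additive.ofMul x))) → a ≠ 0 := by
    intro s a σ h ha
    have h1 := h x₀
    rw [ha, zero_mul] at h1
    have h2 : Additive.ofMul (s x₀) = 0 := e.injective (by rw [h1, map_zero])
    have h3 : s x₀ = 1 := h2
    exact hx₀ (s.injective (by rw [h3, map_one]))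
  let T : Subgroup (MulAut Q) :=
    { carrier := {s | ∃ (a : F) (σ : F ≃+* F),
        ∀ x : Q, e (Additive.ofMul (s x)) = a * σ (e (Additive.ofMul x))}
      mul_mem' := by
        rintro s₁ s₂ ⟨a₁, σ₁, h₁⟩ ⟨a₂, σ₂, h₂⟩
        refine ⟨a₁ * σ₁ a₂, σ₂.trans σ₁, fun x => ?_⟩
        rw [MulAut.mul_apply, h₁, h₂, map_mul, RingEquiv.trans_apply, mul_assoc]
      one_mem' := ⟨1, RingEquiv.refl F, fun x => by simp⟩
      inv_mem' := by
        rintro s ⟨a, σ, h⟩
        have ha := hane s a σ h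
        refine ⟨σ.symm a⁻¹, σ.symm, fun x => ?_⟩
        have h1 := h (s⁻¹ x)
        rw [MulAut.apply_inv_self] at h1
        rw [h1, map_mul, RingEquiv.symm_apply_apply, ← mul_assoc, ← map_mul, inv_mul_cancel₀ ha,
          map_one, one_mul] }
  have hTmem : ∀ s : MulAut Q, s ∈ T ↔ ∃ (a : F) (σ : F ≃+* F),
      ∀ x : Q, e (Additive.ofMul (s x)) = a * σ (e (Additive.ofMul x)) := fun s => Iff.rfl
  letI act : MulAction ↥T (Subgroup Q) :=
    { smul := fun t W => W.map (t : MulAut Q).toMonoidHom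
      one_smul := fun W => by
        show W.map ((1 : ↥T) : MulAut Q).toMonoidHom = W
        ext y
        simp
      mul_smul := fun t₁ t₂ W => by
        show W.map ((t₁ * t₂ : ↥T) : MulAut Q).toMonoidHom
          = (W.map (t₂ : MulAut Q).toMonoidHom).map (t₁ : MulAut Q).toMonoidHom
        rw [Subgroup.map_map]; rfl }
  have hsmul : ∀ (t : ↥T) (W : Subgroup Q), t • W = W.map (t : MulAut Q).toMonoidHom :=
    fun t W => rfl
  -- a subgroup of order `p ^ 2`
  have hlt : p < p ^ n := by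
    have h := Nat.pow_lt_pow_right hp.one_lt (show 1 < n by omega)
    rwa [pow_one] at h
  have hWne : Nonempty {W : Subgroup Q // Nat.card W = p ^ 2} := by
    by_contra hne
    rw [not_nonempty_iff] at hne
    have h0 : Nat.card {W : Subgroup Q // Nat.card W = p ^ 2} = 0 := Nat.card_of_isEmpty
    rw [h0, zero_mul] at hcnt
    have h1 : 0 < (p ^ n - 1) * (p ^ n - p) := Nat.mul_pos (by omega) (by omega)
    omega
  obtain ⟨⟨W₀, hW₀⟩⟩ := hWne
  have horb : MulAction.orbit ↥T W₀ = {W : Subgroup Q | Nat.card W = p ^ 2} := by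
    ext W
    constructor
    · rintro ⟨t, rfl⟩
      show Nat.card (W₀.map (t : MulAut Q).toMonoidHom) = p ^ 2
      rw [Subgroup.card_map_of_injective (t : MulAut Q).injective]
      exact hW₀
    · intro hW
      obtain ⟨s, hs, rfl⟩ := htr W₀ W hW₀ hW
      exact ⟨⟨s, (hTmem s).2 (hS s hs)⟩, rfl⟩
  have hcardT : Nat.card ↥T = Nat.card ↥(MulAction.stabilizer ↥T W₀) *
      Nat.card {W : Subgroup Q // Nat.card W = p ^ 2} := by
    rw [← Subgroup.card_mul_index (MulAction.stabilizer ↥T W₀), MulAction.index_stabilizer, horb,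
      ← Nat.card_coe_set_eq]
    rfl
  -- the power maps
  have hψT : ∀ u : (ZMod p)ˣ, powHom hQc hQp u ∈ T := by
    intro u
    refine (hTmem _).2 ⟨((u : ZMod p).val : F), RingEquiv.refl F, fun x => ?_⟩
    rw [powHom_apply, ofMul_pow, map_nsmul, nsmul_eq_mul]; rfl
  have hψW : ∀ (u : (ZMod p)ˣ) (W : Subgroup Q), W.map (powHom hQc hQp u).toMonoidHom = W := by
    intro u W
    apply Subgroup.eq_of_le_of_card_ge
    · rintro _ ⟨x, hx, rfl⟩
      exact W.pow_mem hx _
    · rw [Subgroup.card_map_of_injective (powHom hQc hQp u).injective]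
  have hψinj := powHom_injective hQc hQp hx₀
  have hZle : (powHom hQc hQp).range ≤ T := by
    rintro _ ⟨u, rfl⟩; exact hψT u
  have hZcard : Nat.card ↥(((powHom hQc hQp).range).subgroupOf T) = p - 1 := by
    rw [Nat.card_congr (Subgroup.subgroupOfEquivOfLe hZle).toEquiv,
      Nat.card_congr (MonoidHom.ofInjective hψinj).symm.toEquiv, Nat.card_eq_fintype_card,
      ZMod.card_units]
  have hZstab : ((powHom hQc hQp).range).subgroupOf T ≤ MulAction.stabilizer ↥T W₀ := by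
    intro t ht
    rw [Subgroup.mem_subgroupOf] at ht
    obtain ⟨u, hu⟩ := ht
    rw [MulAction.mem_stabilizer_iff, hsmul, ← hu]
    exact hψW u W₀
  have hdvd1 : p - 1 ∣ Nat.card ↥(MulAction.stabilizer ↥T W₀) := by
    rw [← hZcard]; exact Subgroup.card_dvd_of_le hZstab
  have hT := hsemi T (fun s hs => (hTmem s).1 hs)
  obtain ⟨k₁, hk₁⟩ := hdvd1
  obtain ⟨j, hj⟩ := hT
  rw [hcardT, hk₁] at hj
  generalize Nat.card {W : Subgroup Q // Nat.card W = p ^ 2} = w at hcnt hj
  -- arithmetic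
  have hk : n * (p ^ n - 1) = w * (p - 1) * (k₁ * j) := by
    rw [hj]; ring
  have hpn : p ^ n = p * p ^ (n - 1) := by
    rw [← pow_succ']; congr 1; omega
  have hB : p ^ n - p = p * (p ^ (n - 1) - 1) := by
    rw [Nat.mul_sub, mul_one, ← hpn]
  have hC : p ^ 2 - 1 = (p + 1) * (p - 1) := by
    have hp1 := hp.one_lt
    have ha : p = (p - 1) + 1 := by omega
    generalize p - 1 = a at ha ⊢
    rw [ha]
    have h : (a + 1) ^ 2 = (a + 1 + 1) * a + 1 := by ring
    rw [h, Nat.add_sub_cancel]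
  have hD : p ^ 2 - p = p * (p - 1) := by
    rw [Nat.mul_sub, mul_one, sq]
  have hApos : 0 < p ^ n - 1 := by omega
  rw [hC, hD, hB] at hcnt
  have h1 : w * ((p + 1) * (p - 1) * (p - 1)) = (p ^ n - 1) * (p ^ (n - 1) - 1) := by
    apply Nat.eq_of_mul_eq_mul_left hp.pos
    calc p * (w * ((p + 1) * (p - 1) * (p - 1)))
        = w * ((p + 1) * (p - 1) * (p * (p - 1))) := by ring
      _ = (p ^ n - 1) * (p * (p ^ (n - 1) - 1)) := hcnt
      _ = p * ((p ^ n - 1) * (p ^ (n - 1) - 1)) := by ring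
  refine ⟨k₁ * j, ?_⟩
  rw [hC]
  apply Nat.eq_of_mul_eq_mul_left hApos
  calc (p ^ n - 1) * (n * ((p + 1) * (p - 1)))
      = (n * (p ^ n - 1)) * ((p + 1) * (p - 1)) := by ring
    _ = w * (p - 1) * (k₁ * j) * ((p + 1) * (p - 1)) := by rw [hk]
    _ = (w * ((p + 1) * (p - 1) * (p - 1))) * (k₁ * j) := by ring
    _ = (p ^ n - 1) * (p ^ (n - 1) - 1) * (k₁ * j) := by rw [h1]
    _ = (p ^ n - 1) * ((p ^ (n - 1) - 1) * (k₁ * j)) := by ring

end Cfsg.Agent.Lib.Helper67.EqPL
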