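import Mathlib
import Cfsg.Agent.Lib.Helper40.GFStmt

set_option autoImplicit false

/-!
# S5886 / R2SPECIAL: `[L : F] = 2`, `E(ν) ∈ c.M` with `ν` not a multiplication gives a special
transvection.
-/

namespace Cfsg.Agent.Lib.Helper67.GFR2SPECIAL

open Cfsg.Agent.Lib.Helper40.GFStmt

universe u

section dual
variable {F L : Type*} [Field F] [Field L] [Algebra F L]

theorem tau_inj' (τ : L →ₗ[F] F) (hτ : τ ≠ 0) (c c' : L) (h : ∀ a, τ (a * c) = τ (a * c')) :
    c = c' := by
  by_contra hne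
  have hd : c - c' ≠ 0 := sub_ne_zero.mpr hne
  apply hτ
  ext a
  have h1 := h (a * (c - c')⁻¹)
  have h2 : τ (a * (c - c')⁻¹ * (c - c')) = 0 := by rw [mul_sub, map_sub, h1, sub_self]
  rw [mul_assoc, inv_mul_cancel₀ hd, mul_one] at h2
  rw [h2]
  rfl

theorem exists_rep' [FiniteDimensional F L] (τ : L →ₗ[F] F) (hτ : τ ≠ 0) (φ : L →ₗ[F] F) :
    ∃ c : L, ∀ a, φ a = τ (a * c) := by
  obtain ⟨Ψ, hΨ⟩ : ∃ Ψ : L →ₗ[F] (L →ₗ[F] F), ∀ c a, Ψ c a = τ (a * c) :=
    ⟨{ toFun := fun c => τ ∘ₗ (LinearMap.mulRight F c)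
       map_add' := by
         intro c c'
         ext a
         simp [mul_add]
       map_smul' := by
         intro s c
         ext a
         simp }, fun c a => rfl⟩
  have hinj : Function.Injective Ψ := by
    intro c c' hcc
    apply tau_inj' τ hτ
    intro a
    rw [← hΨ, ← hΨ, hcc]
  have hsurj : Function.Surjective Ψ :=
    (LinearMap.injective_iff_surjective_of_finrank_eq_finrank
      (Subspace.dual_finrank_eq (K := F) (V := L)).symm).mp hinj
  obtain ⟨c, hc⟩ := hsurj φ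
  exact ⟨c, fun a => by rw [← hΨ, hc]⟩

/-- in a quadratic extension, `1` and any `x₁ ∉ F` span. -/
theorem exists_coord (h2 : Module.finrank F L = 2) (x₁ : L)
    (hx : ∀ s t : F, s • (1 : L) + t • x₁ = 0 → s = 0 ∧ t = 0) (x : L) :
    ∃ s t : F, x = s • (1 : L) + t • x₁ := by
  have hli : LinearIndependent F ![(1 : L), x₁] := LinearIndependent.pair_iff.mpr hx
  have hfin : Module.Finite F L := Module.finite_of_finrank_pos (by rw [h2]; norm_num)
  have hspan : Submodule.span F (Set.range ![(1 : L), x₁]) = ⊤ := by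
    apply Submodule.eq_top_of_finrank_eq
    rw [finrank_span_eq_card hli, h2, Fintype.card_fin]
  have hmem : x ∈ Submodule.span F (Set.range ![(1 : L), x₁]) := by
    rw [hspan]
    exact Submodule.mem_top
  obtain ⟨cf, hcf⟩ := (Submodule.mem_span_range_iff_exists_fun F).mp hmem
  rw [Fin.sum_univ_two] at hcf
  exact ⟨cf 0, cf 1, by rw [← hcf]; rfl⟩

end dual

theorem main : R2Special.{u} := by
  intro F L _ _ _ _ k c h2 τ hτ v ψ ν hv hψ hψv hν hin
  have hfin : Module.Finite F L := Module.finite_of_finrank_pos (by rw [h2]; norm_num)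
  -- `ν' = ν - m_(ν 1)`
  have hin' : InSig c v ψ (ν - LinearMap.mulLeft F (ν 1)) :=
    inSig_sub c v ψ hψv hin (inSig_mulLeft c v ψ hψv (ν 1))
  set ν' : L →ₗ[F] L := ν - LinearMap.mulLeft F (ν 1) with hν'
  have h1 : ν' 1 = 0 := by
    rw [hν', LinearMap.sub_apply, LinearMap.mulLeft_apply, mul_one, sub_self]
  have hne : ν' ≠ 0 := by
    intro h0
    apply hν (ν 1)
    rw [hν', sub_eq_zero] at h0
    exact h0
  obtain ⟨x₁, hx₁⟩ : ∃ x₁ : L, ν' x₁ ≠ 0 := by
    by_contra hcon
    exact hne (LinearMap.ext fun x => by_contra fun hx => hcon ⟨x, hx⟩)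
  set z' : L := ν' x₁ with hz'
  -- `1, x₁` independent
  have hind : ∀ s t : F, s • (1 : L) + t • x₁ = 0 → s = 0 ∧ t = 0 := by
    intro s t hst
    have h3 : ν' (s • (1 : L) + t • x₁) = 0 := by rw [hst, map_zero]
    rw [map_add, map_smul, map_smul, h1, smul_zero, zero_add] at h3
    have ht : t = 0 := by
      rcases smul_eq_zero.mp h3 with h | h
      · exact h
      · exact absurd h hx₁
    rw [ht, zero_smul, add_zero] at hst
    have hs : s = 0 := by
      rcases smul_eq_zero.mp hst with h | h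
      · exact h
      · exact absurd h one_ne_zero
    exact ⟨hs, ht⟩
  -- a functional `lam` with `lam z' = 1`
  obtain ⟨lam, hlam⟩ : ∃ lam : L →ₗ[F] F, lam z' = 1 := by
    have hinj : LinearMap.ker (LinearMap.toSpanSingleton F L z') = ⊥ :=
      LinearMap.ker_toSpanSingleton F hx₁
    obtain ⟨g, hg⟩ := LinearMap.exists_leftInverse_of_injective _ hinj
    refine ⟨g, ?_⟩
    have := LinearMap.congr_fun hg (1 : F)
    simpa using this
  set b' : L →ₗ[F] F := lam ∘ₗ ν' with hb'
  have hb : ∀ x : L, ν' x = b' x • z' := by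
    intro x
    obtain ⟨s, t, hst⟩ := exists_coord h2 x₁ hind x
    have h4 : ν' x = t • z' := by
      rw [hst, map_add, map_smul, map_smul, h1, smul_zero, zero_add]
    rw [hb', LinearMap.comp_apply, h4, map_smul, hlam, smul_eq_mul, mul_one]
  obtain ⟨cb, hcb⟩ := exists_rep' τ hτ b'
  have hcb0 : cb ≠ 0 := by
    intro h0
    have h5 := hb x₁
    rw [hcb, h0, mul_zero, map_zero, zero_smul] at h5
    exact hx₁ h5
  obtain ⟨e, he, hex⟩ := hin'
  refine ⟨e, he, z' • v, cb • ψ, ?_, ?_, ?_, ?_⟩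
  · exact smul_ne_zero hx₁ hv
  · exact smul_ne_zero hcb0 hψ
  · rw [LinearMap.smul_apply, map_smul, hψv, smul_zero, smul_zero]
  · intro x
    rw [hex x, hb (ψ x), hcb, LinearMap.smul_apply, smul_eq_mul, mul_comm cb (ψ x), smul_assoc]

end Cfsg.Agent.Lib.Helper67.GFR2SPECIAL
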