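import Mathlib

/-!
# Abstract lemmas for Glauberman's `p ≥ 5` normal `p`-complement criterion

`dl α v = v⁻¹ * α v` on a commutative group, the binomial formula for the iterates of `α`, the
"non-surjectivity" computation, and the chain lemma.
-/

set_option autoImplicit false

namespace Cfsg.Agent.Lib.Helper67.GlA

section BF

variable {V : Type*} [CommGroup V] (α : V →* V)

/-- `δ v = v⁻¹ * α v`, a homomorphism of the commutative group `V`. -/
def dl : V →* V where
  toFun v := v⁻¹ * α v
  map_one' := by simp
  map_mul' u v := by rw [map_mul, mul_inv]; exact mul_mul_mul_comm _ _ _ _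

theorem dl_apply (v : V) : dl α v = v⁻¹ * α v := rfl

theorem apply_eq (v : V) : α v = v * dl α v := by rw [dl_apply, mul_inv_cancel_left]

/-- the binomial formula -/
theorem iterate_eq (v : V) (h4 : dl α (dl α (dl α (dl α v))) = 1) (n : ℕ) :
    α^[n] v = v * dl α v ^ n * dl α (dl α v) ^ n.choose 2 * dl α (dl α (dl α v)) ^ n.choose 3 := by
  induction n with
  | zero => simp
  | succ n ih =>
    rw [Function.iterate_succ_apply', ih, map_mul, map_mul, map_mul, map_pow, map_pow, map_pow,
      apply_eq α v, apply_eq α (dl α v), apply_eq α (dl α (dl α v)),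
      apply_eq α (dl α (dl α (dl α v))), h4, mul_one]
    have e2 : (n + 1).choose 2 = n + n.choose 2 := by
      rw [Nat.choose_succ_succ' n 1, Nat.choose_one_right]
    have e3 : (n + 1).choose 3 = n.choose 2 + n.choose 3 := Nat.choose_succ_succ' n 2
    rw [e2, e3]
    simp only [mul_pow, pow_succ, pow_add]
    ac_rfl

/-- the non-surjectivity computation -/
theorem ne_of_cube {p : ℕ} (hp : p.Prime) (hp2 : p ≠ 2) (hexp : ∀ v : V, v ^ p = 1) (x : V)
    (h4 : dl α (dl α (dl α (dl α x))) = 1) (h3 : dl α (dl α (dl α x)) ≠ 1)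
    (i : ℕ) (z : V) (hz : α z = z) : dl α (dl α x) ≠ x⁻¹ * α^[i] x * z := by
  intro heq
  rw [iterate_eq α x h4 i] at heq
  have hz1 : dl α z = 1 := by rw [dl_apply, hz, inv_mul_cancel]
  have heq' : dl α (dl α x) = dl α x ^ i * dl α (dl α x) ^ i.choose 2 *
      dl α (dl α (dl α x)) ^ i.choose 3 * z :=
    heq.trans (by simp only [mul_assoc, inv_mul_cancel_left])
  have E1 : dl α (dl α (dl α x)) = dl α (dl α x) ^ i * dl α (dl α (dl α x)) ^ i.choose 2 := by
    have := congrArg (dl α) heq'
    rw [map_mul, map_mul, map_mul, map_pow, map_pow, map_pow, h4, hz1, one_pow, mul_one,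
      mul_one] at this
    exact this
  have E2 : dl α (dl α (dl α x)) ^ i = 1 := by
    have := congrArg (dl α) E1
    rw [map_mul, map_pow, map_pow, h4, one_pow, mul_one] at this
    exact this.symm
  have hord : orderOf (dl α (dl α (dl α x))) = p := by
    have h1 : orderOf (dl α (dl α (dl α x))) ∣ p := orderOf_dvd_of_pow_eq_one (hexp _)
    rcases (Nat.dvd_prime hp).mp h1 with h | h
    · exact absurd (orderOf_eq_one_iff.mp h) h3
    · exact h
  have hpi : p ∣ i := by rw [← hord]; exact orderOf_dvd_of_pow_eq_one E2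
  have hpc : p ∣ i.choose 2 := by
    rcases Nat.eq_zero_or_pos i with h0 | hpos
    · rw [h0]; simp
    · obtain ⟨n, rfl⟩ : ∃ n, i = n + 1 := ⟨i - 1, by omega⟩
      have h1 : (n + 1) * n.choose 1 = (n + 1).choose 2 * 2 := Nat.add_one_mul_choose_eq n 1
      have h2 : p ∣ (n + 1).choose 2 * 2 := by rw [← h1]; exact Dvd.dvd.mul_right hpi _
      have hcop : p.Coprime 2 := (Nat.coprime_primes hp Nat.prime_two).mpr hp2
      exact hcop.dvd_of_dvd_mul_right h2
  obtain ⟨k, hk⟩ := hpi
  obtain ⟨l, hl⟩ := hpc
  rw [hl, hk, pow_mul, pow_mul, hexp, hexp, one_pow, one_pow, mul_one] at E1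
  exact h3 E1

end BF

/-- **Chain lemma.** -/
theorem chain_vanish {Z : Type*} [CommGroup Z] (s : Z →* Z) (b : ℕ → ℕ → Z) (d : ℕ)
    (hd : Odd d)
    (hskew : ∀ i j, b j i = (b i j)⁻¹) (hdiag : ∀ i, b i i = 1)
    (hzero : ∀ i j, d ≤ i → b i j = 1)
    (hrel : ∀ i j, s (b i j) = b i (j+1) * b (i+1) j * b (i+1) (j+1))
    (hss : ∀ z, s (s z) = 1) :
    ∀ i j, d ≤ i + j → b i j = 1 := by
  have hzero' : ∀ i j, d ≤ j → b i j = 1 := by
    intro i j h; rw [hskew j i, hzero j i h, inv_one]
  have hc0 : ∀ i j, (d ≤ i ∨ d ≤ j) → s (b i j) = 1 := by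
    rintro i j (h | h)
    · rw [hzero i j h, map_one]
    · rw [hzero' i j h, map_one]
  have hcrel : ∀ i j, s (b i (j+1)) * s (b (i+1) j) * s (b (i+1) (j+1)) = 1 := by
    intro i j
    rw [← map_mul, ← map_mul, ← hrel, hss]
  have step1 : ∀ k j i, d ≤ i + j → 2 * d ≤ i + j + k → s (b i j) = 1 := by
    intro k
    induction k with
    | zero =>
      intro j i _ h2
      apply hc0
      omega
    | succ k ihk =>
      intro j
      induction j with
      | zero =>
        intro i h1 _
        exact hc0 i 0 (Or.inl (by omega))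
      | succ j ihj =>
        intro i h1 h2
        have h := hcrel i j
        rw [ihj (i+1) (by omega) (by omega), ihk (j+1) (i+1) (by omega) (by omega), mul_one,
          mul_one] at h
        exact h
  have S1 : ∀ i j, d ≤ i + j → s (b i j) = 1 := fun i j h => step1 (2 * d) j i h (by omega)
  have step2 : ∀ k j i, d + 1 ≤ i + j → 2 * d ≤ i + j + k → b i j = 1 := by
    intro k
    induction k with
    | zero =>
      intro j i _ h2
      rcases Nat.lt_or_ge i d with h | h
      · exact hzero' i j (by omega)
      · exact hzero i j h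
    | succ k ihk =>
      intro j
      induction j with
      | zero =>
        intro i h1 _
        exact hzero i 0 (by omega)
      | succ j ihj =>
        intro i h1 h2
        have h := hrel i j
        rw [S1 i j (by omega), ihj (i+1) (by omega) (by omega),
          ihk (j+1) (i+1) (by omega) (by omega), mul_one, mul_one] at h
        exact h.symm
  have S2 : ∀ i j, d + 1 ≤ i + j → b i j = 1 := fun i j h => step2 (2 * d) j i h (by omega)
  obtain ⟨m, hm⟩ := hd
  have step3 : ∀ t u, t + u = m → s (b (m + t) u) = 1 := by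
    intro t
    induction t with
    | zero =>
      intro u hu
      have : u = m := by omega
      rw [this, Nat.add_zero, hdiag, map_one]
    | succ t iht =>
      intro u hu
      have h := hcrel (m + t) u
      rw [iht (u+1) (by omega), S1 (m + t + 1) (u + 1) (by omega), one_mul, mul_one] at h
      exact h
  have S3 : ∀ i j, i + j = 2 * m → s (b i j) = 1 := by
    intro i j hij
    rcases Nat.lt_or_ge i m with h | h
    · obtain ⟨t, rfl⟩ : ∃ t, j = m + t := ⟨j - m, by omega⟩
      rw [hskew (m + t) i, map_inv, step3 t i (by omega), inv_one]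
    · obtain ⟨t, rfl⟩ : ∃ t, i = m + t := ⟨i - m, by omega⟩
      exact step3 t j (by omega)
  have step4 : ∀ j i, i + j = d → b i j = 1 := by
    intro j
    induction j with
    | zero =>
      intro i hi
      exact hzero i 0 (by omega)
    | succ j ihj =>
      intro i hi
      have h := hrel i j
      rw [S3 i j (by omega), ihj (i+1) (by omega), S2 (i+1) (j+1) (by omega), mul_one,
        mul_one] at h
      exact h.symm
  intro i j h
  rcases Nat.eq_or_lt_of_le h with heq | hlt
  · exact step4 j i heq.symm
  · exact S2 i j (by omega)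

end Cfsg.Agent.Lib.Helper67.GlA
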