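import Mathlib
import Cfsg.Agent.Lib.Helper67.GlA
import Cfsg.Agent.Lib.Helper20.Gl1
import Cfsg.Agent.Lib.Helper33.Gl2
import Cfsg.Agent.Lib.Helper20.Gl4
import Cfsg.Agent.Lib.Helper14.Gl5

/-!
# The core configuration of Glauberman's `p ≥ 5` criterion
-/

set_option autoImplicit false

namespace Cfsg.Agent.Lib.Helper67.GlF

open Cfsg.Agent.Lib.Helper67

section Basic

variable {Γ : Type*} [Group Γ]

/-- `x ↦ [x, a] = x⁻¹ a⁻¹ x a` -/
def it (a : Γ) : Γ → Γ := fun x => x⁻¹ * a⁻¹ * x * a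

theorem it_apply (a x : Γ) : it a x = x⁻¹ * a⁻¹ * x * a := rfl

theorem it_one (a : Γ) : it a 1 = 1 := by simp [it]

theorem it_mem {N : Subgroup Γ} [hN : N.Normal] (a : Γ) {x : Γ} (hx : x ∈ N) : it a x ∈ N := by
  have h1 : a⁻¹ * x * a ∈ N := by simpa using hN.conj_mem x hx a⁻¹
  have h2 : it a x = x⁻¹ * (a⁻¹ * x * a) := by rw [it_apply]; group
  rw [h2]; exact mul_mem (inv_mem hx) h1

theorem it_iterate_mem {N : Subgroup Γ} [hN : N.Normal] (a : Γ) {x : Γ} (hx : x ∈ N) (n : ℕ) :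
    (it a)^[n] x ∈ N := by
  induction n with
  | zero => exact hx
  | succ n ih => rw [Function.iterate_succ_apply']; exact it_mem a ih

theorem it_iterate_mem_of_le {N : Subgroup Γ} [hN : N.Normal] (a : Γ) {x : Γ} {m n : ℕ}
    (hmn : m ≤ n) (hx : (it a)^[m] x ∈ N) : (it a)^[n] x ∈ N := by
  obtain ⟨k, rfl⟩ := Nat.exists_eq_add_of_le hmn
  rw [Nat.add_comm, Function.iterate_add_apply]
  exact it_iterate_mem a hx k

theorem conj_eq (a x : Γ) : a⁻¹ * x * a = x * it a x := by rw [it_apply]; group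

theorem commute_of_it_eq_one {a x : Γ} (h : it a x = 1) : x * a = a * x := by
  have : a⁻¹ * x * a = x := by rw [conj_eq, h, mul_one]
  calc x * a = a * (a⁻¹ * x * a) := by group
    _ = a * x := by rw [this]

/-- bilinearity of commutators, left variable -/
theorem comm_mul_left (x x' v : Γ) (hc : Commute (x⁻¹ * v⁻¹ * x * v) x') :
    (x * x')⁻¹ * v⁻¹ * (x * x') * v = (x⁻¹ * v⁻¹ * x * v) * (x'⁻¹ * v⁻¹ * x' * v) := by
  have e : (x * x')⁻¹ * v⁻¹ * (x * x') * v =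
      x'⁻¹ * ((x⁻¹ * v⁻¹ * x * v) * x') * (x'⁻¹ * v⁻¹ * x' * v) := by group
  rw [e, hc.eq, inv_mul_cancel_left]

/-- bilinearity of commutators, right variable -/
theorem comm_mul_right (u y y' : Γ) (hc : Commute (u⁻¹ * y⁻¹ * u * y) y') :
    u⁻¹ * (y * y')⁻¹ * u * (y * y') = (u⁻¹ * y'⁻¹ * u * y') * (u⁻¹ * y⁻¹ * u * y) := by
  have e : u⁻¹ * (y * y')⁻¹ * u * (y * y') =
      (u⁻¹ * y'⁻¹ * u * y') * (y'⁻¹ * ((u⁻¹ * y⁻¹ * u * y) * y')) := by group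
  rw [e, hc.eq, inv_mul_cancel_left]

theorem comm_eq_one_of_commute {x y : Γ} (h : x * y = y * x) : x⁻¹ * y⁻¹ * x * y = 1 := by
  rw [mul_assoc, h, ← mul_assoc, inv_mul_cancel_right, inv_mul_cancel]

theorem commute_of_comm_eq_one {x y : Γ} (h : x⁻¹ * y⁻¹ * x * y = 1) : x * y = y * x := by
  calc x * y = y * x * (x⁻¹ * y⁻¹ * x * y) := by group
    _ = y * x := by rw [h, mul_one]

/-- powers of a commutator which commutes with the second variable -/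
theorem conj_pow_eq (x y : Γ) (hc : Commute (x⁻¹ * y⁻¹ * x * y) y) (n : ℕ) :
    (y ^ n)⁻¹ * x * y ^ n = x * (x⁻¹ * y⁻¹ * x * y) ^ n := by
  induction n with
  | zero => simp
  | succ n ih =>
    have e : (y ^ (n + 1))⁻¹ * x * y ^ (n + 1) = y⁻¹ * ((y ^ n)⁻¹ * x * y ^ n) * y := by
      rw [pow_succ]; group
    have e2 : y⁻¹ * (x * (x⁻¹ * y⁻¹ * x * y) ^ n) * y =
        x * (x⁻¹ * y⁻¹ * x * y) * (y⁻¹ * ((x⁻¹ * y⁻¹ * x * y) ^ n * y)) := by group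
    rw [e, ih, e2, (hc.pow_left n).eq, inv_mul_cancel_left, pow_succ', mul_assoc]

theorem comm_of_closure {S : Set Γ} (h : ∀ x ∈ S, ∀ y ∈ S, x * y = y * x) :
    ∀ x ∈ Subgroup.closure S, ∀ y ∈ Subgroup.closure S, x * y = y * x := by
  have h1 : Subgroup.closure S ≤ Subgroup.centralizer S := by
    rw [Subgroup.closure_le]
    intro x hx
    rw [SetLike.mem_coe, Subgroup.mem_centralizer_iff]
    intro y hy
    exact h y hy x hx
  have h2 : Subgroup.closure S ≤ Subgroup.centralizer (Subgroup.closure S : Set Γ) := by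
    rw [Subgroup.centralizer_closure]
    exact h1
  intro x hx y hy
  exact ((Subgroup.mem_centralizer_iff.mp (h2 hx)) y hy).symm

theorem exists_iterate_eq_one' [Finite Γ] (p : ℕ) [Fact p.Prime]
    (P : Subgroup Γ) (hP : IsPGroup p P) (a w : Γ) (ha : a ∈ P) (hw : w ∈ P) :
    ∃ n : ℕ, (it a)^[n] w = 1 := by
  have hnil : Group.IsNilpotent ↥P := hP.isNilpotent
  obtain ⟨n, hn⟩ := (Subgroup.isNilpotent_iff_lowerCentralSeries P).mp hnil
  refine ⟨n, ?_⟩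
  have h : ∀ k, (it a)^[k] w ∈ P.lowerCentralSeries k := by
    intro k
    induction k with
    | zero => exact hw
    | succ k ih =>
      rw [Function.iterate_succ_apply', Subgroup.lowerCentralSeries_succ]
      have h1 := Subgroup.commutator_mem_commutator (inv_mem ih) (inv_mem ha)
      rw [commutatorElement_def, inv_inv, inv_inv] at h1
      exact h1
  have := h n
  rw [hn, Subgroup.mem_bot] at this
  exact this

/-- elements of `Y` of order dividing `p` centralized by `H` -/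
def Y0 (p : ℕ) (H Y : Subgroup Γ) (hYab : ∀ x ∈ Y, ∀ y ∈ Y, x * y = y * x) : Subgroup Γ where
  carrier := {y | y ∈ Y ∧ y ^ p = 1 ∧ ∀ h ∈ H, h * y = y * h}
  mul_mem' := by
    rintro x y ⟨hx, hxp, hxH⟩ ⟨hy, hyp, hyH⟩
    refine ⟨mul_mem hx hy, ?_, ?_⟩
    · rw [(show Commute x y from hYab x hx y hy).mul_pow, hxp, hyp, one_mul]
    · intro h hh
      exact ((show Commute h x from hxH h hh).mul_right (hyH h hh)).eq
  one_mem' := ⟨one_mem _, one_pow _, fun h _ => by simp⟩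
  inv_mem' := by
    rintro x ⟨hx, hxp, hxH⟩
    refine ⟨inv_mem hx, by rw [inv_pow, hxp, inv_one], ?_⟩
    intro h hh
    exact ((show Commute h x from hxH h hh).inv_right).eq

theorem mem_Y0 (p : ℕ) (H Y : Subgroup Γ) (hYab : ∀ x ∈ Y, ∀ y ∈ Y, x * y = y * x) (y : Γ) :
    y ∈ Y0 p H Y hYab ↔ y ∈ Y ∧ y ^ p = 1 ∧ ∀ h ∈ H, h * y = y * h := Iff.rfl

end Basic

section Core

variable {Γ : Type*} [Group Γ] [Finite Γ]

/-- the configuration inside the minimal normal subgroup `B` -/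
structure Cfg (p : ℕ) (H B Y A : Subgroup Γ) (a : Γ) : Prop where
  hH : IsPGroup p H
  hHn : H.Normal
  hBn : B.Normal
  hYn : Y.Normal
  hYB : Y ≤ B
  hBH : B ≤ H
  hYZ : ∀ y ∈ Y, ∀ b ∈ B, y * b = b * y
  hBHY : ∀ b ∈ B, ∀ h ∈ H, b⁻¹ * h⁻¹ * b * h ∈ Y
  hBp : ∀ b ∈ B, b ^ p ∈ Y
  hAab : ∀ x ∈ A, ∀ y ∈ A, x * y = y * x
  ha : a ∈ A
  hap : ∃ n : ℕ, a ^ p ^ n = 1
  hgen : ∀ g ∈ A, ∃ i : ℕ, ∃ u ∈ A ⊓ H, g = a ^ i * u
  hmax : ∀ T : Subgroup Γ, (∀ s ∈ T, ∀ t ∈ T, s * t = t * s) → T ≤ A ⊔ H →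
    Nat.card T ≤ Nat.card A

variable {p : ℕ} [Fact p.Prime] {H B Y A : Subgroup Γ} {a : Γ}

omit [Finite Γ] [Fact p.Prime] in
theorem Cfg.hYab (c : Cfg p H B Y A a) : ∀ x ∈ Y, ∀ y ∈ Y, x * y = y * x :=
  fun x hx y hy => c.hYZ x hx y (c.hYB hy)

theorem Cfg.nil (c : Cfg p H B Y A a) (w : Γ) (hw : w ∈ H) : ∃ n : ℕ, (it a)^[n] w = 1 := by
  have := c.hHn
  have hz : IsPGroup p (Subgroup.zpowers a) := by
    obtain ⟨n, hn⟩ := c.hap
    rintro ⟨g, hg⟩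
    obtain ⟨i, rfl⟩ := Subgroup.mem_zpowers_iff.mp hg
    refine ⟨n, Subtype.ext ?_⟩
    show (a ^ i) ^ p ^ n = 1
    rw [← zpow_natCast, ← zpow_mul, mul_comm, zpow_mul, zpow_natCast, hn, one_zpow]
  have hP : IsPGroup p (Subgroup.zpowers a ⊔ H : Subgroup Γ) := hz.to_sup_of_normal_right c.hH
  exact exists_iterate_eq_one' p _ hP a w (Subgroup.mem_sup_left (Subgroup.mem_zpowers a))
    (Subgroup.mem_sup_right hw)

omit [Finite Γ] [Fact p.Prime] in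
theorem Cfg.conj_mem_Y0 (c : Cfg p H B Y A a) {y : Γ} (hy : y ∈ Y0 p H Y c.hYab) :
    a⁻¹ * y * a ∈ Y0 p H Y c.hYab := by
  obtain ⟨hyY, hyp, hyH⟩ := hy
  refine ⟨by simpa using c.hYn.conj_mem y hyY a⁻¹, ?_, ?_⟩
  · have h1 : (a⁻¹ * y * a) ^ p = a⁻¹ * y ^ p * a := by
      have := conj_pow (a := a⁻¹) (b := y) (i := p)
      simpa using this
    rw [h1, hyp]; group
  · intro h hh
    have hh' : a * h * a⁻¹ ∈ H := c.hHn.conj_mem h hh a
    have h2 := hyH _ hh'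
    calc h * (a⁻¹ * y * a) = a⁻¹ * ((a * h * a⁻¹) * y) * a := by group
      _ = a⁻¹ * (y * (a * h * a⁻¹)) * a := by rw [h2]
      _ = a⁻¹ * y * a * h := by group

omit [Finite Γ] [Fact p.Prime] in
theorem Cfg.it_mem_Y0 (c : Cfg p H B Y A a) {y : Γ} (hy : y ∈ Y0 p H Y c.hYab) :
    it a y ∈ Y0 p H Y c.hYab := by
  have h2 : it a y = y⁻¹ * (a⁻¹ * y * a) := by rw [it_apply]; group
  rw [h2]
  exact mul_mem (inv_mem hy) (c.conj_mem_Y0 hy)

omit [Finite Γ] [Fact p.Prime] in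
theorem Cfg.it_iterate_mem_Y0 (c : Cfg p H B Y A a) {y : Γ} (hy : y ∈ Y0 p H Y c.hYab) (n : ℕ) :
    (it a)^[n] y ∈ Y0 p H Y c.hYab := by
  induction n with
  | zero => exact hy
  | succ n ih => rw [Function.iterate_succ_apply']; exact c.it_mem_Y0 ih

omit [Finite Γ] [Fact p.Prime] in
theorem Cfg.comm_mem_Y0 (c : Cfg p H B Y A a) {x z : Γ} (hx : x ∈ B) (hz : z ∈ B) :
    x⁻¹ * z⁻¹ * x * z ∈ Y0 p H Y c.hYab := by
  have hcY : x⁻¹ * z⁻¹ * x * z ∈ Y := c.hBHY x hx z (c.hBH hz)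
  refine ⟨hcY, ?_, ?_⟩
  · have hc : Commute (x⁻¹ * z⁻¹ * x * z) z := c.hYZ _ hcY z hz
    have h1 := conj_pow_eq x z hc p
    have hcomm : z ^ p * x = x * z ^ p := c.hYZ _ (c.hBp z hz) x hx
    rw [mul_assoc, ← hcomm, inv_mul_cancel_left] at h1
    exact mul_left_cancel (a := x) (by rw [mul_one]; exact h1.symm)
  · intro h hh
    have hyx : x⁻¹ * h * x * h⁻¹ ∈ Y := by
      have := c.hBHY x hx h⁻¹ (inv_mem hh)
      rwa [inv_inv] at this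
    have hyz : z⁻¹ * h * z * h⁻¹ ∈ Y := by
      have := c.hBHY z hz h⁻¹ (inv_mem hh)
      rwa [inv_inv] at this
    have hzz : z * (z⁻¹ * h * z * h⁻¹) ∈ B := mul_mem hz (c.hYB hyz)
    have e0 : h * (x⁻¹ * z⁻¹ * x * z) * h⁻¹ =
        (x * (x⁻¹ * h * x * h⁻¹))⁻¹ * (z * (z⁻¹ * h * z * h⁻¹))⁻¹ * (x * (x⁻¹ * h * x * h⁻¹)) *
          (z * (z⁻¹ * h * z * h⁻¹)) := by group
    have hc1 : Commute (x⁻¹ * (z * (z⁻¹ * h * z * h⁻¹))⁻¹ * x * (z * (z⁻¹ * h * z * h⁻¹)))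
        (x⁻¹ * h * x * h⁻¹) :=
      (c.hYZ _ hyx _ (mul_mem (mul_mem (mul_mem (inv_mem hx) (inv_mem hzz)) hx) hzz)).symm
    have hc2 : Commute (x⁻¹ * z⁻¹ * x * z) (z⁻¹ * h * z * h⁻¹) := c.hYZ _ hcY _ (c.hYB hyz)
    have e1 := comm_mul_left x (x⁻¹ * h * x * h⁻¹) (z * (z⁻¹ * h * z * h⁻¹)) hc1
    have e2 : (x⁻¹ * h * x * h⁻¹)⁻¹ * (z * (z⁻¹ * h * z * h⁻¹))⁻¹ * (x⁻¹ * h * x * h⁻¹) *
        (z * (z⁻¹ * h * z * h⁻¹)) = 1 := comm_eq_one_of_commute (c.hYZ _ hyx _ hzz)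
    have e3 := comm_mul_right x z (z⁻¹ * h * z * h⁻¹) hc2
    have e4 : x⁻¹ * (z⁻¹ * h * z * h⁻¹)⁻¹ * x * (z⁻¹ * h * z * h⁻¹) = 1 :=
      comm_eq_one_of_commute (c.hYZ _ hyz x hx).symm
    rw [e1, e2, mul_one, e3, e4, one_mul] at e0
    exact mul_inv_eq_iff_eq_mul.mp e0

theorem Cfg.sq_zero (c : Cfg p H B Y A a) (hp2 : p ≠ 2) {y : Γ} (hy : y ∈ Y0 p H Y c.hYab) :
    it a (it a y) = 1 := by
  classical
  by_contra hne
  have hyH : y ∈ H := c.hBH (c.hYB hy.1)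
  have hex := c.nil y hyH
  have hmin := @Nat.find_min _ _ hex
  have hspec := Nat.find_spec hex
  obtain ⟨n, hn⟩ : ∃ n, Nat.find hex = n := ⟨_, rfl⟩
  rw [hn] at hspec
  have h21 : ∀ m, (it a)^[m] (1 : Γ) = 1 := fun m => by
    induction m with
    | zero => rfl
    | succ m ih => rw [Function.iterate_succ_apply', ih, it_one]
  have hn3 : 3 ≤ n := by
    by_contra hlt
    apply hne
    obtain ⟨k, hk⟩ := Nat.exists_eq_add_of_le (show n ≤ 2 by omega)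
    have : (it a)^[2] y = 1 := by
      rw [hk, Nat.add_comm, Function.iterate_add_apply, hspec, h21]
    exact this
  obtain ⟨k, rfl⟩ : ∃ k, n = k + 3 := ⟨n - 3, by omega⟩
  have hy'0 : (it a)^[k] y ∈ Y0 p H Y c.hYab := c.it_iterate_mem_Y0 hy k
  have e1 : it a ((it a)^[k] y) = (it a)^[k+1] y := (Function.iterate_succ_apply' _ _ _).symm
  have e2 : it a (it a ((it a)^[k] y)) = (it a)^[k+2] y := by
    rw [e1]; exact (Function.iterate_succ_apply' _ _ _).symm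
  have e3 : it a (it a (it a ((it a)^[k] y))) = 1 := by
    rw [e2, ← Function.iterate_succ_apply' (it a) (k+2) y]; exact hspec
  have hne2 : it a (it a ((it a)^[k] y)) ≠ 1 := by
    rw [e2]
    exact hmin (by rw [hn]; omega)
  have hy1 := c.it_mem_Y0 hy'0
  have hy2 := c.it_mem_Y0 hy1
  obtain ⟨T, hTab, hTle, hTcard⟩ := Cfsg.Agent.Lib.Helper20.Gl4.exists_larger_of_cube p hp2 A (A ⊓ H) c.hAab a c.ha
    inf_le_left c.hgen ((it a)^[k] y) (it a ((it a)^[k] y)) (it a (it a ((it a)^[k] y)))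
    (fun u hu => hy'0.2.2 u hu.2) hy'0.2.1 rfl rfl
    (commute_of_it_eq_one e3) (c.hYab _ hy'0.1 _ hy1.1) (c.hYab _ hy'0.1 _ hy2.1)
    (c.hYab _ hy1.1 _ hy2.1) hne2
  have hle : T ≤ A ⊔ H := by
    refine hTle.trans (sup_le le_sup_left (le_sup_of_le_right ?_))
    rw [Subgroup.closure_le]
    intro z hz
    rcases hz with rfl | rfl | rfl
    · exact c.hBH (c.hYB hy'0.1)
    · exact c.hBH (c.hYB hy1.1)
    · exact c.hBH (c.hYB hy2.1)
  have := c.hmax T hTab hle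
  omega

omit [Finite Γ] in
theorem cg_aux {Z : Type*} [CommGroup Z] (b u v w : Z) : b⁻¹ * (u * b * (v * w)) = u * w * v := by
  rw [mul_comm u b, mul_assoc b, inv_mul_cancel_left, mul_comm v w, mul_assoc]

theorem Cfg.chain (c : Cfg p H B Y A a) (hp2 : p ≠ 2) (w : Γ) (hw : w ∈ B) (d : ℕ) (hd : Odd d)
    (hwd : (it a)^[d] w ∈ Y) :
    ∀ i j, d ≤ i + j → (it a)^[i] w * (it a)^[j] w = (it a)^[j] w * (it a)^[i] w := by
  have := c.hHn
  have := c.hBn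
  have := c.hYn
  have hws : ∀ i, (it a)^[i] w ∈ B := fun i => it_iterate_mem a hw i
  have hbb : ∀ i j, ((it a)^[i] w)⁻¹ * ((it a)^[j] w)⁻¹ * (it a)^[i] w * (it a)^[j] w ∈
      Y0 p H Y c.hYab := fun i j => c.comm_mem_Y0 (hws i) (hws j)
  letI : CommGroup ↥(Y0 p H Y c.hYab) :=
    { (inferInstance : Group ↥(Y0 p H Y c.hYab)) with
      mul_comm := fun x y => Subtype.ext (c.hYab x x.2.1 y y.2.1) }
  let α₀ : ↥(Y0 p H Y c.hYab) →* ↥(Y0 p H Y c.hYab) :=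
    { toFun := fun y => ⟨a⁻¹ * y * a, c.conj_mem_Y0 y.2⟩
      map_one' := Subtype.ext (by simp)
      map_mul' := fun x y => Subtype.ext (by
        show a⁻¹ * ((x : Γ) * (y : Γ)) * a = a⁻¹ * x * a * (a⁻¹ * y * a)
        group) }
  have hs : ∀ z : ↥(Y0 p H Y c.hYab), ((GlA.dl α₀ z : ↥(Y0 p H Y c.hYab)) : Γ) = it a (z : Γ) := by
    intro z
    show (z : Γ)⁻¹ * (a⁻¹ * z * a) = _
    rw [it_apply]; group
  have key := GlA.chain_vanish (GlA.dl α₀) (fun i j => ⟨_, hbb i j⟩) d hd ?_ ?_ ?_ ?_ ?_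
  · intro i j hij
    have h1 := congrArg Subtype.val (key i j hij)
    exact commute_of_comm_eq_one h1
  · intro i j
    apply Subtype.ext
    show ((it a)^[j] w)⁻¹ * ((it a)^[i] w)⁻¹ * (it a)^[j] w * (it a)^[i] w =
      (((it a)^[i] w)⁻¹ * ((it a)^[j] w)⁻¹ * (it a)^[i] w * (it a)^[j] w)⁻¹
    group
  · intro i
    apply Subtype.ext
    show ((it a)^[i] w)⁻¹ * ((it a)^[i] w)⁻¹ * (it a)^[i] w * (it a)^[i] w = 1
    group
  · intro i j hi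
    apply Subtype.ext
    have hY : (it a)^[i] w ∈ Y := it_iterate_mem_of_le a hi hwd
    exact comm_eq_one_of_commute (c.hYZ _ hY _ (hws j))
  · intro i j
    have hXi := hws i
    have hXi' := hws (i+1)
    have hZj := hws j
    have hZj' := hws (j+1)
    have E : a⁻¹ * (((it a)^[i] w)⁻¹ * ((it a)^[j] w)⁻¹ * (it a)^[i] w * (it a)^[j] w) * a =
        (((it a)^[i] w)⁻¹ * ((it a)^[j+1] w)⁻¹ * (it a)^[i] w * (it a)^[j+1] w) *
        (((it a)^[i] w)⁻¹ * ((it a)^[j] w)⁻¹ * (it a)^[i] w * (it a)^[j] w) *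
        ((((it a)^[i+1] w)⁻¹ * ((it a)^[j+1] w)⁻¹ * (it a)^[i+1] w * (it a)^[j+1] w) *
        (((it a)^[i+1] w)⁻¹ * ((it a)^[j] w)⁻¹ * (it a)^[i+1] w * (it a)^[j] w)) := by
      have e0 : a⁻¹ * (((it a)^[i] w)⁻¹ * ((it a)^[j] w)⁻¹ * (it a)^[i] w * (it a)^[j] w) * a =
          (a⁻¹ * (it a)^[i] w * a)⁻¹ * (a⁻¹ * (it a)^[j] w * a)⁻¹ * (a⁻¹ * (it a)^[i] w * a) *
            (a⁻¹ * (it a)^[j] w * a) := by group
      rw [e0, conj_eq a ((it a)^[i] w), conj_eq a ((it a)^[j] w),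
        ← Function.iterate_succ_apply' (it a) i w, ← Function.iterate_succ_apply' (it a) j w]
      have hc1 : Commute (((it a)^[i] w)⁻¹ * ((it a)^[j] w * (it a)^[j+1] w)⁻¹ * (it a)^[i] w *
          ((it a)^[j] w * (it a)^[j+1] w)) ((it a)^[i+1] w) :=
        c.hYZ _ (c.hBHY _ hXi _ (c.hBH (mul_mem hZj hZj'))) _ hXi'
      have hc2 : Commute (((it a)^[i] w)⁻¹ * ((it a)^[j] w)⁻¹ * (it a)^[i] w * (it a)^[j] w)
          ((it a)^[j+1] w) := c.hYZ _ (hbb i j).1 _ hZj'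
      have hc3 : Commute (((it a)^[i+1] w)⁻¹ * ((it a)^[j] w)⁻¹ * (it a)^[i+1] w * (it a)^[j] w)
          ((it a)^[j+1] w) := c.hYZ _ (hbb (i+1) j).1 _ hZj'
      rw [comm_mul_left _ _ _ hc1, comm_mul_right _ _ _ hc2, comm_mul_right _ _ _ hc3]
    have E' : α₀ ⟨_, hbb i j⟩ = (⟨_, hbb i (j+1)⟩ : ↥(Y0 p H Y c.hYab)) * ⟨_, hbb i j⟩ *
        (⟨_, hbb (i+1) (j+1)⟩ * ⟨_, hbb (i+1) j⟩) := Subtype.ext E
    show GlA.dl α₀ ⟨_, hbb i j⟩ = _
    rw [GlA.dl_apply, E']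
    exact cg_aux _ _ _ _
  · intro z
    apply Subtype.ext
    rw [hs, hs]
    exact c.sq_zero hp2 z.2

theorem Cfg.final (c : Cfg p H B Y A a) (hp2 : p ≠ 2) (w : Γ) (hw : w ∈ B) (k : ℕ) (hk : 1 ≤ k)
    (hwd : (it a)^[k+4] w ∈ Y) (hwd1 : (it a)^[k+3] w ∉ Y)
    (hcomm : ∀ i j, k + 4 ≤ i + j →
      (it a)^[i] w * (it a)^[j] w = (it a)^[j] w * (it a)^[i] w) : False := by
  have := c.hHn
  have := c.hBn
  have hYn := c.hYn
  have hp : p.Prime := Fact.out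
  have hws : ∀ i, (it a)^[i] w ∈ B := fun i => it_iterate_mem a hw i
  have hxB : (it a)^[k] w ∈ B := hws k
  have e1 : it a ((it a)^[k] w) = (it a)^[k+1] w := (Function.iterate_succ_apply' _ _ _).symm
  have e2 : it a ((it a)^[k+1] w) = (it a)^[k+2] w := (Function.iterate_succ_apply' _ _ _).symm
  have e3 : it a ((it a)^[k+2] w) = (it a)^[k+3] w := (Function.iterate_succ_apply' _ _ _).symm
  have e4 : it a ((it a)^[k+3] w) = (it a)^[k+4] w := (Function.iterate_succ_apply' _ _ _).symm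
  -- the quotient by `Y`
  have hπs : Function.Surjective (QuotientGroup.mk' Y) := QuotientGroup.mk'_surjective Y
  have hVn : (B.map (QuotientGroup.mk' Y)).Normal := c.hBn.map _ hπs
  have hπ1 : ∀ g : Γ, QuotientGroup.mk' Y g = 1 ↔ g ∈ Y := fun g => QuotientGroup.eq_one_iff g
  have hπeq : ∀ g g' : Γ, QuotientGroup.mk' Y g = QuotientGroup.mk' Y g' → g⁻¹ * g' ∈ Y := by
    intro g g' h
    rw [← hπ1, map_mul, map_inv, h, inv_mul_cancel]
  have hVab : ∀ u ∈ B.map (QuotientGroup.mk' Y), ∀ v ∈ B.map (QuotientGroup.mk' Y),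
      u * v = v * u := by
    rintro _ ⟨b, hb, rfl⟩ _ ⟨b', hb', rfl⟩
    have h1 := (hπ1 _).mpr (c.hBHY b hb b' (c.hBH hb'))
    rw [map_mul, map_mul, map_mul, map_inv, map_inv] at h1
    exact commute_of_comm_eq_one h1
  letI : CommGroup ↥(B.map (QuotientGroup.mk' Y)) :=
    { (inferInstance : Group ↥(B.map (QuotientGroup.mk' Y))) with
      mul_comm := fun u v => Subtype.ext (hVab u u.2 v v.2) }
  have hVp : ∀ v : ↥(B.map (QuotientGroup.mk' Y)), v ^ p = 1 := by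
    rintro ⟨_, b, hb, rfl⟩
    apply Subtype.ext
    show QuotientGroup.mk' Y b ^ p = 1
    rw [← map_pow, hπ1]; exact c.hBp b hb
  let α : ↥(B.map (QuotientGroup.mk' Y)) →* ↥(B.map (QuotientGroup.mk' Y)) :=
    (MulAut.conjNormal (QuotientGroup.mk' Y a)⁻¹ : MulAut ↥(B.map (QuotientGroup.mk' Y))).toMonoidHom
  have hα : ∀ v : ↥(B.map (QuotientGroup.mk' Y)),
      ((α v : ↥(B.map (QuotientGroup.mk' Y))) : Γ ⧸ Y) =
        (QuotientGroup.mk' Y a)⁻¹ * v * QuotientGroup.mk' Y a := by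
    intro v
    show ((MulAut.conjNormal (QuotientGroup.mk' Y a)⁻¹ v : ↥(B.map (QuotientGroup.mk' Y))) : Γ ⧸ Y)
      = _
    rw [MulAut.conjNormal_apply, inv_inv]
  let vv : ∀ b : Γ, b ∈ B → ↥(B.map (QuotientGroup.mk' Y)) :=
    fun b hb => ⟨QuotientGroup.mk' Y b, Subgroup.mem_map_of_mem _ hb⟩
  have hvv_congr : ∀ (b b' : Γ) (hb : b ∈ B) (hb' : b' ∈ B), b = b' → vv b hb = vv b' hb' := by
    intro b b' hb hb' h
    subst h; rfl
  have hvv_it : ∀ (b : Γ) (hb : b ∈ B), vv (it a b) (it_mem a hb) = GlA.dl α (vv b hb) := by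
    intro b hb
    apply Subtype.ext
    show QuotientGroup.mk' Y (it a b) =
      (QuotientGroup.mk' Y b)⁻¹ * ((α (vv b hb) : ↥(B.map (QuotientGroup.mk' Y))) : Γ ⧸ Y)
    rw [hα, it_apply]
    simp only [map_mul, map_inv, mul_assoc]
    rfl
  have hd1 : GlA.dl α (vv _ hxB) = vv _ (hws (k+1)) := by
    rw [← hvv_it _ hxB]; exact hvv_congr _ _ (it_mem a hxB) (hws (k+1)) e1
  have hd2 : GlA.dl α (GlA.dl α (vv _ hxB)) = vv _ (hws (k+2)) := by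
    rw [hd1, ← hvv_it _ (hws (k+1))]; exact hvv_congr _ _ (it_mem a (hws (k+1))) (hws (k+2)) e2
  have hd3 : GlA.dl α (GlA.dl α (GlA.dl α (vv _ hxB))) = vv _ (hws (k+3)) := by
    rw [hd2, ← hvv_it _ (hws (k+2))]; exact hvv_congr _ _ (it_mem a (hws (k+2))) (hws (k+3)) e3
  have hd4 : GlA.dl α (GlA.dl α (GlA.dl α (GlA.dl α (vv _ hxB)))) = 1 := by
    rw [hd3, ← hvv_it _ (hws (k+3)), hvv_congr _ _ (it_mem a (hws (k+3))) (hws (k+4)) e4]
    exact Subtype.ext ((hπ1 _).mpr hwd)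
  have h3 : GlA.dl α (GlA.dl α (GlA.dl α (vv _ hxB))) ≠ 1 := by
    rw [hd3]
    intro h
    exact hwd1 ((hπ1 _).mp (congrArg Subtype.val h))
  have hiter : ∀ i : ℕ, ((α^[i] (vv _ hxB) : ↥(B.map (QuotientGroup.mk' Y))) : Γ ⧸ Y) =
      ((QuotientGroup.mk' Y a)⁻¹) ^ i * QuotientGroup.mk' Y ((it a)^[k] w) *
        (QuotientGroup.mk' Y a) ^ i := by
    intro i
    induction i with
    | zero => simp [vv]
    | succ i ih =>
      rw [Function.iterate_succ_apply', hα, ih, pow_succ', pow_succ]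
      simp only [mul_assoc]
  have hK3 : ∀ u ∈ H, ∀ v ∈ B.map (QuotientGroup.mk' Y),
      (QuotientGroup.mk' Y u)⁻¹ * v * QuotientGroup.mk' Y u = v := by
    rintro u hu _ ⟨b, hb, rfl⟩
    have h1 := (hπ1 _).mpr (c.hBHY b hb u hu)
    rw [map_mul, map_mul, map_mul, map_inv, map_inv] at h1
    have h2 := commute_of_comm_eq_one h1
    rw [mul_assoc, h2, inv_mul_cancel_left]
  -- the image of `[x, g]`
  have hφ : ∀ g ∈ A, ∃ i : ℕ, QuotientGroup.mk' Y (((it a)^[k] w)⁻¹ * g⁻¹ * (it a)^[k] w * g) =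
      (((vv _ hxB)⁻¹ * α^[i] (vv _ hxB) : ↥(B.map (QuotientGroup.mk' Y))) : Γ ⧸ Y) := by
    intro g hg
    obtain ⟨i, u, hu, rfl⟩ := c.hgen g hg
    refine ⟨i, ?_⟩
    show _ = (QuotientGroup.mk' Y ((it a)^[k] w))⁻¹ *
      ((α^[i] (vv _ hxB) : ↥(B.map (QuotientGroup.mk' Y))) : Γ ⧸ Y)
    have h1 := hK3 u hu.2 _ (α^[i] (vv _ hxB)).2
    rw [hiter] at h1 ⊢
    rw [← h1]
    simp only [map_mul, map_inv, map_pow, mul_inv_rev, inv_pow, mul_assoc]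
  -- the abelian subgroup containing all `[x, g]`
  have hmm : ∀ i j, k + 1 ≤ i → k + 1 ≤ j →
      (it a)^[i] w * (it a)^[j] w = (it a)^[j] w * (it a)^[i] w := by
    intro i j hi hj
    rcases eq_or_ne i j with rfl | hne
    · rfl
    · exact hcomm i j (by omega)
  have hSab : ∀ s ∈ ({(it a)^[k+1] w, (it a)^[k+2] w, (it a)^[k+3] w} ∪ (Y : Set Γ) : Set Γ),
      ∀ t ∈ ({(it a)^[k+1] w, (it a)^[k+2] w, (it a)^[k+3] w} ∪ (Y : Set Γ) : Set Γ),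
      s * t = t * s := by
    have hcase : ∀ s ∈ ({(it a)^[k+1] w, (it a)^[k+2] w, (it a)^[k+3] w} ∪ (Y : Set Γ) : Set Γ),
        (∃ i, k + 1 ≤ i ∧ s = (it a)^[i] w) ∨ s ∈ Y := by
      rintro s ((rfl | rfl | rfl) | hs)
      · exact Or.inl ⟨k+1, le_rfl, rfl⟩
      · exact Or.inl ⟨k+2, by omega, rfl⟩
      · exact Or.inl ⟨k+3, by omega, rfl⟩
      · exact Or.inr hs
    intro s hs t ht
    rcases hcase s hs with ⟨i, hi, rfl⟩ | hsY
    · rcases hcase t ht with ⟨j, hj, rfl⟩ | htY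
      · exact hmm i j hi hj
      · exact (c.hYZ t htY _ (hws i)).symm
    · rcases hcase t ht with ⟨j, hj, rfl⟩ | htY
      · exact c.hYZ s hsY _ (hws j)
      · exact c.hYab s hsY t htY
  have hM₀ab := comm_of_closure hSab
  have hφM₀ : ∀ g ∈ A, ((it a)^[k] w)⁻¹ * g⁻¹ * (it a)^[k] w * g ∈
      Subgroup.closure ({(it a)^[k+1] w, (it a)^[k+2] w, (it a)^[k+3] w} ∪ (Y : Set Γ) : Set Γ) := by
    intro g hg
    obtain ⟨i, hi⟩ := hφ g hg
    rw [GlA.iterate_eq α _ hd4 i, hd3, hd2, hd1] at hi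
    have h1 : (((vv _ hxB)⁻¹ * (vv _ hxB * vv _ (hws (k+1)) ^ i * vv _ (hws (k+2)) ^ i.choose 2 *
        vv _ (hws (k+3)) ^ i.choose 3) : ↥(B.map (QuotientGroup.mk' Y))) : Γ ⧸ Y) =
        QuotientGroup.mk' Y ((it a)^[k+1] w ^ i * (it a)^[k+2] w ^ i.choose 2 *
          (it a)^[k+3] w ^ i.choose 3) := by
      rw [map_mul, map_mul, map_pow, map_pow, map_pow]
      simp only [mul_assoc, inv_mul_cancel_left]
      rfl
    rw [h1] at hi
    have h2 := hπeq _ _ hi.symm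
    have h3 : ((it a)^[k] w)⁻¹ * g⁻¹ * (it a)^[k] w * g =
        ((it a)^[k+1] w ^ i * (it a)^[k+2] w ^ i.choose 2 * (it a)^[k+3] w ^ i.choose 3) *
        (((it a)^[k+1] w ^ i * (it a)^[k+2] w ^ i.choose 2 * (it a)^[k+3] w ^ i.choose 3)⁻¹ *
          (((it a)^[k] w)⁻¹ * g⁻¹ * (it a)^[k] w * g)) := by
      rw [mul_inv_cancel_left]
    rw [h3]
    have hg1 : (it a)^[k+1] w ∈ Subgroup.closure
        ({(it a)^[k+1] w, (it a)^[k+2] w, (it a)^[k+3] w} ∪ (Y : Set Γ) : Set Γ) :=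
      Subgroup.subset_closure (Or.inl (Or.inl rfl))
    have hg2 : (it a)^[k+2] w ∈ Subgroup.closure
        ({(it a)^[k+1] w, (it a)^[k+2] w, (it a)^[k+3] w} ∪ (Y : Set Γ) : Set Γ) :=
      Subgroup.subset_closure (Or.inl (Or.inr (Or.inl rfl)))
    have hg3 : (it a)^[k+3] w ∈ Subgroup.closure
        ({(it a)^[k+1] w, (it a)^[k+2] w, (it a)^[k+3] w} ∪ (Y : Set Γ) : Set Γ) :=
      Subgroup.subset_closure (Or.inl (Or.inr (Or.inr rfl)))
    exact mul_mem (mul_mem (mul_mem (pow_mem hg1 _) (pow_mem hg2 _)) (pow_mem hg3 _))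
      (Subgroup.subset_closure (Or.inr h2))
  have hM : ∀ g ∈ A, ∀ h ∈ A,
      (((it a)^[k] w)⁻¹ * g⁻¹ * (it a)^[k] w * g) * (((it a)^[k] w)⁻¹ * h⁻¹ * (it a)^[k] w * h) =
      (((it a)^[k] w)⁻¹ * h⁻¹ * (it a)^[k] w * h) * (((it a)^[k] w)⁻¹ * g⁻¹ * (it a)^[k] w * g) :=
    fun g hg h hh => hM₀ab _ (hφM₀ g hg) _ (hφM₀ h hh)
  have hMB : Subgroup.closure {y | ∃ g ∈ A, y = ((it a)^[k] w)⁻¹ * g⁻¹ * (it a)^[k] w * g} ≤ B := by
    rw [Subgroup.closure_le]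
    rintro _ ⟨g, -, rfl⟩
    exact it_mem g hxB
  have hm₂M : (it a)^[k+2] w ∈
      Subgroup.closure {y | ∃ g ∈ A, y = ((it a)^[k] w)⁻¹ * g⁻¹ * (it a)^[k] w * g} := by
    have h1 : (it a)^[k+2] w = (((it a)^[k] w)⁻¹ * a⁻¹ * (it a)^[k] w * a)⁻¹ *
        ((((it a)^[k] w)⁻¹ * a⁻¹ * (it a)^[k] w * a)⁻¹ *
          (((it a)^[k] w)⁻¹ * (a * a)⁻¹ * (it a)^[k] w * (a * a))) := by
      rw [← e2, ← e1, it_apply, it_apply]; group
    rw [h1]
    have hga : ((it a)^[k] w)⁻¹ * a⁻¹ * (it a)^[k] w * a ∈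
        Subgroup.closure {y | ∃ g ∈ A, y = ((it a)^[k] w)⁻¹ * g⁻¹ * (it a)^[k] w * g} :=
      Subgroup.subset_closure ⟨a, c.ha, rfl⟩
    have hgaa : ((it a)^[k] w)⁻¹ * (a * a)⁻¹ * (it a)^[k] w * (a * a) ∈
        Subgroup.closure {y | ∃ g ∈ A, y = ((it a)^[k] w)⁻¹ * g⁻¹ * (it a)^[k] w * g} :=
      Subgroup.subset_closure ⟨a * a, mul_mem c.ha c.ha, rfl⟩
    exact mul_mem (inv_mem hga) (mul_mem (inv_mem hga) hgaa)
  obtain ⟨T, hTab, hTle, hTcard⟩ := Cfsg.Agent.Lib.Helper14.Gl5.exists_larger_of_not_surj A c.hAab ((it a)^[k] w) hM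
    ((it a)^[k+2] w) hm₂M (by
      intro g hg z hz hzA heq
      have hzB : z ∈ B := hMB hz
      have hαz : α (vv z hzB) = vv z hzB := by
        apply Subtype.ext
        rw [hα]
        show (QuotientGroup.mk' Y a)⁻¹ * QuotientGroup.mk' Y z * QuotientGroup.mk' Y a =
          QuotientGroup.mk' Y z
        rw [← map_inv, ← map_mul, ← map_mul, mul_assoc, ← hzA a c.ha, inv_mul_cancel_left]
      obtain ⟨i, hi⟩ := hφ g hg
      have hgB : ((it a)^[k] w)⁻¹ * g⁻¹ * (it a)^[k] w * g ∈ B := it_mem g hxB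
      have h5 : GlA.dl α (GlA.dl α (vv _ hxB)) = (vv _ hxB)⁻¹ * α^[i] (vv _ hxB) * vv z hzB := by
        rw [hd2]
        apply Subtype.ext
        show QuotientGroup.mk' Y ((it a)^[k+2] w) =
          (((vv _ hxB)⁻¹ * α^[i] (vv _ hxB) : ↥(B.map (QuotientGroup.mk' Y))) : Γ ⧸ Y) *
            QuotientGroup.mk' Y z
        rw [← hi, ← map_mul, heq]
      exact GlA.ne_of_cube α hp hp2 hVp (vv _ hxB) hd4 h3 i (vv z hzB) hαz h5)
  have hle : T ≤ A ⊔ H := hTle.trans (sup_le le_sup_left (le_sup_of_le_right (hMB.trans c.hBH)))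
  have := c.hmax T hTab hle
  omega

/-- **The core theorem.** -/
theorem core (hp : 5 ≤ p) (K : Subgroup Γ) [H.Normal] [K.Normal] (hH : IsPGroup p H)
    (hHK : H ≤ K) (hKK : ∀ x ∈ K, ∀ y ∈ K, x⁻¹ * y⁻¹ * x * y ∈ H)
    (hcop : (H.relIndex K).Coprime p) (hne : ¬ K ≤ H)
    (hCK : ∀ k ∈ K, (∀ h ∈ H, k * h = h * k) → k ∈ H)
    (hAab : ∀ x ∈ A, ∀ y ∈ A, x * y = y * x)
    (ha : a ∈ A) (hap : ∃ n : ℕ, a ^ p ^ n = 1)
    (hgen : ∀ g ∈ A, ∃ i : ℕ, ∃ u ∈ A ⊓ H, g = a ^ i * u)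
    (hfpf : ∀ k ∈ K, k⁻¹ * a⁻¹ * k * a ∈ H → k ∈ H)
    (hmax : ∀ T : Subgroup Γ, (∀ s ∈ T, ∀ t ∈ T, s * t = t * s) → T ≤ A ⊔ H →
      Nat.card T ≤ Nat.card A) : False := by
  classical
  have hp2 : p ≠ 2 := by omega
  obtain ⟨B, Y, hBn, hYn, hYB, hBH, hYZ, hBHY, hBp, hnt⟩ :=
    Cfsg.Agent.Lib.Helper20.Gl1.exists_BY p H K hH hHK hcop hne hCK
  have c : Cfg p H B Y A a :=
    ⟨hH, inferInstance, hBn, hYn, hYB, hBH, hYZ, hBHY, hBp, hAab, ha, hap, hgen, hmax⟩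
  obtain ⟨w₀, hw₀, hw₀4⟩ := Cfsg.Agent.Lib.Helper33.Gl2.exists_not_mem p hp H K B Y hHK hKK hcop hYB
    (fun b hb c' hc' => hBHY b hb c' (hBH hc')) hBHY hBp hnt a hap hfpf
  have hw₀4' : (it a)^[4] w₀ ∉ Y := hw₀4
  have hex : ∃ n, (it a)^[n] w₀ ∈ Y := by
    obtain ⟨n, hn⟩ := c.nil w₀ (hBH hw₀)
    exact ⟨n, by rw [hn]; exact one_mem _⟩
  have hspec := Nat.find_spec hex
  have hmin := @Nat.find_min _ _ hex
  obtain ⟨n₀, hn₀⟩ : ∃ n₀, Nat.find hex = n₀ := ⟨_, rfl⟩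
  rw [hn₀] at hspec
  have hn5 : 5 ≤ n₀ := by
    by_contra hlt
    exact hw₀4' (it_iterate_mem_of_le a (show n₀ ≤ 4 by omega) hspec)
  obtain ⟨k, rfl⟩ : ∃ k, n₀ = k + 5 := ⟨n₀ - 5, by omega⟩
  have hlast : (it a)^[k + 4] w₀ ∉ Y := hmin (by rw [hn₀]; omega)
  rcases Nat.even_or_odd (k + 5) with hev | hodd
  · have hd : Odd (k + 4) := by
      rw [Nat.even_iff] at hev
      rw [Nat.odd_iff]; omega
    have hk1 : 1 ≤ k := by
      rw [Nat.even_iff] at hev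
      omega
    have hw : it a w₀ ∈ B := it_mem a hw₀
    have h1 : (it a)^[k + 4] (it a w₀) ∈ Y := by
      rw [← Function.iterate_succ_apply]; exact hspec
    have h2 : (it a)^[k + 3] (it a w₀) ∉ Y := by
      rw [← Function.iterate_succ_apply]; exact hlast
    exact c.final hp2 _ hw k hk1 h1 h2 (c.chain hp2 _ hw (k + 4) hd h1)
  · exact c.final hp2 w₀ hw₀ (k + 1) (by omega) hspec hlast (c.chain hp2 w₀ hw₀ (k + 5) hodd hspec)

end Core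

end Cfsg.Agent.Lib.Helper67.GlF
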