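import Mathlib
import Cfsg.Agent.Lib.Helper67.GlF
import Cfsg.Agent.Lib.Helper67.PGroupSmall
import Cfsg.Agent.Lib.Helper70.PNilp
import Cfsg.Agent.Lib.Helper76.SylowTools

/-!
# Reduction of Glauberman's `p ≥ 5` criterion to the core configuration
-/

set_option autoImplicit false

namespace Cfsg.Agent.Lib.Helper67.GlG

open Cfsg.Agent.Lib.Helper67 Cfsg.Agent.Lib.Helper76.SylowTools

/-- From a cyclic section of the action of `A H / H` on an abelian `p'`-subgroup of `G / H` to the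
core configuration inside the subgroup `K₁ A`. -/
theorem reduce_core {G L : Type*} [Group G] [Finite G] [Group L] [Finite L] (p : ℕ)
    [Fact p.Prime] (hp5 : 5 ≤ p) (π : G →* L) (hπs : Function.Surjective π)
    (H P A : Subgroup G) (hHπ : ∀ g : G, π g = 1 ↔ g ∈ H)
    (hHp : IsPGroup p H) (hPp : IsPGroup p P) (hHP : H ≤ P)
    (hCH : Subgroup.centralizer (H : Set G) ≤ H)
    (hAP : A ≤ P) (hAab : ∀ x ∈ A, ∀ y ∈ A, x * y = y * x)
    (hAmax : ∀ T : Subgroup G, (∀ s ∈ T, ∀ t ∈ T, s * t = t * s) → T ≤ P →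
      Nat.card T ≤ Nat.card A)
    (Kb : Subgroup L) (hKab : ∀ x ∈ Kb, ∀ y ∈ Kb, x * y = y * x)
    (hKcop : (Nat.card Kb).Coprime p)
    (A₀ Q : Subgroup L) (a : G) (hA₀ : A₀ ≤ A.map π) (ha : a ∈ A) (hQK : Q ≤ Kb) (hQ1 : Q ≠ ⊥)
    (hgen : ∀ g ∈ A.map π, ∃ i : ℕ, ∃ u ∈ A₀, g = π a ^ i * u)
    (hnorm : ∀ q ∈ Q, π a * q * (π a)⁻¹ ∈ Q)
    (hcent : ∀ u ∈ A₀, ∀ q ∈ Q, u * q = q * u)
    (hfpf : ∀ q ∈ Q, π a * q = q * π a → q = 1) : False := by
  classical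
  have hĀab : ∀ x ∈ A.map π, ∀ y ∈ A.map π, x * y = y * x := by
    rintro _ ⟨x, hx, rfl⟩ _ ⟨y, hy, rfl⟩
    rw [← map_mul, ← map_mul, hAab x hx y hy]
  have hA₀ab : ∀ u ∈ A₀, ∀ v ∈ A₀, u * v = v * u :=
    fun u hu v hv => hĀab u (hA₀ hu) v (hA₀ hv)
  have hπaĀ : π a ∈ A.map π := Subgroup.mem_map_of_mem π ha
  have hQA₀ : ∀ x ∈ Q, x ∈ A₀ → x = 1 :=
    fun x hxQ hxA => hfpf x hxQ (hĀab _ hπaĀ x (hA₀ hxA))
  have hdec : ∀ x ∈ Q ⊔ A₀, ∃ q ∈ Q, ∃ u ∈ A₀, x = q * u :=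
    Cfsg.Agent.Lib.Helper70.PNilp.mem_sup_of_conj Q A₀ (fun z hz s hs => by
      rw [hcent z hz s hs, mul_inv_cancel_right]; exact hs)
  have hXab : ∀ x ∈ Q ⊔ A₀, ∀ y ∈ Q ⊔ A₀, x * y = y * x := by
    intro x hx y hy
    obtain ⟨q, hq, u, hu, rfl⟩ := hdec x hx
    obtain ⟨q', hq', u', hu', rfl⟩ := hdec y hy
    have e1 := hcent u hu q' hq'
    have e2 := hcent u' hu' q hq
    have e3 := hKab q (hQK hq) q' (hQK hq')
    have e4 := hA₀ab u hu u' hu'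
    calc q * u * (q' * u') = q * (u * q') * u' := by group
      _ = q * (q' * u) * u' := by rw [e1]
      _ = (q * q') * (u * u') := by group
      _ = (q' * q) * (u' * u) := by rw [e3, e4]
      _ = q' * (q * u') * u := by group
      _ = q' * (u' * q) * u := by rw [e2]
      _ = q' * u' * (q * u) := by group
  have hXA₀ : Q ⊔ A₀ ≤ Subgroup.normalizer (A₀ : Set L) := by
    apply le_normalizer_of_conj_mem
    intro x hx v hv
    rw [hXab x hx v (Subgroup.mem_sup_right hv), mul_inv_cancel_right]; exact hv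
  have hA₀Q : A₀ ≤ Subgroup.normalizer (Q : Set L) := by
    apply le_normalizer_of_conj_mem
    intro u hu q hq
    rw [hcent u hu q hq, mul_inv_cancel_right]; exact hq
  have hQpow : ∀ (i : ℕ), ∀ q ∈ Q, π a ^ i * q * (π a ^ i)⁻¹ ∈ Q := by
    intro i
    induction i with
    | zero => intro q hq; simpa using hq
    | succ i ih =>
      intro q hq
      have h1 := hnorm _ (ih q hq)
      have h2 : π a ^ (i + 1) * q * (π a ^ (i + 1))⁻¹ =
          π a * (π a ^ i * q * (π a ^ i)⁻¹) * (π a)⁻¹ := by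
        rw [pow_succ']; group
      rw [h2]; exact h1
  have hinv : ∀ q ∈ Q, (π a)⁻¹ * q * π a ∈ Q := by
    intro q hq
    have h1 := hQpow (orderOf (π a) - 1) q hq
    have h2 : π a ^ (orderOf (π a) - 1) = (π a)⁻¹ := by
      rw [eq_inv_iff_mul_eq_one, ← pow_succ, Nat.sub_add_cancel (orderOf_pos _),
        pow_orderOf_eq_one]
    rw [h2, inv_inv] at h1
    exact h1
  have hĀX : A.map π ≤ Subgroup.normalizer ((Q ⊔ A₀ : Subgroup L) : Set L) := by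
    apply le_normalizer_of_conj_mem
    intro g hg x hx
    obtain ⟨q, hq, v, hv, rfl⟩ := hdec x hx
    have h1 : g * v * g⁻¹ = v := by rw [hĀab g hg v (hA₀ hv), mul_inv_cancel_right]
    have h2 : g * q * g⁻¹ ∈ Q := by
      obtain ⟨i, u, hu, rfl⟩ := hgen g hg
      have e1 : π a ^ i * u * q * (π a ^ i * u)⁻¹ = π a ^ i * (u * q * u⁻¹) * (π a ^ i)⁻¹ := by
        group
      rw [e1, hcent u hu q hq, mul_inv_cancel_right]
      exact hQpow i q hq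
    have h3 : g * (q * v) * g⁻¹ = (g * q * g⁻¹) * (g * v * g⁻¹) := by group
    rw [h3, h1]
    exact mul_mem (Subgroup.mem_sup_left h2) (Subgroup.mem_sup_right hv)
  have hĀA₀ : A.map π ≤ Subgroup.normalizer (A₀ : Set L) := by
    apply le_normalizer_of_conj_mem
    intro g hg v hv
    rw [hĀab g hg v (hA₀ hv), mul_inv_cancel_right]; exact hv
  -- the subgroups of `G`
  have hH₂K₂ : A₀.comap π ≤ (Q ⊔ A₀).comap π := Subgroup.comap_mono le_sup_right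
  have hHH₂ : H ≤ A₀.comap π := by
    intro g hg
    show π g ∈ A₀
    rw [(hHπ g).mpr hg]; exact one_mem _
  have hK₂G₂ : (Q ⊔ A₀).comap π ≤ Subgroup.normalizer ((A₀.comap π : Subgroup G) : Set G) ⊓
      Subgroup.normalizer (((Q ⊔ A₀).comap π : Subgroup G) : Set G) :=
    le_inf (fun k hk => Subgroup.le_normalizer_comap π (hXA₀ hk)) Subgroup.le_normalizer
  have hAG₂ : A ≤ Subgroup.normalizer ((A₀.comap π : Subgroup G) : Set G) ⊓
      Subgroup.normalizer (((Q ⊔ A₀).comap π : Subgroup G) : Set G) :=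
    le_inf (fun g hg => Subgroup.le_normalizer_comap π (hĀA₀ (Subgroup.mem_map_of_mem π hg)))
      (fun g hg => Subgroup.le_normalizer_comap π (hĀX (Subgroup.mem_map_of_mem π hg)))
  have hH₂G₂ := hH₂K₂.trans hK₂G₂
  have hH₂p : IsPGroup p (A₀.comap π) := by
    apply IsPGroup.comap_of_ker_isPGroup (((hPp.to_le hAP).map π).to_le hA₀)
    exact hHp.to_le (fun g hg => (hHπ g).mp (MonoidHom.mem_ker.mp hg))
  have hH₂P : A₀.comap π ≤ P := by
    intro g hg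
    obtain ⟨g', hg', hgg'⟩ := hA₀ hg
    have h1 : g'⁻¹ * g ∈ H := (hHπ _).mp (by rw [map_mul, map_inv, hgg', inv_mul_cancel])
    have h2 : g = g' * (g'⁻¹ * g) := by group
    rw [h2]; exact mul_mem (hAP hg') (hHP h1)
  obtain ⟨G₂, hG₂⟩ : ∃ G₂ : Subgroup G, G₂ = Subgroup.normalizer ((A₀.comap π : Subgroup G) : Set G) ⊓
      Subgroup.normalizer (((Q ⊔ A₀).comap π : Subgroup G) : Set G) := ⟨_, rfl⟩
  rw [← hG₂] at hK₂G₂ hAG₂ hH₂G₂
  have hn1 : ((A₀.comap π).subgroupOf G₂).Normal :=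
    Subgroup.normal_subgroupOf_of_le_normalizer (hG₂ ▸ inf_le_left)
  have hn2 : (((Q ⊔ A₀).comap π).subgroupOf G₂).Normal :=
    Subgroup.normal_subgroupOf_of_le_normalizer (hG₂ ▸ inf_le_right)
  refine GlF.core (Γ := ↥G₂) (p := p) (H := (A₀.comap π).subgroupOf G₂) (A := A.subgroupOf G₂)
    (a := ⟨a, hAG₂ ha⟩) hp5 (((Q ⊔ A₀).comap π).subgroupOf G₂) ?_ ?_ ?_ ?_ ?_ ?_ ?_ ?_ ?_ ?_ ?_ ?_
  · exact hH₂p.comap_of_injective G₂.subtype G₂.subtype_injective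
  · exact fun x hx => hH₂K₂ hx
  · intro x hx y hy
    show π ((x : G)⁻¹ * (y : G)⁻¹ * x * y) ∈ A₀
    have hxy : π (x : G) * π (y : G) = π (y : G) * π (x : G) := hXab _ hx _ hy
    rw [map_mul, map_mul, map_mul, map_inv, map_inv, GlF.comm_eq_one_of_commute hxy]
    exact one_mem _
  · rw [Subgroup.relIndex_subgroupOf hK₂G₂, Subgroup.relIndex_comap,
      Subgroup.map_comap_eq_self_of_surjective hπs]
    have h1 : Nat.card ↥(Q ⊔ A₀) = Nat.card A₀ * A₀.relIndex (Q ⊔ A₀) :=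
      card_eq_card_mul_relIndex' le_sup_right
    have h2 : Nat.card ↥(Q ⊔ A₀) ∣ Nat.card Q * Nat.card A₀ :=
      PGroupSmall.card_sup_dvd' Q A₀ hA₀Q
    have h3 : A₀.relIndex (Q ⊔ A₀) ∣ Nat.card Q := by
      apply Nat.dvd_of_mul_dvd_mul_left (Nat.card_pos (α := A₀))
      rw [← h1, mul_comm]; exact h2
    exact Nat.Coprime.coprime_dvd_left (h3.trans (Subgroup.card_dvd_of_le hQK)) hKcop
  · intro hle
    obtain ⟨⟨q, hq⟩, hq1⟩ := (Subgroup.ne_bot_iff_exists_ne_one).mp hQ1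
    obtain ⟨k, rfl⟩ := hπs q
    have hkK₂ : k ∈ (Q ⊔ A₀).comap π := Subgroup.mem_sup_left hq
    have h1 : (⟨k, hK₂G₂ hkK₂⟩ : ↥G₂) ∈ (A₀.comap π).subgroupOf G₂ :=
      hle (show (⟨k, hK₂G₂ hkK₂⟩ : ↥G₂) ∈ ((Q ⊔ A₀).comap π).subgroupOf G₂ from hkK₂)
    have h2 : π k ∈ A₀ := h1
    exact hq1 (Subtype.ext (hQA₀ (π k) hq h2))
  · intro k _ hc
    show (k : G) ∈ A₀.comap π
    apply hHH₂
    apply hCH
    rw [Subgroup.mem_centralizer_iff]
    intro h hh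
    have h1 := hc ⟨h, hH₂G₂ (hHH₂ hh)⟩ (hHH₂ hh : h ∈ A₀.comap π)
    exact (congrArg Subtype.val h1).symm
  · intro x hx y hy
    exact Subtype.ext (hAab _ hx _ hy)
  · exact (ha : a ∈ A)
  · obtain ⟨n, hn⟩ := hPp ⟨a, hAP ha⟩
    refine ⟨n, Subtype.ext ?_⟩
    have h1 := congrArg Subtype.val hn
    simpa using h1
  · intro g hg
    have hgA : (g : G) ∈ A := hg
    obtain ⟨i, u, hu, hgu⟩ := hgen (π g) (Subgroup.mem_map_of_mem π hgA)
    have hu₀A : (a ^ i)⁻¹ * (g : G) ∈ A := mul_mem (inv_mem (pow_mem ha i)) hgA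
    have hu₀H : π ((a ^ i)⁻¹ * (g : G)) ∈ A₀ := by
      rw [map_mul, map_inv, map_pow, hgu, inv_mul_cancel_left]; exact hu
    refine ⟨i, ⟨(a ^ i)⁻¹ * (g : G), hAG₂ hu₀A⟩, Subgroup.mem_inf.mpr ⟨hu₀A, hu₀H⟩,
      Subtype.ext ?_⟩
    show (g : G) = a ^ i * ((a ^ i)⁻¹ * (g : G))
    rw [mul_inv_cancel_left]
  · intro k hk hkc
    show π (k : G) ∈ A₀
    have hk' : π (k : G) ∈ Q ⊔ A₀ := hk
    have hkc' : π ((k : G)⁻¹ * a⁻¹ * k * a) ∈ A₀ := hkc
    obtain ⟨q, hq, u, hu, hkqu⟩ := hdec _ hk'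
    have hcQ : q⁻¹ * ((π a)⁻¹ * q * π a) ∈ Q := mul_mem (inv_mem hq) (hinv q hq)
    have hc_eq : (π (k : G))⁻¹ * (π a)⁻¹ * π (k : G) * π a = q⁻¹ * ((π a)⁻¹ * q * π a) := by
      rw [hkqu]
      have e1 : u * π a = π a * u := hĀab u (hA₀ hu) _ hπaĀ
      have e2 := hcent u hu _ hcQ
      calc (q * u)⁻¹ * (π a)⁻¹ * (q * u) * π a = u⁻¹ * (q⁻¹ * (π a)⁻¹ * q) * (u * π a) := by group
        _ = u⁻¹ * (q⁻¹ * (π a)⁻¹ * q) * (π a * u) := by rw [e1]
        _ = u⁻¹ * ((q⁻¹ * ((π a)⁻¹ * q * π a)) * u) := by group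
        _ = u⁻¹ * (u * (q⁻¹ * ((π a)⁻¹ * q * π a))) := by rw [e2]
        _ = q⁻¹ * ((π a)⁻¹ * q * π a) := by group
    have hcA : q⁻¹ * ((π a)⁻¹ * q * π a) ∈ A₀ := by
      rw [← hc_eq]
      rw [map_mul, map_mul, map_mul, map_inv, map_inv] at hkc'
      exact hkc'
    have hc1 := hQA₀ _ hcQ hcA
    have hq1 : q = 1 := hfpf q hq (by
      have h1 : (π a)⁻¹ * q * π a = q := by
        rw [inv_mul_eq_one] at hc1; exact hc1.symm
      calc π a * q = π a * ((π a)⁻¹ * q * π a) := by rw [h1]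
        _ = q * π a := by group)
    rw [hkqu, hq1, one_mul]; exact hu
  · intro T hTab hTle
    have hT1 : T.map G₂.subtype ≤ P := by
      rintro _ ⟨t, ht, rfl⟩
      exact (sup_le (fun x hx => hAP hx) (fun x hx => hH₂P hx) :
        A.subgroupOf G₂ ⊔ (A₀.comap π).subgroupOf G₂ ≤ P.subgroupOf G₂) (hTle ht)
    have h1 := hAmax (T.map G₂.subtype) (by
      rintro _ ⟨s, hs, rfl⟩ _ ⟨t, ht, rfl⟩
      exact congrArg Subtype.val (hTab s hs t ht)) hT1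
    rw [Subgroup.card_map_of_injective G₂.subtype_injective] at h1
    rw [Nat.card_congr (Subgroup.subgroupOfEquivOfLe hAG₂).toEquiv]
    exact h1

end Cfsg.Agent.Lib.Helper67.GlG
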