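import Cfsg.Agent.Lib.Helper60.HJStmt

/-!
S3313 piece AT: `a(t) = 195`.  The pairs `(x, y)`, `x` conjugate to `z`, `y` conjugate to `t`,
with `t` a power of `x * y`, are the pairs `(x, t * b)` with `x`, `b` involutions of `B` and
`x * b` of odd order.
-/

set_option autoImplicit false

namespace Cfsg.Agent.Lib.Helper67.HJAT

open Cfsg.Agent.Lib.Helper60.HJStmt

universe u

section basic

variable {G : Type u} [Group G]

theorem pow_odd_of_sq {v : G} (hv : v * v = 1) (k : ℕ) : v ^ (2 * k + 1) = v := by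
  rw [pow_succ, pow_mul, pow_two, hv, one_pow, one_mul]

theorem pow_even_of_sq {v : G} (hv : v * v = 1) (k : ℕ) : v ^ (2 * k) = 1 := by
  rw [pow_mul, pow_two, hv, one_pow]

theorem sq_of_order {x : G} (h : orderOf x = 2) : x * x = 1 := by
  rw [← pow_two, ← h]; exact pow_orderOf_eq_one x

theorem ne_one_of_order {x : G} (h : orderOf x = 2) : x ≠ 1 := by
  intro h1; rw [h1, orderOf_one] at h; norm_num at h

theorem order_two {x : G} (h : x * x = 1) (h1 : x ≠ 1) : orderOf x = 2 := by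
  have : Fact (Nat.Prime 2) := ⟨Nat.prime_two⟩
  exact orderOf_eq_prime (by rw [pow_two]; exact h) h1

theorem order_of_isConj {x z : G} (h : IsConj x z) : orderOf x = orderOf z := by
  obtain ⟨c, hc⟩ := isConj_iff.mp h
  rw [← hc]
  exact ((MulAut.conj c).orderOf_eq x).symm

/-- An involution `x` commutes with every involution that is a power of `x * y`. -/
theorem comm_left {x y t : G} (hx : x * x = 1) (hy : y * y = 1) (ht : t * t = 1) (n : ℕ)
    (hn : (x * y) ^ n = t) : x * t = t * x := by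
  have hxi : x⁻¹ = x := inv_eq_of_mul_eq_one_right hx
  have h1 : x * (x * y) * x⁻¹ = (x * y)⁻¹ := by
    rw [hxi]
    symm
    apply inv_eq_of_mul_eq_one_right
    calc x * y * (x * (x * y) * x) = x * y * ((x * x) * y * x) := by simp only [mul_assoc]
      _ = x * (y * y) * x := by rw [hx, one_mul]; simp only [mul_assoc]
      _ = 1 := by rw [hy, mul_one, hx]
  have h2 : x * t * x⁻¹ = t⁻¹ := by
    rw [← hn, ← conj_pow, h1, inv_pow]
  have hti : t⁻¹ = t := inv_eq_of_mul_eq_one_right ht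
  rw [hti] at h2
  exact mul_inv_eq_iff_eq_mul.mp h2

theorem comm_right {x y t : G} (hx : x * x = 1) (hy : y * y = 1) (ht : t * t = 1) (n : ℕ)
    (hn : (x * y) ^ n = t) : y * t = t * y := by
  have hyi : y⁻¹ = y := inv_eq_of_mul_eq_one_right hy
  have h1 : y * (x * y) * y⁻¹ = (x * y)⁻¹ := by
    rw [hyi]
    symm
    apply inv_eq_of_mul_eq_one_right
    calc x * y * (y * (x * y) * y) = x * (y * y) * x * (y * y) := by simp only [mul_assoc]
      _ = 1 := by rw [hy, mul_one, mul_one, hx]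
  have h2 : y * t * y⁻¹ = t⁻¹ := by
    rw [← hn, ← conj_pow, h1, inv_pow]
  have hti : t⁻¹ = t := inv_eq_of_mul_eq_one_right ht
  rw [hti] at h2
  exact mul_inv_eq_iff_eq_mul.mp h2

end basic

section ctx

variable {G : Type u} [Group G] {z t : G} {Q K V B : Subgroup G}

theorem t_notMem (h : HJ z t Q K V B) : t ∉ B := fun hB =>
  ne_one_of_order h.ht (h.VB_inf t h.t_mem hB)

/-- From a pair counted by `a(t)` to a pair of involutions of `B` with product of odd order. -/
theorem L1 (h : HJ z t Q K V B) (x y : G) (hxz : IsConj x z) (hyt : IsConj y t) (n : ℕ)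
    (hn : (x * y) ^ n = t) :
    x ∈ B ∧ t * y ∈ B ∧ orderOf x = 2 ∧ orderOf (t * y) = 2 ∧ ¬ 2 ∣ orderOf (x * (t * y)) := by
  have hox : orderOf x = 2 := (order_of_isConj hxz).trans h.hz
  have hoy : orderOf y = 2 := (order_of_isConj hyt).trans h.ht
  have hxx := sq_of_order hox
  have hyy := sq_of_order hoy
  have htt := sq_of_order h.ht
  have hxt : x * t = t * x := comm_left hxx hyy htt n hn
  have hyt' : y * t = t * y := comm_right hxx hyy htt n hn
  have hxB : x ∈ B := by
    by_contra hx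
    exact h.hzt ((hxz.symm).trans (h.hCt x hxt hox hx))
  obtain ⟨v, hv, b, hb, hy⟩ := h.VB y hyt'
  have hvx : v * x = x * v := h.VB_comm v hv x hxB
  have hvb : v * b = b * v := h.VB_comm v hv b hb
  have hxy : x * y = v * (x * b) := by rw [hy, ← mul_assoc, ← hvx, mul_assoc]
  have hcomm : Commute v (x * b) := (show Commute v x from hvx).mul_right hvb
  have hpow : v ^ n * (x * b) ^ n = t := by rw [← hcomm.mul_pow, ← hxy, hn]
  have hvn : v ^ n ∈ V := V.pow_mem hv n
  have hbn : (x * b) ^ n ∈ B := B.pow_mem (B.mul_mem hxB hb) n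
  have hbn1 : (x * b) ^ n = 1 := by
    apply h.VB_inf _ _ hbn
    have e : (x * b) ^ n = (v ^ n)⁻¹ * t := by rw [← hpow, inv_mul_cancel_left]
    rw [e]
    exact V.mul_mem (V.inv_mem hvn) h.t_mem
  have hvn' : v ^ n = t := by rw [← hpow, hbn1, mul_one]
  have hvv : v * v = 1 := h.V_sq v hv
  obtain ⟨k, hk | hk⟩ := Nat.even_or_odd' n
  · exfalso
    rw [hk, pow_even_of_sq hvv] at hvn'
    exact ne_one_of_order h.ht hvn'.symm
  rw [hk, pow_odd_of_sq hvv] at hvn'
  have hty : t * y = b := by rw [hy, hvn', ← mul_assoc, htt, one_mul]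
  have hbt : b * t = t * b := h.B_le b hb
  have hbb : b * b = 1 := by
    have e : y * y = (t * t) * (b * b) := by
      rw [hy, hvn']
      calc t * b * (t * b) = t * (b * t) * b := by simp only [mul_assoc]
        _ = t * t * (b * b) := by rw [hbt]; simp only [mul_assoc]
    rw [hyy, htt, one_mul] at e
    exact e.symm
  have hb1 : b ≠ 1 := by
    intro hb1
    rw [hb1, mul_one, hk, pow_odd_of_sq hxx] at hbn1
    exact ne_one_of_order hox hbn1
  refine ⟨hxB, by rw [hty]; exact hb, hox, by rw [hty]; exact order_two hbb hb1, ?_⟩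
  rw [hty]
  intro h2
  have hdvd : orderOf (x * b) ∣ n := orderOf_dvd_of_pow_eq_one hbn1
  have := h2.trans hdvd
  omega

/-- From a pair of involutions of `B` with product of odd order to a pair counted by `a(t)`. -/
theorem L2 (h : HJ z t Q K V B) (x b : G) (hx : x ∈ B) (hb : b ∈ B) (hox : orderOf x = 2)
    (hob : orderOf b = 2) (hodd : ¬ 2 ∣ orderOf (x * b)) :
    IsConj x z ∧ IsConj (t * b) t ∧ ∃ n : ℕ, (x * (t * b)) ^ n = t := by
  have hbb := sq_of_order hob
  have htt := sq_of_order h.ht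
  have hbt : b * t = t * b := h.B_le b hb
  have hxt : x * t = t * x := h.B_le x hx
  have hyt : t * b * t = t * (t * b) := by rw [mul_assoc, hbt]
  have hyy : t * b * (t * b) = 1 := by
    calc t * b * (t * b) = t * (b * t) * b := by simp only [mul_assoc]
      _ = t * t * (b * b) := by rw [hbt]; simp only [mul_assoc]
      _ = 1 := by rw [htt, hbb, one_mul]
  have hy1 : t * b ≠ 1 := by
    intro h1
    apply t_notMem h
    have e : t = b⁻¹ := eq_inv_of_mul_eq_one_left h1
    rw [e]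
    exact B.inv_mem hb
  have hyB : t * b ∉ B := by
    intro hmem
    apply t_notMem h
    have e : t = t * b * b⁻¹ := by rw [mul_inv_cancel_right]
    rw [e]
    exact B.mul_mem hmem (B.inv_mem hb)
  refine ⟨h.hBz x hx hox, h.hCt (t * b) hyt (order_two hyy hy1) hyB, orderOf (x * b), ?_⟩
  have hcomm : Commute t (x * b) := (show Commute t x from hxt.symm).mul_right hbt.symm
  have e : x * (t * b) = t * (x * b) := by rw [← mul_assoc, hxt, mul_assoc]
  rw [e, hcomm.mul_pow, pow_orderOf_eq_one, mul_one]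
  obtain ⟨k, hk | hk⟩ := Nat.even_or_odd' (orderOf (x * b))
  · exact absurd ⟨k, hk⟩ hodd
  · rw [hk, pow_odd_of_sq htt]

end ctx

theorem main : AT.{u} := by
  intro hA G _ _ z t Q K V B h
  obtain ⟨e⟩ := h.hB
  obtain ⟨ι, hιdef⟩ : ∃ ι : alternatingGroup (Fin 5) →* G, ι = B.subtype.comp e.symm.toMonoidHom :=
    ⟨_, rfl⟩
  have hι : Function.Injective ι := by
    rw [hιdef]
    exact (Subgroup.subtype_injective B).comp e.symm.injective
  have hιB : ∀ a, ι a ∈ B := fun a => by rw [hιdef]; exact (e.symm a).2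
  have hιsurj : ∀ x ∈ B, ∃ a, ι a = x := fun x hx => ⟨e ⟨x, hx⟩, by rw [hιdef]; simp⟩
  have hιord : ∀ a, orderOf (ι a) = orderOf a := fun a => orderOf_injective ι hι a
  have htt := sq_of_order h.ht
  rw [← hA]
  symm
  have hg : ∀ p : {p : alternatingGroup (Fin 5) × alternatingGroup (Fin 5) //
      orderOf p.1 = 2 ∧ orderOf p.2 = 2 ∧ ¬ 2 ∣ orderOf (p.1 * p.2)},
      IsConj (ι p.1.1, t * ι p.1.2).1 z ∧ IsConj (ι p.1.1, t * ι p.1.2).2 t ∧
        ∃ n : ℕ, ((ι p.1.1, t * ι p.1.2).1 * (ι p.1.1, t * ι p.1.2).2) ^ n = t := by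
    rintro ⟨⟨a, b⟩, ha, hb, hab⟩
    refine L2 h (ι a) (ι b) (hιB a) (hιB b) (by rw [hιord]; exact ha) (by rw [hιord]; exact hb) ?_
    rw [← map_mul, hιord]
    exact hab
  refine Nat.card_congr (Equiv.ofBijective (fun p => ⟨(ι p.1.1, t * ι p.1.2), hg p⟩) ⟨?_, ?_⟩)
  · rintro ⟨⟨a, b⟩, hp⟩ ⟨⟨a', b'⟩, hq⟩ heq
    have h1 := congrArg (fun r : {p : G × G // IsConj p.1 z ∧ IsConj p.2 t ∧
      ∃ n : ℕ, (p.1 * p.2) ^ n = t} => r.1) heq
    simp only [Prod.mk.injEq] at h1
    have ha : a = a' := hι h1.1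
    have hb : b = b' := hι (mul_left_cancel h1.2)
    subst ha
    subst hb
    rfl
  · rintro ⟨⟨x, y⟩, hxz, hyt, n, hn⟩
    obtain ⟨hxB, hbB, hox, hob, hodd⟩ := L1 h x y hxz hyt n hn
    obtain ⟨a, ha⟩ := hιsurj x hxB
    obtain ⟨b, hb⟩ := hιsurj (t * y) hbB
    refine ⟨⟨(a, b), ?_, ?_, ?_⟩, ?_⟩
    · rw [← hιord, ha]; exact hox
    · rw [← hιord, hb]; exact hob
    · rw [← hιord, map_mul, ha, hb]; exact hodd
    · apply Subtype.ext
      show (ι a, t * ι b) = (x, y)
      rw [ha, hb, ← mul_assoc, htt, one_mul]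

end Cfsg.Agent.Lib.Helper67.HJAT
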