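import Cfsg.Agent.Lib.Helper60.HJStmt
import Cfsg.Agent.Lib.Helper67.HJAT

/-!
S3313 piece QINV: `Q` has 11 involutions and no elementary abelian subgroup of order 8.
-/

set_option autoImplicit false

namespace Cfsg.Agent.Lib.Helper67.HJQINV

open Cfsg.Agent.Lib.Helper60.HJStmt Cfsg.Agent.Lib.Helper67.HJAT

universe u

theorem main : QInv.{u} := by
  intro hESA hESB hk5ex G _ _ z t Q K V B h
  obtain ⟨k₀, hk₀⟩ := hk5ex
  obtain ⟨e⟩ := h.hK
  obtain ⟨k, hk⟩ : ∃ k : K, k = e.symm k₀ := ⟨_, rfl⟩
  have hok : orderOf (k : G) = 5 := by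
    rw [Subgroup.orderOf_coe, hk, MulEquiv.orderOf_eq, hk₀]
  have hkz : (k : G) * z = z * k := h.K_le k k.2
  have hk5 : (k : G) ^ 5 = 1 := by rw [← hok]; exact pow_orderOf_eq_one _
  have hkiz : (k : G)⁻¹ * z = z * (k : G)⁻¹ := Commute.inv_left (show Commute (k : G) z from hkz)
  have hzz : z * z = 1 := sq_of_order h.hz
  have hz1 : z ≠ 1 := ne_one_of_order h.hz
  -- the automorphism of `Q` induced by `k`
  obtain ⟨α, hα⟩ : ∃ α : Q ≃* Q, ∀ q : Q, ((α q : Q) : G) = k * q * (k : G)⁻¹ :=
    ⟨{ toFun := fun q => ⟨k * q * (k : G)⁻¹, h.Q_norm k hkz q q.2⟩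
       invFun := fun q => ⟨(k : G)⁻¹ * q * k, by
         have := h.Q_norm (k : G)⁻¹ hkiz q q.2
         rwa [inv_inv] at this⟩
       left_inv := by
         intro q
         apply Subtype.ext
         simp [mul_assoc]
       right_inv := by
         intro q
         apply Subtype.ext
         simp [mul_assoc]
       map_mul' := by
         intro q₁ q₂
         apply Subtype.ext
         simp [mul_assoc] }, fun q => rfl⟩
  obtain ⟨z', hz'⟩ : ∃ z' : Q, (z' : G) = z := ⟨⟨z, h.z_mem⟩, rfl⟩
  have hz'1 : z' ≠ 1 := by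
    intro h'
    apply hz1
    rw [← hz', h']
    rfl
  have hz'z' : z' * z' = 1 := by
    apply Subtype.ext
    rw [Subgroup.coe_mul, hz', hzz]
    rfl
  have hcent : ∀ q : Q, z' * q = q * z' := by
    intro q
    apply Subtype.ext
    rw [Subgroup.coe_mul, Subgroup.coe_mul, hz']
    exact (h.Q_le q q.2).symm
  have hsq : ∀ q : Q, q * q = 1 ∨ q * q = z' := by
    intro q
    rcases h.Q_sq q q.2 with h' | h'
    · left; exact Subtype.ext h'
    · right; apply Subtype.ext; rw [hz']; exact h'
  have hcomm : ∀ a b : Q, a * b = b * a ∨ a * b = z' * (b * a) := by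
    intro a b
    rcases h.Q_comm a a.2 b b.2 with h' | h'
    · left; exact Subtype.ext h'
    · right; apply Subtype.ext
      rw [Subgroup.coe_mul, Subgroup.coe_mul, hz']; exact h'
  have hcenter : ∀ c : Q, (∀ q : Q, c * q = q * c) → c = 1 ∨ c = z' := by
    intro c hc
    rcases h.Q_center c c.2 (fun q hq => congrArg Subtype.val (hc ⟨q, hq⟩)) with h' | h'
    · left; exact Subtype.ext h'
    · right; apply Subtype.ext; rw [hz']; exact h'
  have hcenter' : ∀ c : Q, (∀ q : Q, c * q = q * c) ↔ (c = 1 ∨ c = z') := by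
    intro c
    refine ⟨hcenter c, ?_⟩
    rintro (rfl | rfl) q
    · rw [one_mul, mul_one]
    · exact hcent q
  have hα5 : ∀ q : Q, α (α (α (α (α q)))) = q := by
    intro q
    apply Subtype.ext
    rw [hα, hα, hα, hα, hα]
    have e0 : ∀ g y : G, g * (g * (g * (g * (g * y * g⁻¹) * g⁻¹) * g⁻¹) * g⁻¹) * g⁻¹ =
        g ^ 5 * y * (g ^ 5)⁻¹ := by
      intro g y
      simp only [pow_succ, pow_zero, one_mul, mul_inv_rev, mul_assoc]
    rw [e0, hk5, one_mul, inv_one, mul_one]
  have hαne : ∃ q : Q, α q ≠ q := by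
    by_contra hall
    have hall' : ∀ q : Q, α q = q := by
      intro q
      by_contra hq
      exact hall ⟨q, hq⟩
    have hkQ : (k : G) ∈ Q := by
      apply h.Q_cent k hkz
      intro q hq
      have e1 := hα ⟨q, hq⟩
      rw [hall'] at e1
      have e2 : q = (k : G) * q * (k : G)⁻¹ := e1
      calc (k : G) * q = (k : G) * q * (k : G)⁻¹ * k := by rw [inv_mul_cancel_right]
        _ = q * k := by rw [← e2]
    have hk1 : (k : G) = 1 := h.QK_inf k hkQ k.2
    rw [hk1, orderOf_one] at hok
    norm_num at hok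
  obtain ⟨hN, hno8⟩ := hESA (↥Q) z' h.Q_card hz'1 hz'z' hcent hsq hcomm hcenter
  have hN5 := hESB (↥Q) z' α h.Q_card hz'1 hcenter' hα5 hαne
  have hN12 : Nat.card {q : Q // q * q = 1} = 12 := by
    rcases hN with h' | h'
    · exact h'
    · rw [h'] at hN5; norm_num at hN5
  refine ⟨?_, ?_⟩
  · -- count
    have e1 : Nat.card {x : G // x ∈ Q ∧ orderOf x = 2} =
        Nat.card {q : Q // orderOf (q : G) = 2} :=
      Nat.card_congr (Equiv.subtypeSubtypeEquivSubtypeInter (fun x => x ∈ Q)
        (fun x => orderOf x = 2)).symm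
    have e2 : Nat.card {q : Q // orderOf (q : G) = 2} = ({q : Q | orderOf (q : G) = 2}).ncard :=
      Nat.card_coe_set_eq _
    have e3 : Nat.card {q : Q // q * q = 1} = ({q : Q | q * q = 1}).ncard :=
      Nat.card_coe_set_eq _
    have e4 : {q : Q | q * q = 1} = insert 1 {q : Q | orderOf (q : G) = 2} := by
      ext q
      simp only [Set.mem_ofPred_eq, Set.mem_insert_iff]
      constructor
      · intro hq
        by_cases hq1 : q = 1
        · exact Or.inl hq1
        · right
          refine order_two (congrArg Subtype.val hq) ?_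
          intro h'
          exact hq1 (Subtype.ext h')
      · rintro (rfl | hq)
        · rw [one_mul]
        · exact Subtype.ext (sq_of_order hq)
    have e5 : (1 : Q) ∉ {q : Q | orderOf (q : G) = 2} := by
      intro h'
      have h'' : orderOf ((1 : Q) : G) = 2 := h'
      rw [Subgroup.coe_one, orderOf_one] at h''
      norm_num at h''
    have e6 := Set.ncard_insert_of_notMem e5 (Set.toFinite _)
    rw [e1, e2]
    rw [e3, e4, e6] at hN12
    omega
  · intro x w hx hw hox how hxw
    have hres := hno8 hN12 ⟨x, hx⟩ ⟨w, hw⟩ (Subtype.ext (sq_of_order hox))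
      (Subtype.ext (sq_of_order how)) (Subtype.ext hxw)
    rcases hres with h' | h' | h' | h' | h' | h'
    · exact absurd (congrArg Subtype.val h') (ne_one_of_order hox)
    · exact absurd (congrArg Subtype.val h') (ne_one_of_order how)
    · left
      have := congrArg Subtype.val h'
      rw [hz'] at this
      exact this
    · right; left
      have := congrArg Subtype.val h'
      rw [hz'] at this
      exact this
    · right; right; left
      exact congrArg Subtype.val h'
    · right; right; right
      have := congrArg Subtype.val h'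
      rw [Subgroup.coe_mul, hz'] at this
      exact this

end Cfsg.Agent.Lib.Helper67.HJQINV
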