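import Mathlib
import Cfsg.Agent.Lib.Helper26.J3Stmt

/-! S3366 piece CON6: lifting the centralizer of the image of `z` in `PSp(4,3)` to the stabilizer
of the first basis vector. -/

set_option autoImplicit false

namespace Cfsg.Agent.Lib.Helper67.J3CON6

open Cfsg.Agent.Lib.Helper26.J3Stmt

theorem trace_zM : Matrix.trace zM = 1 := by decide

theorem zmod3_cases : ∀ x : ZMod 3, x ≠ 0 → x = 1 ∨ x = -1 := by decide

theorem zmod3_neg_ne : ∀ x : ZMod 3, x = 1 → -x ≠ x := by decide

/-- `-1` as an element of `Sp`. -/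
def negOne : Sp := ⟨-1, SymplecticGroup.neg_mem (one_mem _)⟩

theorem negOne_mem_center : negOne ∈ Subgroup.center Sp := by
  rw [Subgroup.mem_center_iff]
  intro h
  apply Subtype.ext
  show (h : Mat) * (-1) = (-1) * (h : Mat)
  simp

theorem col_of_comm (G : Mat) (h : G * zM = zM * G) :
    G (Sum.inl 1) (Sum.inl 0) = 0 ∧ G (Sum.inr 0) (Sum.inl 0) = 0 ∧
      G (Sum.inr 1) (Sum.inl 0) = 0 := by
  have e : ∀ i, (G * zM) i (Sum.inr 0) = (zM * G) i (Sum.inr 0) := fun i => by rw [h]
  have e1 := e (Sum.inl 1)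
  have e2 := e (Sum.inr 0)
  have e3 := e (Sum.inr 1)
  simp [Matrix.mul_apply, Fintype.sum_sum_type, Fin.sum_univ_two, zM] at e1 e2 e3
  exact ⟨e1, e2, e3⟩

theorem main : Cfsg.Agent.Lib.Helper26.J3Stmt.CON6 := by
  intro h5 z hz g hcomm
  -- the commutator is central
  have hw : (g * z)⁻¹ * (z * g) ∈ Subgroup.center Sp := by
    have : (QuotientGroup.mk (g * z) : PG) = QuotientGroup.mk (z * g) := hcomm
    exact QuotientGroup.eq.mp this
  set w : Sp := (g * z)⁻¹ * (z * g) with hwdef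
  have hgw : g * z * w = z * g := by rw [hwdef]; group
  have hgwM : (g : Mat) * zM * (w : Mat) = zM * (g : Mat) := by
    have := congrArg (fun x : Sp => (x : Mat)) hgw
    simpa [hz] using this
  have hinvL : ((g⁻¹ : Sp) : Mat) * (g : Mat) = 1 := by
    show ((g⁻¹ * g : Sp) : Mat) = 1
    rw [inv_mul_cancel]
    rfl
  have hinvR : (g : Mat) * ((g⁻¹ : Sp) : Mat) = 1 := by
    show ((g * g⁻¹ : Sp) : Mat) = 1
    rw [mul_inv_cancel]
    rfl
  have hcommM : (g : Mat) * zM = zM * (g : Mat) := by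
    rcases (h5 w hw).1 with h1 | h1
    · rw [h1, mul_one] at hgwM
      exact hgwM
    · exfalso
      rw [h1] at hgwM
      have h2 : -((g : Mat) * zM) = zM * (g : Mat) := by simpa using hgwM
      have h3 : Matrix.trace (((g⁻¹ : Sp) : Mat) * (-((g : Mat) * zM))) =
          Matrix.trace (((g⁻¹ : Sp) : Mat) * (zM * (g : Mat))) := by rw [h2]
      rw [Matrix.mul_neg, Matrix.trace_neg, ← Matrix.mul_assoc, hinvL, Matrix.one_mul,
        Matrix.trace_mul_comm, Matrix.mul_assoc, hinvR, Matrix.mul_one, trace_zM] at h3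
      exact zmod3_neg_ne 1 rfl h3
  obtain ⟨c1, c2, c3⟩ := col_of_comm _ hcommM
  have hlam : (g : Mat) (Sum.inl 0) (Sum.inl 0) ≠ 0 := by
    intro h0
    have := congrFun (congrFun hinvL (Sum.inl 0)) (Sum.inl 0)
    simp [Matrix.mul_apply, Fintype.sum_sum_type, Fin.sum_univ_two, c1, c2, c3, h0] at this
  rcases zmod3_cases _ hlam with h1 | h1
  · refine ⟨g, ?_, rfl⟩
    intro i
    rcases i with i | i <;> fin_cases i <;> simp [h1, c1, c2, c3]
  · refine ⟨negOne * g, ?_, ?_⟩
    · intro i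
      have hcoe : ((negOne * g : Sp) : Mat) = -(g : Mat) := by
        show (-1 : Mat) * (g : Mat) = -(g : Mat)
        simp
      rw [hcoe]
      rcases i with i | i <;> fin_cases i <;> simp [h1, c1, c2, c3]
    · rw [QuotientGroup.mk_mul, (QuotientGroup.eq_one_iff _).mpr negOne_mem_center, one_mul]

end Cfsg.Agent.Lib.Helper67.J3CON6
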