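import Mathlib
import Cfsg.Agent.Lib.Helper26.J3Stmt

/-! S3366 piece ISO: two groups with the same Jacobi-group coordinates are isomorphic. -/

set_option autoImplicit false
universe u v

namespace Cfsg.Agent.Lib.Helper67.J3ISO

open Cfsg.Agent.Lib.Helper26.J3Stmt

/-- the multiplication law on coordinates -/
def mulc (p q : V × ZMod 3 × SL) : V × ZMod 3 × SL :=
  (p.1 + p.2.2.1.mulVec q.1,
   p.2.1 + q.2.1 + (p.1 0 * (p.2.2.1.mulVec q.1) 1 - p.1 1 * (p.2.2.1.mulVec q.1) 0),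
   p.2.2 * q.2.2)

theorem zpow_val_add {X : Type u} [Group X] (z : X) (hz : z ^ 3 = 1) (a b : ZMod 3) :
    z ^ (a + b).val = z ^ a.val * z ^ b.val := by
  rw [ZMod.val_add, ← pow_eq_pow_mod _ hz, pow_add]

theorem aux1 {X : Type u} [Group X] (a zc b k zc' k' : X) (h1 : ∀ x, x * zc = zc * x)
    (h2 : ∀ x, x * zc' = zc' * x) :
    a * zc * (b * k) * zc' * k' = a * b * zc * zc' * (k * k') := by
  rw [h1 a, h2 (zc * a * (b * k)), h2 (a * b * zc), h1 (a * b)]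
  simp only [mul_assoc]

theorem aux2 {X : Type u} [Group X] (a zd zc zc' kk : X) (h1 : ∀ x, x * zc = zc * x)
    (h2 : ∀ x, x * zc' = zc' * x) :
    a * zd * zc * zc' * kk = a * (zc * zc' * zd) * kk := by
  have e : zd * zc * zc' = zc * zc' * zd := by
    rw [h1 zd, h2 (zc * zd), h2 zc]
    simp only [mul_assoc]
  rw [← e]
  simp only [mul_assoc]

theorem law {X : Type u} [Group X] (ι : V → X) (z : X) (κ : SL →* X)
    (hz : z ^ 3 = 1) (hc : ∀ x : X, x * z = z * x)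
    (hι : ∀ u v : V, ι u * ι v = ι (u + v) * z ^ (u 0 * v 1 - u 1 * v 0).val)
    (hκ : ∀ (A : SL) (u : V), κ A * ι u = ι (A.1.mulVec u) * κ A)
    (p q : V × ZMod 3 × SL) :
    (ι p.1 * z ^ p.2.1.val * κ p.2.2) * (ι q.1 * z ^ q.2.1.val * κ q.2.2) =
      ι (mulc p q).1 * z ^ (mulc p q).2.1.val * κ (mulc p q).2.2 := by
  obtain ⟨u, c, A⟩ := p
  obtain ⟨u', c', A'⟩ := q
  have hcp : ∀ (n : ℕ) (x : X), x * z ^ n = z ^ n * x := by
    intro n x
    exact (Commute.pow_right (hc x) n)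
  simp only [mulc]
  rw [zpow_val_add z hz, zpow_val_add z hz, map_mul]
  calc ι u * z ^ c.val * κ A * (ι u' * z ^ c'.val * κ A')
      = ι u * z ^ c.val * (κ A * ι u') * z ^ c'.val * κ A' := by simp only [mul_assoc]
    _ = ι u * z ^ c.val * (ι (A.1.mulVec u') * κ A) * z ^ c'.val * κ A' := by rw [hκ]
    _ = ι u * ι (A.1.mulVec u') * z ^ c.val * z ^ c'.val * (κ A * κ A') :=
        aux1 _ _ _ _ _ _ (hcp _) (hcp _)
    _ = ι (u + A.1.mulVec u') * z ^ (u 0 * (A.1.mulVec u') 1 - u 1 * (A.1.mulVec u') 0).val *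
          z ^ c.val * z ^ c'.val * (κ A * κ A') := by rw [hι]
    _ = _ := aux2 _ _ _ _ _ (hcp _) (hcp _)

theorem main : ISO.{u, v} := by
  intro X _ Y _ hX hY
  obtain ⟨ι, z, κ, hb, hz, hc, hι, hκ⟩ := hX
  obtain ⟨ι', z', κ', hb', hz', hc', hι', hκ'⟩ := hY
  let eX : (V × ZMod 3 × SL) ≃ X := Equiv.ofBijective _ hb
  let eY : (V × ZMod 3 × SL) ≃ Y := Equiv.ofBijective _ hb'
  refine ⟨{ toEquiv := eX.symm.trans eY, map_mul' := ?_ }⟩
  intro x y
  obtain ⟨p, rfl⟩ := eX.surjective x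
  obtain ⟨q, rfl⟩ := eX.surjective y
  have h1 : eX p * eX q = eX (mulc p q) := law ι z κ hz hc hι hκ p q
  have h2 : eY p * eY q = eY (mulc p q) := law ι' z' κ' hz' hc' hι' hκ' p q
  show (eX.symm.trans eY) (eX p * eX q) = (eX.symm.trans eY) (eX p) * (eX.symm.trans eY) (eX q)
  rw [h1]
  simp only [Equiv.trans_apply, Equiv.symm_apply_apply]
  exact h2.symm

end Cfsg.Agent.Lib.Helper67.J3ISO
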