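import Cfsg.Agent.Lib.Helper89.NCStmt

/-!
S3921 piece DIHDATA: a dihedral Sylow 2-subgroup `S = C(t)` of order `≥ 8` gives the hypotheses
of the Brauer-Suzuki-Wall theorem.
-/

set_option autoImplicit false

namespace Cfsg.Agent.Lib.Helper67.NCDIHDATA

open Cfsg.Agent.Lib.Helper89.NCStmt DihedralGroup

universe u

/-- The solutions of `j + j = 0` in `ZMod n`. -/
theorem two_tors {n : ℕ} [NeZero n] (i j : ZMod n) (hi : i + i = 0) (hi0 : i ≠ 0)
    (hj : j + j = 0) : j = 0 ∨ j = i := by
  have key : ∀ a : ZMod n, a + a = 0 → a.val + a.val = 0 ∨ a.val + a.val = n := by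
    intro a ha
    have h1 : ((a.val + a.val : ℕ) : ZMod n) = 0 := by
      push_cast
      rw [ZMod.natCast_zmod_val]
      exact ha
    rw [ZMod.natCast_eq_zero_iff] at h1
    obtain ⟨c, hc⟩ := h1
    have hlt := ZMod.val_lt a
    have hc2 : c < 2 := by
      by_contra hcc
      have : 2 ≤ c := by omega
      nlinarith
    interval_cases c
    · left; omega
    · right; omega
  have hival : i.val ≠ 0 := fun h => hi0 ((ZMod.val_eq_zero i).mp h)
  rcases key i hi with h1 | h1
  · omega
  rcases key j hj with h2 | h2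
  · left
    exact (ZMod.val_eq_zero j).mp (by omega)
  · right
    exact ZMod.val_injective n (by omega)

theorem main : DihData.{u} := by
  intro G _ _ t S hot hS n hn he
  obtain ⟨e⟩ := he
  have hn0 : NeZero n := ⟨by omega⟩
  have hf2 : Fact (Nat.Prime 2) := ⟨Nat.prime_two⟩
  have ht1 : t ≠ 1 := by
    intro h; rw [h, orderOf_one] at hot; norm_num at hot
  have memS : ∀ x : G, x ∈ (S : Subgroup G) ↔ x * t = t * x := by
    intro x
    rw [hS, Subgroup.mem_centralizer_iff]
    constructor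
    · intro h; exact (h t rfl).symm
    · intro h y hy
      rw [Set.mem_singleton_iff] at hy
      rw [hy]; exact h.symm
  have htS : t ∈ (S : Subgroup G) := (memS t).mpr rfl
  -- the image of `t`
  have hcentral : ∀ x : ↥(S : Subgroup G), x * ⟨t, htS⟩ = ⟨t, htS⟩ * x := by
    intro x
    exact Subtype.ext ((memS x).mp x.2)
  have hcentral' : ∀ d : DihedralGroup n, d * e ⟨t, htS⟩ = e ⟨t, htS⟩ * d := by
    intro d
    have h := congrArg e (hcentral (e.symm d))
    rwa [map_mul, map_mul, MulEquiv.apply_symm_apply] at h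
  obtain ⟨i, hi, hi0, hii⟩ : ∃ i : ZMod n, e ⟨t, htS⟩ = r i ∧ i ≠ 0 ∧ i + i = 0 := by
    cases h : e ⟨t, htS⟩ with
    | r i =>
      refine ⟨i, rfl, ?_, ?_⟩
      · intro hi0
        rw [hi0] at h
        have h1 : e ⟨t, htS⟩ = 1 := h
        rw [MulEquiv.map_eq_one_iff] at h1
        exact ht1 (congrArg Subtype.val h1)
      · have h1 := hcentral' (sr 0)
        rw [h] at h1
        have h2 : (sr (0 + i) : DihedralGroup n) = sr (0 - i) := h1
        have h3 : (0 : ZMod n) + i = 0 - i := by injection h2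
        calc i + i = (0 + i) + i := by rw [zero_add]
          _ = (0 - i) + i := by rw [h3]
          _ = 0 := by ring
    | sr j =>
      exfalso
      have h1 := hcentral' (r 1)
      rw [h] at h1
      have h2 : (sr (j - 1) : DihedralGroup n) = sr (j + 1) := h1
      have h3 : j - 1 = j + 1 := by injection h2
      have h4 : ((2 : ℕ) : ZMod n) = 0 := by
        push_cast
        have : (2 : ZMod n) = (j + 1) - (j - 1) := by ring
        rw [this, h3]; ring
      rw [ZMod.natCast_eq_zero_iff] at h4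
      have := Nat.le_of_dvd (by norm_num) h4
      omega
  -- the cyclic subgroup and the reflection
  obtain ⟨k₀, hk₀⟩ : ∃ k₀ : ↥(S : Subgroup G), k₀ = e.symm (r 1) := ⟨_, rfl⟩
  obtain ⟨s₀, hs₀⟩ : ∃ s₀ : ↥(S : Subgroup G), s₀ = e.symm (sr 0) := ⟨_, rfl⟩
  have hek : e k₀ = r 1 := by rw [hk₀, MulEquiv.apply_symm_apply]
  have hes : e s₀ = sr 0 := by rw [hs₀, MulEquiv.apply_symm_apply]
  have hKS : Subgroup.zpowers (k₀ : G) ≤ (S : Subgroup G) := by
    rw [Subgroup.zpowers_le]; exact k₀.2
  have memK : ∀ x : ↥(S : Subgroup G), (x : G) ∈ Subgroup.zpowers (k₀ : G) ↔ ∃ j, e x = r j := by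
    intro x
    constructor
    · intro h
      obtain ⟨m, hm⟩ := Subgroup.mem_zpowers_iff.mp h
      have h1 : x = k₀ ^ m := by
        apply Subtype.ext
        rw [Subgroup.coe_zpow]; exact hm.symm
      exact ⟨(m : ZMod n), by rw [h1, map_zpow, hek, r_one_zpow]⟩
    · rintro ⟨j, hj⟩
      have h1 : x = k₀ ^ j.val := by
        apply e.injective
        rw [hj, map_pow, hek, r_one_pow, ZMod.natCast_zmod_val]
      rw [h1, Subgroup.coe_pow]
      exact Subgroup.pow_mem _ (Subgroup.mem_zpowers _) _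
  have memK' : ∀ x : G, x ∈ Subgroup.zpowers (k₀ : G) →
      ∃ (hx : x ∈ (S : Subgroup G)) (j : ZMod n), e ⟨x, hx⟩ = r j := by
    intro x hx
    exact ⟨hKS hx, (memK ⟨x, hKS hx⟩).mp hx⟩
  have htK : t ∈ Subgroup.zpowers (k₀ : G) := (memK ⟨t, htS⟩).mpr ⟨i, hi⟩
  have hsS : (s₀ : G) ∈ (S : Subgroup G) := s₀.2
  have hst : (s₀ : G) * t = t * (s₀ : G) := (memS _).mp hsS
  -- involutions of `K`
  have invK : ∀ w : G, w ∈ Subgroup.zpowers (k₀ : G) → orderOf w = 2 → w = t := by
    intro w hw how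
    obtain ⟨hwS, j, hj⟩ := memK' w hw
    have hww : w * w = 1 := by rw [← pow_two, ← how]; exact pow_orderOf_eq_one w
    have h1 : e (⟨w, hwS⟩ * ⟨w, hwS⟩) = 1 := by
      have : (⟨w, hwS⟩ * ⟨w, hwS⟩ : ↥(S : Subgroup G)) = 1 := Subtype.ext hww
      rw [this, map_one]
    rw [map_mul, hj] at h1
    have h2 : (r (j + j) : DihedralGroup n) = r 0 := h1
    have h3 : j + j = 0 := by injection h2
    rcases two_tors i j hii hi0 h3 with h4 | h4
    · exfalso
      rw [h4] at hj
      have h5 : e ⟨w, hwS⟩ = 1 := hj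
      rw [MulEquiv.map_eq_one_iff] at h5
      have h6 : w = 1 := congrArg Subtype.val h5
      rw [h6, orderOf_one] at how
      norm_num at how
    · rw [h4, ← hi] at hj
      exact congrArg Subtype.val (e.injective hj)
  -- nontrivial elements of `S` have an involution as a power
  have invPow : ∀ w : G, w ∈ (S : Subgroup G) → w ≠ 1 → ∃ m : ℕ, orderOf (w ^ m) = 2 := by
    intro w hw hw1
    obtain ⟨a, ha⟩ := S.isPGroup' ⟨w, hw⟩
    have ha' : w ^ 2 ^ a = 1 := by
      have := congrArg Subtype.val ha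
      rwa [Subgroup.coe_pow] at this
    obtain ⟨b, hb, hb'⟩ := (Nat.dvd_prime_pow Nat.prime_two).mp (orderOf_dvd_of_pow_eq_one ha')
    have hb0 : b ≠ 0 := by
      intro h0
      rw [h0, pow_zero, orderOf_eq_one_iff] at hb'
      exact hw1 hb'
    refine ⟨2 ^ (b - 1), ?_⟩
    rw [orderOf_pow_of_dvd (by positivity) (by rw [hb']; exact pow_dvd_pow 2 (by omega)), hb',
      Nat.pow_div (by omega) (by norm_num)]
    have : b - (b - 1) = 1 := by omega
    rw [this, pow_one]
  have hcardS : Nat.card ↥(S : Subgroup G) = 2 * n := by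
    rw [Nat.card_congr e.toEquiv, DihedralGroup.nat_card]
  have hcardK : Nat.card ↥(Subgroup.zpowers (k₀ : G)) = n := by
    rw [Nat.card_zpowers, Subgroup.orderOf_coe, ← MulEquiv.orderOf_eq e, hek, orderOf_r_one]
  refine ⟨Subgroup.zpowers (k₀ : G), (s₀ : G), inferInstance, ?_, htK, ?_, ?_, ?_, ?_, ?_, ?_, ?_,
    inferInstance, hKS, ?_, ?_⟩
  · rw [← hS]; exact hKS
  · rw [Subgroup.orderOf_coe, ← MulEquiv.orderOf_eq e, hes, orderOf_sr]
  · rw [← hS]; exact hsS
  · intro h
    obtain ⟨j, hj⟩ := (memK s₀).mp h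
    rw [hes] at hj
    cases hj
  · rw [← hS]
    apply le_antisymm
    · exact sup_le hKS (by rw [Subgroup.zpowers_le]; exact hsS)
    · intro x hx
      cases h : e ⟨x, hx⟩ with
      | r j => exact Subgroup.mem_sup_left ((memK ⟨x, hx⟩).mpr ⟨j, h⟩)
      | sr j =>
        have h1 : (⟨x, hx⟩ : ↥(S : Subgroup G)) = s₀ * e.symm (r j) := by
          apply e.injective
          rw [h, map_mul, hes, MulEquiv.apply_symm_apply]
          show (sr j : DihedralGroup n) = sr (0 + j)
          rw [zero_add]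
        have h2 : x = (s₀ : G) * ((e.symm (r j) : ↥(S : Subgroup G)) : G) := by
          have := congrArg Subtype.val h1
          rwa [Subgroup.coe_mul] at this
        rw [h2, sup_comm]
        exact Subgroup.mul_mem _ (Subgroup.mem_sup_left (Subgroup.mem_zpowers _))
          (Subgroup.mem_sup_right ((memK _).mpr ⟨j, by rw [MulEquiv.apply_symm_apply]⟩))
  · apply le_antisymm
    · intro x hx
      obtain ⟨hxK, hxs⟩ := Subgroup.mem_inf.mp hx
      obtain ⟨hxS, j, hj⟩ := memK' x hxK
      rw [Subgroup.mem_centralizer_iff] at hxs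
      have h1 : (s₀ : G) * x = x * (s₀ : G) := hxs _ rfl
      have h2 : s₀ * ⟨x, hxS⟩ = ⟨x, hxS⟩ * s₀ := Subtype.ext h1
      have h3 := congrArg e h2
      rw [map_mul, map_mul, hes, hj] at h3
      have h4 : (sr (0 + j) : DihedralGroup n) = sr (0 - j) := h3
      have h5 : (0 : ZMod n) + j = 0 - j := by injection h4
      have h6 : j + j = 0 := by
        calc j + j = (0 + j) + j := by rw [zero_add]
          _ = (0 - j) + j := by rw [h5]
          _ = 0 := by ring
      rcases two_tors i j hii hi0 h6 with h7 | h7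
      · rw [h7] at hj
        have h8 : e ⟨x, hxS⟩ = 1 := hj
        rw [MulEquiv.map_eq_one_iff] at h8
        have h9 : x = 1 := congrArg Subtype.val h8
        rw [h9]; exact Subgroup.one_mem _
      · rw [h7, ← hi] at hj
        have h9 : x = t := congrArg Subtype.val (e.injective hj)
        rw [h9]; exact Subgroup.mem_zpowers t
    · rw [Subgroup.zpowers_le]
      refine Subgroup.mem_inf.mpr ⟨htK, ?_⟩
      rw [Subgroup.mem_centralizer_iff]
      intro y hy
      rw [Set.mem_singleton_iff] at hy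
      rw [hy]; exact hst
  · intro x hx
    obtain ⟨hxS, j, hj⟩ := memK' x hx
    have h1 : s₀ * ⟨x, hxS⟩ * s₀⁻¹ = (⟨x, hxS⟩ : ↥(S : Subgroup G))⁻¹ := by
      apply e.injective
      rw [map_mul, map_mul, map_inv, map_inv, hes, hj]
      show DihedralGroup.r (0 - (0 + j)) = DihedralGroup.r (-j)
      congr 1; ring
    exact congrArg Subtype.val h1
  · intro g hg
    rw [eq_bot_iff]
    intro x hx
    obtain ⟨hxK, hxg⟩ := Subgroup.mem_inf.mp hx
    rw [Subgroup.mem_bot]
    by_contra hx1
    apply hg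
    obtain ⟨y, hyK, hyx⟩ := Subgroup.mem_map.mp hxg
    have hyx' : g * y * g⁻¹ = x := hyx
    obtain ⟨m, hm⟩ := invPow x (hKS hxK) hx1
    have hxm : x ^ m = t := invK _ (Subgroup.pow_mem _ hxK m) hm
    have h1 : g * y ^ m * g⁻¹ = t := by rw [← conj_pow, hyx', hxm]
    have h2 : orderOf (y ^ m) = 2 := by
      rw [← hot, ← h1]
      exact ((MulAut.conj g).orderOf_eq (y ^ m)).symm
    have h3 : y ^ m = t := invK _ (Subgroup.pow_mem _ hyK m) h2
    rw [h3] at h1
    rw [Subgroup.mem_centralizer_iff]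
    intro z hz
    rw [Set.mem_singleton_iff] at hz
    rw [hz]
    exact (mul_inv_eq_iff_eq_mul.mp h1).symm
  · have h1 := Subgroup.card_mul_index ((Subgroup.zpowers (k₀ : G)).subgroupOf (S : Subgroup G))
    rw [Nat.card_congr (Subgroup.subgroupOfEquivOfLe hKS).toEquiv, hcardK, hcardS] at h1
    have h2 : n * ((Subgroup.zpowers (k₀ : G)).subgroupOf (S : Subgroup G)).index = n * 2 := by
      rw [h1, mul_comm]
    exact Nat.eq_of_mul_eq_mul_left (by omega) h2
  · obtain ⟨a, ha⟩ := IsPGroup.iff_card.mp S.isPGroup'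
    have h1 : Nat.card ↥(S : Subgroup G) ∣ Nat.card G := Subgroup.card_subgroup_dvd_card _
    have h2 : 3 ≤ a := by
      by_contra h
      have h3 : a ≤ 2 := by omega
      have h4 : 2 ^ a ≤ 2 ^ 2 := Nat.pow_le_pow_right (by norm_num) h3
      rw [hcardS] at ha
      omega
    rw [ha] at h1
    exact (pow_dvd_pow 2 h2).trans h1

end Cfsg.Agent.Lib.Helper67.NCDIHDATA
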