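import Cfsg.Agent.Lib.Helper89.NCStmt

/-!
S3921 piece ZREG: `Q` is regular on the cosets of `N(Q)` other than `N(Q)`.
-/

set_option autoImplicit false

namespace Cfsg.Agent.Lib.Helper67.NCZREG

open Cfsg.Agent.Lib.Helper89.NCStmt

open scoped Pointwise

universe u

/-- `|N(Q)| = |Q| |D|` when `N(Q) = Q ⊔ D` and `Q ⊓ D = ⊥`. -/
theorem card_normalizer {G : Type u} [Group G] (Q D : Subgroup G) (hinf : Q ⊓ D = ⊥)
    (hN : Subgroup.normalizer (Q : Set G) = Q ⊔ D) :
    Nat.card ↥(Subgroup.normalizer (Q : Set G)) = Nat.card ↥Q * Nat.card ↥D := by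
  have hQN : Q ≤ Subgroup.normalizer (Q : Set G) := Subgroup.le_normalizer
  have hDN : D ≤ Subgroup.normalizer (Q : Set G) := by rw [hN]; exact le_sup_right
  have hnorm : (Q.subgroupOf (Subgroup.normalizer (Q : Set G))).Normal :=
    Subgroup.normal_in_normalizer
  have hsup : Q.subgroupOf (Subgroup.normalizer (Q : Set G)) ⊔
      D.subgroupOf (Subgroup.normalizer (Q : Set G)) = ⊤ := by
    rw [← Subgroup.subgroupOf_sup hQN hDN, ← hN, Subgroup.subgroupOf_self]
  have hdisj : Disjoint (Q.subgroupOf (Subgroup.normalizer (Q : Set G)))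
      (D.subgroupOf (Subgroup.normalizer (Q : Set G))) := by
    rw [Subgroup.disjoint_def]
    intro x hx hx'
    rw [Subgroup.mem_subgroupOf] at hx hx'
    have h1 : (x : G) ∈ Q ⊓ D := ⟨hx, hx'⟩
    rw [hinf, Subgroup.mem_bot] at h1
    exact Subtype.ext h1
  have hmul : ((Q.subgroupOf (Subgroup.normalizer (Q : Set G)) :
      Set ↥(Subgroup.normalizer (Q : Set G)))) *
      ((D.subgroupOf (Subgroup.normalizer (Q : Set G)) :
      Set ↥(Subgroup.normalizer (Q : Set G)))) = Set.univ := by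
    rw [← Subgroup.normal_mul, hsup, Subgroup.coe_top]
  have hc := (Subgroup.isComplement'_of_disjoint_and_mul_eq_univ hdisj hmul).card_mul_card
  rw [Nat.card_congr (Subgroup.subgroupOfEquivOfLe hQN).toEquiv,
    Nat.card_congr (Subgroup.subgroupOfEquivOfLe hDN).toEquiv] at hc
  exact hc.symm

theorem main : ZReg.{u} := by
  intro hZS G _ _ Q D hB
  obtain ⟨hcard, hcent, hD, hinf, hN⟩ := hB
  have hQN : Q ≤ Subgroup.normalizer (Q : Set G) := Subgroup.le_normalizer
  have hcN := card_normalizer Q D hinf hN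
  have hqpos : 0 < Nat.card ↥Q := Nat.card_pos
  have hdpos : 0 < Nat.card ↥D := Nat.card_pos
  -- the index
  have hidx : Nat.card (G ⧸ Subgroup.normalizer (Q : Set G)) = Nat.card ↥Q + 1 := by
    rw [← Subgroup.index_eq_card]
    have h1 := Subgroup.card_mul_index (Subgroup.normalizer (Q : Set G))
    rw [hcN] at h1
    have h2 : Nat.card ↥Q - 1 = 2 * Nat.card ↥D := by omega
    rw [h2, ← h1] at hcard
    have h3 : (Nat.card ↥Q * Nat.card ↥D * 2) * (Subgroup.normalizer (Q : Set G)).index =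
        (Nat.card ↥Q * Nat.card ↥D * 2) * (Nat.card ↥Q + 1) := by
      calc (Nat.card ↥Q * Nat.card ↥D * 2) * (Subgroup.normalizer (Q : Set G)).index
          = 2 * (Nat.card ↥Q * Nat.card ↥D * (Subgroup.normalizer (Q : Set G)).index) := by ring
        _ = Nat.card ↥Q * (Nat.card ↥Q + 1) * (2 * Nat.card ↥D) := hcard
        _ = (Nat.card ↥Q * Nat.card ↥D * 2) * (Nat.card ↥Q + 1) := by ring
    exact Nat.eq_of_mul_eq_mul_left (by positivity) h3
  refine ⟨hidx, ?_⟩
  -- freeness
  have hfree : ∀ (g : G), g ∉ Subgroup.normalizer (Q : Set G) → ∀ u u' : ↥Q,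
      (u : G) • (QuotientGroup.mk g : G ⧸ Subgroup.normalizer (Q : Set G)) =
        (u' : G) • (QuotientGroup.mk g : G ⧸ Subgroup.normalizer (Q : Set G)) → u = u' := by
    intro g hg u u' h
    have h1 : (QuotientGroup.mk ((u : G) * g) : G ⧸ Subgroup.normalizer (Q : Set G)) =
        QuotientGroup.mk ((u' : G) * g) := h
    rw [QuotientGroup.eq] at h1
    have hg' : g⁻¹ ∉ Subgroup.normalizer (Q : Set G) := fun h' =>
      hg (by simpa using Subgroup.inv_mem _ h')
    have h2 : g⁻¹ * ((u : G)⁻¹ * (u' : G)) * g⁻¹⁻¹ ∈ Subgroup.normalizer (Q : Set G) := by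
      have e : g⁻¹ * ((u : G)⁻¹ * (u' : G)) * g⁻¹⁻¹ = ((u : G) * g)⁻¹ * ((u' : G) * g) := by
        rw [inv_inv, mul_inv_rev]; simp only [mul_assoc]
      rw [e]; exact h1
    have h3 := hZS G Q D ⟨hcard, hcent, hD, hinf, hN⟩ g⁻¹ hg' ((u : G)⁻¹ * (u' : G))
      (Q.mul_mem (Q.inv_mem u.2) u'.2) h2
    exact Subtype.ext (inv_mul_eq_one.mp h3)
  intro y z hy hz
  obtain ⟨g, rfl⟩ := QuotientGroup.mk_surjective y
  have hg : g ∉ Subgroup.normalizer (Q : Set G) := by
    intro h
    apply hy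
    rw [QuotientGroup.eq]
    simpa using Subgroup.inv_mem _ h
  -- the orbit map into the cosets other than the base coset
  have hne : ∀ u : ↥Q, (u : G) • (QuotientGroup.mk g : G ⧸ Subgroup.normalizer (Q : Set G)) ≠
      (QuotientGroup.mk (1 : G) : G ⧸ Subgroup.normalizer (Q : Set G)) := by
    intro u h
    apply hg
    have h1 : (QuotientGroup.mk ((u : G) * g) : G ⧸ Subgroup.normalizer (Q : Set G)) =
        QuotientGroup.mk (1 : G) := h
    rw [QuotientGroup.eq, mul_one] at h1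
    have h2 : (u : G) * g ∈ Subgroup.normalizer (Q : Set G) := by
      have := Subgroup.inv_mem _ h1
      rwa [inv_inv] at this
    have h3 := Subgroup.mul_mem _ (Subgroup.inv_mem _ (hQN u.2)) h2
    rwa [inv_mul_cancel_left] at h3
  have hinj : Function.Injective (fun u : ↥Q =>
      (⟨(u : G) • (QuotientGroup.mk g : G ⧸ Subgroup.normalizer (Q : Set G)), hne u⟩ :
        {w : G ⧸ Subgroup.normalizer (Q : Set G) // w ≠ QuotientGroup.mk (1 : G)})) := by
    intro u u' h
    exact hfree g hg u u' (congrArg Subtype.val h)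
  have hcard' : Nat.card {w : G ⧸ Subgroup.normalizer (Q : Set G) // w ≠ QuotientGroup.mk (1 : G)} ≤
      Nat.card ↥Q := by
    have e1 : Nat.card {w : G ⧸ Subgroup.normalizer (Q : Set G) // w ≠ QuotientGroup.mk (1 : G)} =
        ({(QuotientGroup.mk (1 : G) : G ⧸ Subgroup.normalizer (Q : Set G))}ᶜ : Set _).ncard :=
      Nat.card_coe_set_eq _
    rw [e1, Set.ncard_compl, Set.ncard_singleton, hidx]
    omega
  obtain ⟨u, hu⟩ := (hinj.bijective_of_nat_card_le hcard').2 ⟨z, hz⟩
  refine ⟨u, congrArg Subtype.val hu, ?_⟩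
  intro u' hu'
  exact hfree g hg u' u (hu'.trans (congrArg Subtype.val hu).symm)

end Cfsg.Agent.Lib.Helper67.NCZREG
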