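import Mathlib
import Cfsg.Prelude.Def_Transfer
import Cfsg.Agent.Lib.Helper1.PDStmt
import Cfsg.Agent.S4023

set_option autoImplicit false

/-!
# S4020 from `NoExtra` alone (via the landed single-prime statement S4023)

S4023: (D) for the prime `p` gives `P` cyclic, elementary abelian, `Q₈`, or nonabelian of order
`p³` and exponent `p`; `NoExtra` excludes the last case.
-/

namespace Cfsg.Agent.Lib.Helper67.PDViaS4023

open Cfsg.Agent.Lib.Helper1.PDStmt

universe u

theorem main (hN : NoExtra.{u}) {G : Type u} [Group G] [Finite G] (hD : PropD G) {p : ℕ}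
    [Fact p.Prime] (P : Sylow p G) :
    IsCyclic P ∨ Cfsg.IsElementaryAbelian p (P : Subgroup G) ∨
      Nonempty ((P : Subgroup G) ≃* QuaternionGroup 2) := by
  rcases Cfsg.Agent.S4023.result (hD p Fact.out) P with h | h | ⟨_, h⟩ | ⟨_, hnc, hcard, hexp⟩
  · exact Or.inl h
  · exact Or.inr (Or.inl h)
  · exact Or.inr (Or.inr h)
  · exfalso
    apply hnc
    have hx : ∀ x ∈ (P : Subgroup G), x ^ p = 1 := by
      intro x hx
      have h1 := Monoid.pow_exponent_eq_one (⟨x, hx⟩ : (P : Subgroup G))
      rw [hexp] at h1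
      have h2 := congrArg Subtype.val h1
      simpa using h2
    have hab := hN G hD p P hcard hx
    exact ⟨⟨fun a b => Subtype.ext (hab a.1 a.2 b.1 b.2)⟩⟩

end Cfsg.Agent.Lib.Helper67.PDViaS4023
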