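import Mathlib
import Cfsg.Agent.Lib.Helper44.PGStmt
import Cfsg.Agent.Lib.Helper44.NegPairs

/-!
# S2474 piece BSUF4 (helper67, second seat): sufficiency of `CritIV` for an element of order `2r`
in `Ω(2n+1, q)`.  Also the tools `two_ne_zero_of_char`, `rot_facts`, `hasB_sq` reused by BSUF3.
-/

set_option autoImplicit false

namespace Cfsg.Agent.Lib.Helper67.PGBSUF4

open Matrix Polynomial
open Cfsg.Agent.Lib.Helper44.QSpace Cfsg.Agent.Lib.Helper44.OGroup Cfsg.Agent.Lib.Helper44.OMat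
open Cfsg.Agent.Lib.Helper44.OExt Cfsg.Agent.Lib.Helper40.RecipPoly
open Cfsg.Agent.Lib.Helper44.PGStmt

universe u

theorem two_ne_zero_of_char {F : Type u} [Field F] (p : ℕ) [Fact p.Prime] [CharP F p]
    (hp2 : p ≠ 2) : (2 : F) ≠ 0 := by
  intro h
  have h' : ((2 : ℕ) : F) = 0 := by exact_mod_cast h
  rw [CharP.cast_eq_zero_iff F p] at h'
  exact hp2 ((Nat.prime_dvd_prime_iff_eq (Fact.out) Nat.prime_two).mp h')

/-- the rotation of order `4` of the form `x² + y²` -/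
theorem rot_facts {F : Type u} [Field F] (h2 : (2 : F) ≠ 0) :
    ((1 : Matrix (Fin 2) (Fin 2) F) + (1 : Matrix (Fin 2) (Fin 2) F)ᵀ).det ≠ 0 ∧
    (∀ u, qN (1 : Matrix (Fin 2) (Fin 2) F) ((!![0, -1; 1, 0] : Matrix (Fin 2) (Fin 2) F) *ᵥ u)
      = qN (1 : Matrix (Fin 2) (Fin 2) F) u) ∧
    (!![0, -1; 1, 0] : Matrix (Fin 2) (Fin 2) F) ^ 2 = -1 ∧
    ∀ j : ℕ, (!![0, -1; 1, 0] : Matrix (Fin 2) (Fin 2) F) ^ j = 1 ↔ 4 ∣ j := by
  have hsq : (!![0, -1; 1, 0] : Matrix (Fin 2) (Fin 2) F) ^ 2 = -1 := by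
    rw [pow_two]
    ext i j
    fin_cases i <;> fin_cases j <;> simp [Matrix.mul_apply, Fin.sum_univ_two]
  refine ⟨?_, ?_, hsq, ?_⟩
  · rw [Matrix.transpose_one, Matrix.det_fin_two]
    simp
    rw [one_add_one_eq_two]
    exact h2
  · intro u
    apply qN_isom
    ext i j
    fin_cases i <;> fin_cases j <;> simp [Matrix.mul_apply, Fin.sum_univ_two]
  · have h4 : (!![0, -1; 1, 0] : Matrix (Fin 2) (Fin 2) F) ^ 4 = 1 := by
      rw [show 4 = 2 * 2 by norm_num, pow_mul, hsq]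
      simp
    have hne : (!![0, -1; 1, 0] : Matrix (Fin 2) (Fin 2) F) ^ 2 ≠ 1 := by
      rw [hsq]
      intro h
      have h3 := congrFun (congrFun h 0) 0
      simp at h3
      apply h2
      linear_combination -h3
    have hord : orderOf (!![0, -1; 1, 0] : Matrix (Fin 2) (Fin 2) F) = 4 := by
      haveI : Fact (Nat.Prime 2) := ⟨Nat.prime_two⟩
      have h5 := orderOf_eq_prime_pow (x := (!![0, -1; 1, 0] : Matrix (Fin 2) (Fin 2) F))
        (p := 2) (n := 1) (by simpa using hne) (by norm_num; exact h4)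
      rw [h5]
      norm_num
    intro j
    rw [← orderOf_dvd_iff_pow_eq_one, hord]

/-- the square of an isometry of order `2 * m` is an element of `Ω` of order `m` -/
theorem hasB_sq {F : Type u} [Field F] [Fintype F] (h2 : (2 : F) ≠ 0) (hSq : SqMem.{u})
    (n m : ℕ) (g : ↥(Cfsg.isometryGroup F (Cfsg.quadFormOdd n F)))
    (hg : ∀ j : ℕ, g ^ j = 1 ↔ 2 * m ∣ j) : HasB F n m := by
  refine ⟨g ^ 2, ?_, ?_⟩
  · exact hSq F (Unit ⊕ (Fin n ⊕ Fin n)) (Cfsg.Agent.Lib.Helper44.NegPairs.oddQ n F) h2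
      (Cfsg.Agent.Lib.Helper44.NegPairs.sep_oddQ h2 n) g
  · have hord : orderOf g = 2 * m := by
      apply Nat.dvd_antisymm
      · exact orderOf_dvd_of_pow_eq_one ((hg _).mpr dvd_rfl)
      · exact (hg _).mp (pow_orderOf_eq_one g)
    rw [orderOf_pow' g (by norm_num : (2 : ℕ) ≠ 0), hord,
      Nat.gcd_eq_right (Dvd.intro m rfl)]
    omega

theorem main : OTorMinus.{u} → OTorPlus.{u} → BlockSum.{u} → OEmbed.{u} → SqMem.{u} →
    BSufIV.{u} := by
  intro hTM hTP hBS hOE hSq F _ _ p _ _ hp2 n hn r hr hr2 hrp hcrit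
  have h2 : (2 : F) ≠ 0 := two_ne_zero_of_char p hp2
  have hcop : Nat.Coprime 4 r := by
    have h1 : Nat.Coprime 2 r := (Nat.coprime_primes Nat.prime_two hr).mpr (Ne.symm hr2)
    have h3 := Nat.Coprime.pow_left 2 h1
    norm_num at h3
    exact h3
  have key : ∀ k K : ℕ, 1 ≤ k → Tor (Fintype.card F) k K →
      ∃ (κ : Type) (_ : Fintype κ) (_ : DecidableEq κ) (N s : Matrix κ κ F),
        Fintype.card κ = 2 * k ∧ (N + Nᵀ).det ≠ 0 ∧
        (∀ u, qN N (s *ᵥ u) = qN N u) ∧ ∀ j : ℕ, s ^ j = 1 ↔ K ∣ j := by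
    intro k K hk h
    rcases h with h | h
    · exact hTM F h2 k K hk h
    · exact hTP F h2 k K hk h
  rcases hcrit with ⟨k, hk1, hkn, htor⟩ | htor
  · obtain ⟨κ, _, _, N₁, s₁, hcard, hdet, hiso, hpow⟩ := key k r hk1 htor
    obtain ⟨hdet₂, hiso₂, -, hpow₂⟩ := rot_facts (F := F) h2
    obtain ⟨hdetB, hisoB, hpowB⟩ := hBS F κ (Fin 2) N₁ s₁ 1 !![0, -1; 1, 0] hdet hdet₂ hiso hiso₂
    have hcardB : Fintype.card (κ ⊕ Fin 2) ≤ 2 * n + 1 := by
      rw [Fintype.card_sum, hcard, Fintype.card_fin]; omega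
    obtain ⟨g, hg⟩ := hOE F h2 n (κ ⊕ Fin 2) _ _ hcardB hdetB hisoB
    apply hasB_sq h2 hSq n (2 * r) g
    intro j
    rw [show 2 * (2 * r) = 4 * r by ring, hg j, hpowB j, hpow j, hpow₂ j]
    constructor
    · rintro ⟨h1, h3⟩
      exact Nat.Coprime.mul_dvd_of_dvd_of_dvd hcop h3 h1
    · intro h
      exact ⟨dvd_trans (dvd_mul_left r 4) h, dvd_trans (dvd_mul_right 4 r) h⟩
  · obtain ⟨κ, _, _, N₁, s₁, hcard, hdet, hiso, hpow⟩ := key n (4 * r) (by omega) htor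
    have hcardB : Fintype.card κ ≤ 2 * n + 1 := by rw [hcard]; omega
    obtain ⟨g, hg⟩ := hOE F h2 n κ N₁ s₁ hcardB hdet hiso
    apply hasB_sq h2 hSq n (2 * r) g
    intro j
    rw [show 2 * (2 * r) = 4 * r by ring, hg j, hpow j]

end Cfsg.Agent.Lib.Helper67.PGBSUF4
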