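import Mathlib

/-!
# Element orders in `PGL(2, F₀)` for a finite field `F₀`

Every element `g` of `PGL(2, F₀)` satisfies `g ^ (q - 1) = 1`, `g ^ (q + 1) = 1` or `g ^ p = 1`
(`q = |F₀|`, `p = char F₀`).  (Piece ORD of S5890.)
-/

namespace Cfsg.Agent.Lib.Helper67.PglOrd

open Polynomial

variable {F₀ : Type*} [Field F₀] [Fintype F₀]

/-- Abstract version: an element `m` of a commutative `F₀`-algebra with
`m ^ 2 = t m - d`, `d ≠ 0`. -/
theorem comm_orders (p : ℕ) [Fact p.Prime] [CharP F₀ p]
    {R : Type*} [CommRing R] [Algebra F₀ R] (m : R) (t d : F₀)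
    (hm : m * m = algebraMap F₀ R t * m - algebraMap F₀ R d) :
    m ^ (Fintype.card F₀) = m ∨ m ^ (Fintype.card F₀ + 1) = algebraMap F₀ R d ∨
      ∃ c : F₀, m ^ p = algebraMap F₀ R c := by
  classical
  set a := algebraMap F₀ R with ha
  set Q := Fintype.card F₀ with hQ
  have hQpos : 0 < Q := Fintype.card_pos
  have hpow : ∀ n : ℕ, ∃ x y : F₀, m ^ n = a x + a y * m := by
    intro n
    induction n with
    | zero => exact ⟨1, 0, by simp⟩
    | succ n ih =>
      obtain ⟨x, y, h⟩ := ih
      refine ⟨-(d * y), x + t * y, ?_⟩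
      rw [pow_succ, h]
      simp only [map_neg, map_mul, map_add]
      linear_combination (a y) * hm
  have hB : m ^ Q * m ^ Q - a t * m ^ Q + a d = 0 := by
    have h1 : aeval m (X ^ 2 - C t * X + C d : F₀[X]) = 0 := by
      simp only [map_add, map_sub, map_mul, map_pow, aeval_X, aeval_C]
      linear_combination hm
    have h2 : aeval (m ^ Q) (X ^ 2 - C t * X + C d : F₀[X]) = 0 := by
      rw [← expand_aeval, FiniteField.expand_card, map_pow, h1, zero_pow hQpos.ne']
    simp only [map_add, map_sub, map_mul, map_pow, aeval_X, aeval_C] at h2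
    linear_combination h2
  have h3 : (m ^ Q - m) * (m ^ Q - (a t - m)) = 0 := by linear_combination hB - hm
  by_cases hroot : ∃ r : F₀, r * r - t * r + d = 0
  · obtain ⟨r, hr⟩ := hroot
    by_cases hrs : r = t - r
    · -- double root
      right; right
      refine ⟨r ^ p, ?_⟩
      have hN : (m - a r) * (m - a r) = 0 := by
        have h1 : a r * a r - a t * a r + a d = 0 := by
          rw [← map_mul, ← map_mul, ← map_sub, ← map_add, hr, map_zero]
        have h2 : a t = a r + a r := by
          rw [← map_add]; congr 1; linear_combination -hrs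
        linear_combination hm + (m - a r) * h2 - h1
      have hpoly : (X - C r : F₀[X]) ^ p = X ^ p - C r ^ p := sub_pow_char _ _
      have h4 := congrArg (aeval m) hpoly
      simp only [map_pow, map_sub, aeval_X, aeval_C] at h4
      have hp2 : 2 ≤ p := (Fact.out : p.Prime).two_le
      have h5 : (m - a r) ^ p = 0 := by
        have hp' : p = 2 + (p - 2) := by omega
        calc (m - a r) ^ p = (m - a r) ^ (2 + (p - 2)) := by rw [← hp']
          _ = 0 := by rw [pow_add, pow_two, hN, zero_mul]
      rw [map_pow]; linear_combination h5 - h4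
    · -- distinct roots
      left
      have hu : a ((r - (t - r))⁻¹) * (a r - a (t - r)) = 1 := by
        rw [← map_sub, ← map_mul, inv_mul_cancel₀ (sub_ne_zero.2 hrs), map_one]
      have hts : a t = a r + a (t - r) := by rw [← map_add]; congr 1; ring
      have hds : a d = a r * a (t - r) := by
        rw [← map_mul]; congr 1; linear_combination hr
      have hrQ : a r ^ Q = a r := by rw [← map_pow, FiniteField.pow_card]
      have hsQ : a (t - r) ^ Q = a (t - r) := by rw [← map_pow, FiniteField.pow_card]
      generalize a (t - r) = as at hu hts hds hsQ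
      generalize a ((r - (t - r))⁻¹) = u at hu
      have h0 : (m - a r) * (m - as) = 0 := by linear_combination hm + m * hts - hds
      have hP : m * (u * (m - as)) = a r * (u * (m - as)) := by linear_combination u * h0
      have hP' : m * (1 - u * (m - as)) = as * (1 - u * (m - as)) := by
        linear_combination -(m - as) * hu - u * h0
      have hPn : ∀ n : ℕ, m ^ n * (u * (m - as)) = a r ^ n * (u * (m - as)) := by
        intro n
        induction n with
        | zero => simp
        | succ n ih => rw [pow_succ, pow_succ]; linear_combination m * ih + a r ^ n * hP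
      have hPn' : ∀ n : ℕ, m ^ n * (1 - u * (m - as)) = as ^ n * (1 - u * (m - as)) := by
        intro n
        induction n with
        | zero => simp
        | succ n ih => rw [pow_succ, pow_succ]; linear_combination m * ih + as ^ n * hP'
      linear_combination hPn Q + hPn' Q + (u * (m - as)) * hrQ + (1 - u * (m - as)) * hsQ
        - hP - hP'
  · -- no root
    simp only [not_exists] at hroot
    obtain ⟨x, y, hxy⟩ := hpow Q
    by_cases h01 : x = 0 ∧ y = 1
    · left; rw [hxy, h01.1, h01.2]; simp
    · right; left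
      have hN : x * x + t * x * (y - 1) + d * (y - 1) * (y - 1) ≠ 0 := by
        intro hN
        by_cases hy : y - 1 = 0
        · rw [hy] at hN
          simp only [mul_zero, add_zero, mul_self_eq_zero] at hN
          exact h01 ⟨hN, sub_eq_zero.1 hy⟩
        · apply hroot (-x / (y - 1))
          field_simp
          linear_combination hN
      have h5 : a (x * x + t * x * (y - 1) + d * (y - 1) * (y - 1)) * (m ^ Q - (a t - m)) = 0 := by
        have h6 : a (x * x + t * x * (y - 1) + d * (y - 1) * (y - 1))
            = (a x + a (y - 1) * (a t - m)) * (m ^ Q - m) := by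
          rw [hxy]
          simp only [map_add, map_mul, map_sub, map_one]
          linear_combination (a y - 1) * (a y - 1) * hm
        rw [h6, mul_assoc, h3, mul_zero]
      have h6 : m ^ Q - (a t - m) = 0 := by
        have h7 := congrArg (fun z => a (x * x + t * x * (y - 1) + d * (y - 1) * (y - 1))⁻¹ * z) h5
        simp only [← mul_assoc, ← map_mul, inv_mul_cancel₀ hN, map_one, one_mul, mul_zero] at h7
        exact h7
      rw [pow_succ]; linear_combination m * h6 - hm

/-- Matrix version. -/
theorem mat_orders (p : ℕ) [Fact p.Prime] [CharP F₀ p] (M : Matrix (Fin 2) (Fin 2) F₀) :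
    M ^ (Fintype.card F₀) = M ∨ (∃ c : F₀, M ^ (Fintype.card F₀ + 1) = c • 1) ∨
      ∃ c : F₀, M ^ p = c • 1 := by
  set χ : F₀[X] := X ^ 2 - C M.trace * X + C M.det with hχ
  have hχM : aeval M χ = 0 := by
    have h := Matrix.aeval_self_charpoly M
    rwa [Matrix.charpoly_fin_two] at h
  have hdiv : ∀ f : F₀[X], AdjoinRoot.mk χ f = 0 → aeval M f = 0 := by
    intro f hf
    obtain ⟨q, rfl⟩ := AdjoinRoot.mk_eq_zero.1 hf
    rw [map_mul, hχM, zero_mul]
  have hm : AdjoinRoot.root χ * AdjoinRoot.root χ
      = algebraMap F₀ (AdjoinRoot χ) M.trace * AdjoinRoot.root χ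
        - algebraMap F₀ (AdjoinRoot χ) M.det := by
    have h := AdjoinRoot.mk_self (f := χ)
    rw [← AdjoinRoot.aeval_eq] at h
    simp only [hχ, map_add, map_sub, map_mul, map_pow, aeval_X, aeval_C] at h
    linear_combination h
  rcases comm_orders p (AdjoinRoot.root χ) M.trace M.det hm with h | h | ⟨c, h⟩
  · left
    have h1 : AdjoinRoot.mk χ (X ^ Fintype.card F₀ - X) = 0 := by
      rw [← AdjoinRoot.aeval_eq]
      simp only [map_sub, map_pow, aeval_X]
      rw [h, sub_self]
    have h2 := hdiv _ h1
    simp only [map_sub, map_pow, aeval_X] at h2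
    exact sub_eq_zero.1 h2
  · right; left
    refine ⟨M.det, ?_⟩
    have h1 : AdjoinRoot.mk χ (X ^ (Fintype.card F₀ + 1) - C M.det) = 0 := by
      rw [← AdjoinRoot.aeval_eq]
      simp only [map_sub, map_pow, aeval_X, aeval_C]
      rw [h, sub_self]
    have h2 := hdiv _ h1
    simp only [map_sub, map_pow, aeval_X, aeval_C] at h2
    rw [sub_eq_zero.1 h2, Algebra.algebraMap_eq_smul_one]
  · right; right
    refine ⟨c, ?_⟩
    have h1 : AdjoinRoot.mk χ (X ^ p - C c) = 0 := by
      rw [← AdjoinRoot.aeval_eq]
      simp only [map_sub, map_pow, aeval_X, aeval_C]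
      rw [h, sub_self]
    have h2 := hdiv _ h1
    simp only [map_sub, map_pow, aeval_X, aeval_C] at h2
    rw [sub_eq_zero.1 h2, Algebra.algebraMap_eq_smul_one]

/-- **Piece ORD of S5890.** Element orders in `PGL(2, F₀)`. -/
theorem pgl_orders {F₀ : Type*} [Field F₀] [Fintype F₀] (p : ℕ) [Fact p.Prime] [CharP F₀ p]
    (g : Matrix.ProjGenLinGroup (Fin 2) F₀) :
    g ^ (Fintype.card F₀ - 1) = 1 ∨ g ^ (Fintype.card F₀ + 1) = 1 ∨ g ^ p = 1 := by
  obtain ⟨A, rfl⟩ := Matrix.ProjGenLinGroup.mk_surjective g
  have hQpos : 0 < Fintype.card F₀ := Fintype.card_pos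
  have hscal : ∀ (n : ℕ) (c : F₀), (A : Matrix (Fin 2) (Fin 2) F₀) ^ n = c • 1 →
      Matrix.ProjGenLinGroup.mk A ^ n = 1 := by
    intro n c h
    rw [← map_pow, Matrix.ProjGenLinGroup.mk_eq_one, Subgroup.mem_center_iff]
    intro B
    apply Units.ext
    rw [Units.val_mul, Units.val_mul, Units.val_pow_eq_pow_val, h]
    simp
  rcases mat_orders p (A : Matrix (Fin 2) (Fin 2) F₀) with h | ⟨c, h⟩ | ⟨c, h⟩
  · left
    have h1 : A ^ Fintype.card F₀ = A := by
      apply Units.ext
      rw [Units.val_pow_eq_pow_val, h]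
    have h2 : A ^ (Fintype.card F₀ - 1) = 1 := by
      have h3 : A ^ (Fintype.card F₀ - 1) * A = 1 * A := by
        rw [← pow_succ, Nat.sub_add_cancel hQpos, h1, one_mul]
      exact mul_right_cancel h3
    rw [← map_pow, h2, map_one]
  · right; left
    exact hscal _ c h
  · right; right
    exact hscal _ c h

end Cfsg.Agent.Lib.Helper67.PglOrd
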