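import Mathlib
import Cfsg.Agent.Lib.Helper76.SylowTools
import Cfsg.Agent.Lib.Helper50.CoprimeConj

/-!
# π-closed groups: when the π-elements form a subgroup

`PiClosed π G`: the π-elements of `G` form a subgroup.
`Hom π G`: `N_G(H)/C_G(H)` is a π'-group for every nontrivial π'-subgroup `H`.
The condition `Hom` passes to quotients by normal π-subgroups and by normal π'-subgroups, and
a π-separable group with `Hom` is π-closed (elementary proof: Sylow and Schur-Zassenhaus existence).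
-/

set_option autoImplicit false

namespace Cfsg.Agent.Lib.Helper67.PiClosed

open Subgroup
open Cfsg.Agent.Lib.Helper76.SylowTools
open Cfsg.Agent.Lib.Helper50.CoprimeConj

universe u

section Basic

/-- all prime divisors of `n` lie in `π` -/
def PiNum (π : Set ℕ) (n : ℕ) : Prop := ∀ p : ℕ, p.Prime → p ∣ n → p ∈ π

/-- no prime divisor of `n` lies in `π` -/
def PiNum' (π : Set ℕ) (n : ℕ) : Prop := ∀ p : ℕ, p.Prime → p ∣ n → p ∉ π

variable {π : Set ℕ} {m n : ℕ}

theorem PiNum.of_dvd (h : PiNum π n) (hd : m ∣ n) : PiNum π m :=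
  fun p hp hpm => h p hp (hpm.trans hd)

theorem PiNum'.of_dvd (h : PiNum' π n) (hd : m ∣ n) : PiNum' π m :=
  fun p hp hpm => h p hp (hpm.trans hd)

theorem PiNum.mul (h1 : PiNum π m) (h2 : PiNum π n) : PiNum π (m * n) :=
  fun p hp hd => (hp.dvd_mul.mp hd).elim (h1 p hp) (h2 p hp)

theorem PiNum'.mul (h1 : PiNum' π m) (h2 : PiNum' π n) : PiNum' π (m * n) :=
  fun p hp hd => (hp.dvd_mul.mp hd).elim (h1 p hp) (h2 p hp)

theorem coprime_of_piNum (h1 : PiNum π m) (h2 : PiNum' π n) : m.Coprime n :=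
  Nat.coprime_of_dvd fun p hp hm hn => h2 p hp hn (h1 p hp hm)

theorem piNum_one : PiNum π 1 := fun _ hp h => absurd (Nat.dvd_one.mp h) hp.ne_one

theorem piNum'_one : PiNum' π 1 := fun _ hp h => absurd (Nat.dvd_one.mp h) hp.ne_one

theorem eq_one_of_piNum_of_piNum' (h1 : PiNum π n) (h2 : PiNum' π n) : n = 1 :=
  (Nat.coprime_self n).mp (coprime_of_piNum h1 h2)

theorem piNum_prime_pow {p : ℕ} (hp : p.Prime) (hpπ : p ∈ π) (k : ℕ) : PiNum π (p ^ k) := by
  intro q hq hd
  rw [(Nat.prime_dvd_prime_iff_eq hq hp).mp (hq.dvd_of_dvd_pow hd)]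
  exact hpπ

theorem piNum'_prime_pow {p : ℕ} (hp : p.Prime) (hpπ : p ∉ π) (k : ℕ) : PiNum' π (p ^ k) := by
  intro q hq hd
  rw [(Nat.prime_dvd_prime_iff_eq hq hp).mp (hq.dvd_of_dvd_pow hd)]
  exact hpπ

end Basic

section Group

variable {π : Set ℕ} {G : Type u} [Group G]

/-- the π-elements of `G` form a subgroup -/
def IsPiClosed (π : Set ℕ) (G : Type u) [Group G] : Prop :=
  ∃ K : Subgroup G, ∀ x : G, x ∈ K ↔ ∀ p : ℕ, p.Prime → p ∣ orderOf x → p ∈ π

/-- `N_G(H)/C_G(H)` is a π'-group for every nontrivial π'-subgroup `H` -/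
def Hom (π : Set ℕ) (G : Type u) [Group G] : Prop :=
  ∀ H : Subgroup G, H ≠ ⊥ → (∀ p : ℕ, p.Prime → p ∣ Nat.card ↥H → p ∉ π) →
    ∀ p : ℕ, p.Prime → p ∣ (Subgroup.centralizer (H : Set G)).relIndex
      (Subgroup.normalizer (H : Set G)) → p ∉ π

/-- primary form of the condition `Hom` -/
def Hom' (π : Set ℕ) (G : Type u) [Group G] : Prop :=
  ∀ (q : ℕ), q.Prime → q ∉ π → ∀ Q : Subgroup G, IsPGroup q Q →
    ∀ x ∈ normalizer (Q : Set G), PiNum π (orderOf x) → ∀ u ∈ Q, x * u = u * x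

theorem piNum_card_of_forall [Finite G] (H : Subgroup G) (h : ∀ x ∈ H, PiNum π (orderOf x)) :
    PiNum π (Nat.card H) := by
  intro p hp hd
  have := Fact.mk hp
  obtain ⟨x, hx⟩ := exists_prime_orderOf_dvd_card' p hd
  exact h x x.2 p hp (by rw [Subgroup.orderOf_coe, hx])

theorem piNum'_card_of_forall [Finite G] (H : Subgroup G) (h : ∀ x ∈ H, PiNum' π (orderOf x)) :
    PiNum' π (Nat.card H) := by
  intro p hp hd
  have := Fact.mk hp
  obtain ⟨x, hx⟩ := exists_prime_orderOf_dvd_card' p hd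
  exact h x x.2 p hp (by rw [Subgroup.orderOf_coe, hx])

/-- the order of `x` divides the order of its image times the order of the kernel -/
theorem orderOf_dvd_mul_card [Finite G] (N : Subgroup G) [N.Normal] (x : G) :
    orderOf x ∣ orderOf (QuotientGroup.mk' N x) * Nat.card N := by
  apply orderOf_dvd_of_pow_eq_one
  rw [pow_mul]
  have h1 : x ^ orderOf (QuotientGroup.mk' N x) ∈ N := by
    rw [← QuotientGroup.eq_one_iff, ← QuotientGroup.mk'_apply, map_pow, pow_orderOf_eq_one]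
  have h2 : (⟨x ^ orderOf (QuotientGroup.mk' N x), h1⟩ : N) ^ Nat.card N = 1 := pow_card_eq_one'
  exact congrArg Subtype.val h2

/-- L1: a π-element normalizing a nontrivial π'-subgroup centralizes it. -/
theorem mem_centralizer_of_hom [Finite G] (h : Hom π G) (H : Subgroup G) (hH : H ≠ ⊥)
    (hH' : PiNum' π (Nat.card H)) (g : G) (hg : g ∈ normalizer (H : Set G))
    (hgπ : PiNum π (orderOf g)) : g ∈ centralizer (H : Set G) := by
  have hr : PiNum' π ((centralizer (H : Set G)).relIndex (normalizer (H : Set G))) := h H hH hH'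
  have h1 : (⟨g, hg⟩ : normalizer (H : Set G)) ^
      ((centralizer (H : Set G)).subgroupOf (normalizer (H : Set G))).index ∈
      (centralizer (H : Set G)).subgroupOf (normalizer (H : Set G)) :=
    Subgroup.pow_index_mem _ _
  have h2 : g ^ ((centralizer (H : Set G)).relIndex (normalizer (H : Set G))) ∈
      centralizer (H : Set G) := h1
  have hcop : ((centralizer (H : Set G)).relIndex (normalizer (H : Set G))).Coprime (orderOf g) :=
    (coprime_of_piNum hgπ hr).symm
  obtain ⟨m, hm⟩ := exists_pow_eq_self_of_coprime hcop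
  rw [← hm]
  exact Subgroup.pow_mem _ h2 m

/-- L2: criterion for the conclusion of `Hom` at a subgroup `H`. -/
theorem piNum'_relIndex_of_forall [Finite G] (H : Subgroup G)
    (h : ∀ (r : ℕ), r.Prime → r ∈ π → ∀ x ∈ normalizer (H : Set G),
      (∃ k, orderOf x = r ^ k) → x ∈ centralizer (H : Set G)) :
    PiNum' π ((centralizer (H : Set G)).relIndex (normalizer (H : Set G))) := by
  intro p hp hd hpπ
  have := Fact.mk hp
  obtain ⟨S⟩ : Nonempty (Sylow p (normalizer (H : Set G))) := inferInstance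
  have hle : (S : Subgroup (normalizer (H : Set G))) ≤
      (centralizer (H : Set G)).subgroupOf (normalizer (H : Set G)) := by
    intro s hs
    obtain ⟨k, hk⟩ := (IsPGroup.iff_orderOf.mp S.2) ⟨s, hs⟩
    have hk' : orderOf (s : G) = p ^ k := by
      rw [← hk, Subgroup.orderOf_mk, Subgroup.orderOf_coe]
    exact Subgroup.mem_subgroupOf.mpr (h p hp hpπ s s.2 ⟨k, hk'⟩)
  have h1 : ((centralizer (H : Set G)).subgroupOf (normalizer (H : Set G))).index ∣
      (S : Subgroup (normalizer (H : Set G))).index := Subgroup.index_dvd_of_le hle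
  exact S.not_dvd_index (hd.trans h1)

theorem hom'_of_hom [Finite G] (h : Hom π G) : Hom' π G := by
  intro q hq hqπ Q hQ x hx hxπ u hu
  by_cases hQb : Q = ⊥
  · rw [hQb, Subgroup.mem_bot] at hu
    rw [hu]; simp
  · have hQ' : PiNum' π (Nat.card Q) := by
      have := Fact.mk hq
      obtain ⟨k, hk⟩ := hQ.exists_card_eq
      rw [hk]
      exact piNum'_prime_pow hq hqπ k
    have h1 := mem_centralizer_of_hom h Q hQb hQ' x hx hxπ
    exact (Subgroup.mem_centralizer_iff.mp h1 u hu).symm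

/-- an `r`-element normalizing a subgroup `M` of order prime to `r` normalizes a Sylow
`q`-subgroup of `M`. -/
theorem exists_invariant_sylow [Finite G] {q r : ℕ} [Fact q.Prime] [Fact r.Prime]
    (M : Subgroup G) (x : G) (hx : x ∈ normalizer (M : Set G)) (k : ℕ) (hxr : orderOf x = r ^ k)
    (hc : ¬ r ∣ Nat.card M) :
    ∃ R : Subgroup G, R ≤ M ∧ IsPGroup q R ∧ ¬ q ∣ R.relIndex M ∧
      x ∈ normalizer (R : Set G) := by
  have hU : zpowers x ≤ normalizer (M : Set G) := (zpowers_le).mpr hx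
  have hUr : IsPGroup r (zpowers x) :=
    IsPGroup.of_card (n := k) (by rw [Nat.card_zpowers, hxr])
  let ψ : zpowers x →* MulAut M := conjHom (zpowers x) M hU
  let _inst : MulAction (zpowers x) (Sylow q M) := MulAction.compHom (Sylow q M) ψ
  have hcard : ¬ r ∣ Nat.card (Sylow q M) := by
    obtain ⟨S⟩ := (inferInstance : Nonempty (Sylow q M))
    intro hdvd
    exact hc ((hdvd.trans (S.card_dvd_index)).trans (Subgroup.index_dvd_card _))
  obtain ⟨S, hS⟩ := hUr.nonempty_fixed_point_of_prime_not_dvd_card (Sylow q M) hcard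
  refine ⟨(S : Subgroup M).map M.subtype, Subgroup.map_subtype_le _, S.2.map _, ?_, ?_⟩
  · have h1 : ((S : Subgroup M).map M.subtype).subgroupOf M = S :=
      Subgroup.comap_map_eq_self_of_injective M.subtype_injective _
    change ¬ q ∣ (((S : Subgroup M).map M.subtype).subgroupOf M).index
    rw [h1]
    exact S.not_dvd_index
  · apply Subgroup.mem_normalizer_fintype
    rintro _ ⟨s, hs, rfl⟩
    have hfix : (⟨x, mem_zpowers x⟩ : zpowers x) • S = S := hS ⟨x, mem_zpowers x⟩
    refine ⟨(ψ ⟨x, mem_zpowers x⟩) s, ?_, rfl⟩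
    have h2 : (ψ ⟨x, mem_zpowers x⟩) • s ∈
        (((⟨x, mem_zpowers x⟩ : zpowers x) • S : Sylow q M) : Subgroup M) :=
      Subgroup.smul_mem_pointwise_smul s _ _ hs
    rw [hfix] at h2
    exact h2

theorem hom_of_hom' [Finite G] (h : Hom' π G) : Hom π G := by
  intro H hH hH'
  apply piNum'_relIndex_of_forall
  intro r hr hrπ x hx ⟨k, hk⟩
  have := Fact.mk hr
  have hrH : ¬ r ∣ Nat.card H := fun hd => hH' r hr hd hrπ
  have hxπ : PiNum π (orderOf x) := by
    rw [hk]; exact piNum_prime_pow hr hrπ k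
  have hrel : (H ⊓ centralizer ({x} : Set G)).relIndex H = 1 := by
    by_contra hne
    obtain ⟨q, hq, hqd⟩ := Nat.exists_prime_and_dvd hne
    have := Fact.mk hq
    obtain ⟨R, hRM, hRq, hRidx, hxR⟩ := exists_invariant_sylow (q := q) H x hx k hk hrH
    have hqπ : q ∉ π := hH' q hq (hqd.trans (Subgroup.relIndex_dvd_card _ _))
    have hRD : R ≤ H ⊓ centralizer ({x} : Set G) := by
      intro u hu
      refine ⟨hRM hu, ?_⟩
      show u ∈ centralizer ({x} : Set G)
      rw [Subgroup.mem_centralizer_singleton_iff]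
      exact (h q hq hqπ R hRq x hxR hxπ u hu).symm
    exact hRidx (hqd.trans (Subgroup.relIndex_dvd_of_le_left H hRD))
  have hHD : H ≤ H ⊓ centralizer ({x} : Set G) := Subgroup.relIndex_eq_one.mp hrel
  rw [Subgroup.mem_centralizer_iff]
  intro u hu
  have h1 : u ∈ centralizer ({x} : Set G) := (hHD hu).2
  rw [Subgroup.mem_centralizer_singleton_iff] at h1
  exact h1

theorem mk'_eq_one (N : Subgroup G) [N.Normal] {n : G} (hn : n ∈ N) :
    QuotientGroup.mk' N n = 1 := (QuotientGroup.eq_one_iff n).mpr hn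

/-- an element of prime power order of a quotient lifts to an element of prime power order -/
theorem exists_lift_prime_pow [Finite G] (N : Subgroup G) [N.Normal] {r : ℕ} [Fact r.Prime]
    (xb : G ⧸ N) (k : ℕ) (hk : orderOf xb = r ^ k) :
    ∃ x : G, (∃ j : ℕ, orderOf x = r ^ j) ∧ QuotientGroup.mk' N x = xb := by
  have hsurj : Function.Surjective (QuotientGroup.mk' N) := QuotientGroup.mk'_surjective N
  have hz : IsPGroup r (zpowers xb) := IsPGroup.of_card (n := k) (by rw [Nat.card_zpowers, hk])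
  obtain ⟨Qb, hQb⟩ := hz.exists_le_sylow
  obtain ⟨Q₀, hQ₀⟩ := Sylow.mapSurjective_surjective hsurj r Qb
  have hxb : xb ∈ (Q₀ : Subgroup G).map (QuotientGroup.mk' N) := by
    have : xb ∈ (Qb : Subgroup (G ⧸ N)) := hQb (mem_zpowers xb)
    rw [← hQ₀] at this
    exact this
  obtain ⟨x, hx, rfl⟩ := hxb
  refine ⟨x, ?_, rfl⟩
  obtain ⟨j, hj⟩ := (IsPGroup.iff_orderOf.mp Q₀.2) ⟨x, hx⟩
  exact ⟨j, by rw [← hj, Subgroup.orderOf_mk]⟩

/-- (b): the primary condition passes to quotients by normal π-subgroups. -/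
theorem hom'_quotient [Finite G] (N : Subgroup G) [N.Normal] (hN : PiNum π (Nat.card N))
    (h : Hom' π G) : Hom' π (G ⧸ N) := by
  intro q hq hqπ Qb hQb xb hxb hxbπ ub hub
  have := Fact.mk hq
  have hsurj : Function.Surjective (QuotientGroup.mk' N) := QuotientGroup.mk'_surjective N
  obtain ⟨M, hM⟩ : ∃ M : Subgroup G, M = Qb.comap (QuotientGroup.mk' N) := ⟨_, rfl⟩
  have hmemM : ∀ g : G, g ∈ M ↔ QuotientGroup.mk' N g ∈ Qb := by
    intro g; rw [hM]; exact Subgroup.mem_comap
  obtain ⟨S⟩ : Nonempty (Sylow q M) := inferInstance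
  obtain ⟨Q, hQdef⟩ : ∃ Q : Subgroup G, Q = (S : Subgroup M).map M.subtype := ⟨_, rfl⟩
  have hQM : Q ≤ M := hQdef ▸ Subgroup.map_subtype_le _
  have hQq : IsPGroup q Q := hQdef ▸ S.2.map _
  have hQidx : ¬ q ∣ Q.relIndex M := by
    have h1 : Q.subgroupOf M = S := by
      rw [hQdef]; exact Subgroup.comap_map_eq_self_of_injective M.subtype_injective _
    change ¬ q ∣ (Q.subgroupOf M).index
    rw [h1]
    exact S.not_dvd_index
  have hNM : N ≤ M := by
    intro n hn
    rw [hmemM, mk'_eq_one N hn]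
    exact Qb.one_mem
  have hMNQ : M ≤ N ⊔ Q := by
    rw [← Subgroup.relIndex_eq_one]
    have h1 : (N ⊔ Q).relIndex M ∣ Q.relIndex M := Subgroup.relIndex_dvd_of_le_left M le_sup_right
    have e1 : (Q.map (QuotientGroup.mk' N)).comap (QuotientGroup.mk' N) = N ⊔ Q := by
      rw [Subgroup.comap_map_eq, QuotientGroup.ker_mk', sup_comm]
    have e2 : M.map (QuotientGroup.mk' N) = Qb := by
      rw [hM]; exact Subgroup.map_comap_eq_self_of_surjective hsurj Qb
    have h2 : ∃ j, (N ⊔ Q).relIndex M = q ^ j := by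
      rw [← e1, Subgroup.relIndex_comap, e2]
      exact hQb.index _
    obtain ⟨j, hj⟩ := h2
    rcases j with _ | j
    · simpa using hj
    · exfalso
      apply hQidx
      rw [hj] at h1
      exact (dvd_pow_self q (Nat.succ_ne_zero j)).trans h1
  obtain ⟨x₀, rfl⟩ := hsurj xb
  have hx₀M : ∀ m ∈ M, x₀ * m * x₀⁻¹ ∈ M := by
    intro m hm
    rw [hmemM] at hm ⊢
    rw [map_mul, map_mul, map_inv]
    exact (Subgroup.mem_normalizer_iff.mp hxb _).mp hm
  have hle : Q.map (MulAut.conj x₀).toMonoidHom ≤ M := by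
    rintro _ ⟨v, hv, rfl⟩
    exact hx₀M v (hQM hv)
  have hQ₁ : IsSylowIn q (Q.map (MulAut.conj x₀).toMonoidHom) M := by
    refine ⟨hle, hQq.map _, ?_⟩
    have hc1 : Nat.card (Q.map (MulAut.conj x₀).toMonoidHom) = Nat.card Q :=
      Subgroup.card_map_of_injective (MulAut.conj x₀).injective
    have e3 := card_eq_card_mul_relIndex' hQM
    have e4 := card_eq_card_mul_relIndex' hle
    rw [hc1, e3] at e4
    have e5 : Q.relIndex M = (Q.map (MulAut.conj x₀).toMonoidHom).relIndex M :=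
      Nat.eq_of_mul_eq_mul_left Nat.card_pos e4
    rw [← e5]; exact hQidx
  obtain ⟨m, hmM, hm⟩ := IsSylowIn.exists_conj ⟨hQM, hQq, hQidx⟩ hQ₁
  have hm' : m ∈ ((N ⊔ Q : Subgroup G) : Set G) := hMNQ hmM
  rw [Subgroup.normal_mul] at hm'
  obtain ⟨n, hn, u, hu, rfl⟩ := hm'
  have hx₁ : n⁻¹ * x₀ ∈ normalizer (Q : Set G) := by
    apply Subgroup.mem_normalizer_fintype
    intro v hv
    have h1 : x₀ * v * x₀⁻¹ ∈ Q.map (MulAut.conj x₀).toMonoidHom := ⟨v, hv, rfl⟩
    rw [hm] at h1
    obtain ⟨v', hv', hv'e⟩ := h1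
    have h3 : n * u * v' * (n * u)⁻¹ = x₀ * v * x₀⁻¹ := hv'e
    have h2 : n⁻¹ * x₀ * v * (n⁻¹ * x₀)⁻¹ = u * v' * u⁻¹ := by
      have h4 : n⁻¹ * x₀ * v * (n⁻¹ * x₀)⁻¹ = n⁻¹ * (x₀ * v * x₀⁻¹) * n := by group
      rw [h4, ← h3]; group
    rw [h2]
    exact Q.mul_mem (Q.mul_mem hu hv') (Q.inv_mem hu)
  have hφx₁ : QuotientGroup.mk' N (n⁻¹ * x₀) = QuotientGroup.mk' N x₀ := by
    rw [map_mul, map_inv, mk'_eq_one N hn]; simp
  have hx₁π : PiNum π (orderOf (n⁻¹ * x₀)) := by
    apply PiNum.of_dvd _ (orderOf_dvd_mul_card N (n⁻¹ * x₀))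
    rw [hφx₁]
    exact PiNum.mul hxbπ hN
  have hcomm := h q hq hqπ Q hQq (n⁻¹ * x₀) hx₁ hx₁π
  obtain ⟨w, rfl⟩ := hsurj ub
  have hwM : w ∈ M := (hmemM w).mpr hub
  have hw' : w ∈ ((N ⊔ Q : Subgroup G) : Set G) := hMNQ hwM
  rw [Subgroup.normal_mul] at hw'
  obtain ⟨n', hn', u', hu', rfl⟩ := hw'
  have hφw : QuotientGroup.mk' N (n' * u') = QuotientGroup.mk' N u' := by
    rw [map_mul, mk'_eq_one N hn']; simp
  rw [hφw, ← hφx₁, ← map_mul, ← map_mul, hcomm u' hu']

/-- the condition `Hom` passes to quotients by normal π-subgroups. -/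
theorem hom_quotient_of_piNum [Finite G] (N : Subgroup G) [N.Normal] (hN : PiNum π (Nat.card N))
    (h : Hom π G) : Hom π (G ⧸ N) :=
  hom_of_hom' (hom'_quotient N hN (hom'_of_hom h))

/-- the condition `Hom` passes to quotients by normal π'-subgroups. -/
theorem hom_quotient_of_piNum' [Finite G] (N : Subgroup G) [N.Normal]
    (hN : PiNum' π (Nat.card N)) (h : Hom π G) : Hom π (G ⧸ N) := by
  intro Hb hHb hHb'
  apply piNum'_relIndex_of_forall
  intro r hr hrπ xb hxb ⟨k, hk⟩
  have := Fact.mk hr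
  have hsurj : Function.Surjective (QuotientGroup.mk' N) := QuotientGroup.mk'_surjective N
  obtain ⟨x, ⟨j, hj⟩, rfl⟩ := exists_lift_prime_pow N xb k hk
  obtain ⟨L, hL⟩ : ∃ L : Subgroup G, L = Hb.comap (QuotientGroup.mk' N) := ⟨_, rfl⟩
  have hmemL : ∀ g : G, g ∈ L ↔ QuotientGroup.mk' N g ∈ Hb := by
    intro g; rw [hL]; exact Subgroup.mem_comap
  have hLne : L ≠ ⊥ := by
    intro hbot
    apply hHb
    rw [Subgroup.eq_bot_iff_forall]
    intro hb hhb
    obtain ⟨l, rfl⟩ := hsurj hb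
    have hl : l ∈ L := (hmemL l).mpr hhb
    rw [hbot, Subgroup.mem_bot] at hl
    rw [hl, map_one]
  have hL' : PiNum' π (Nat.card L) := by
    apply piNum'_card_of_forall
    intro l hl
    apply PiNum'.of_dvd _ (orderOf_dvd_mul_card N l)
    exact PiNum'.mul
      (PiNum'.of_dvd hHb' (Subgroup.orderOf_dvd_natCard Hb ((hmemL l).mp hl))) hN
  have hxL : x ∈ normalizer (L : Set G) := by
    apply Subgroup.mem_normalizer_fintype
    intro l hl
    have hl' : l ∈ L := hl
    show x * l * x⁻¹ ∈ L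
    rw [hmemL] at hl' ⊢
    rw [map_mul, map_mul, map_inv]
    exact (Subgroup.mem_normalizer_iff.mp hxb _).mp hl'
  have hxπ : PiNum π (orderOf x) := by rw [hj]; exact piNum_prime_pow hr hrπ j
  have hxc := mem_centralizer_of_hom h L hLne hL' x hxL hxπ
  rw [Subgroup.mem_centralizer_iff]
  intro hb hhb
  obtain ⟨l, rfl⟩ := hsurj hb
  have hl : l ∈ L := (hmemL l).mpr hhb
  have h1 := Subgroup.mem_centralizer_iff.mp hxc l hl
  rw [← map_mul, ← map_mul, h1]

/-- (B*): π-closedness lifts from the quotient by a normal π-subgroup. -/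
theorem piClosed_of_quotient_piNum [Finite G] (N : Subgroup G) [N.Normal]
    (hN : PiNum π (Nat.card N)) (h : IsPiClosed π (G ⧸ N)) : IsPiClosed π G := by
  obtain ⟨Kb, hKb⟩ := h
  refine ⟨Kb.comap (QuotientGroup.mk' N), fun x => ?_⟩
  rw [Subgroup.mem_comap, hKb]
  constructor
  · intro hx
    exact (PiNum.mul hx hN).of_dvd (orderOf_dvd_mul_card N x)
  · intro hx
    exact PiNum.of_dvd hx (orderOf_map_dvd _ x)

/-- (A*): a normal π'-subgroup `N` centralized by all π-elements, below a subgroup `L`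
containing all π-elements with `L/N` a π-group: the π-elements form a subgroup. -/
theorem piClosed_of_central_compl [Finite G] (N L : Subgroup G) [N.Normal]
    (hN : PiNum' π (Nat.card N)) (hNL : N ≤ L)
    (hcent : ∀ x : G, PiNum π (orderOf x) → ∀ n ∈ N, x * n = n * x)
    (hL : ∀ x : G, PiNum π (orderOf x) → x ∈ L)
    (hLN : ∀ l ∈ L, ∃ m : ℕ, PiNum π m ∧ l ^ m ∈ N) : IsPiClosed π G := by
  have hcardN' : Nat.card (N.subgroupOf L) = Nat.card N :=
    Nat.card_congr (Subgroup.subgroupOfEquivOfLe hNL).toEquiv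
  have hidx : PiNum π (N.subgroupOf L).index := by
    intro p hp hd
    have := Fact.mk hp
    rw [Subgroup.index_eq_card] at hd
    obtain ⟨lb, hlb⟩ := exists_prime_orderOf_dvd_card' p hd
    obtain ⟨l, rfl⟩ := QuotientGroup.mk_surjective lb
    obtain ⟨m, hm, hlm⟩ := hLN l l.2
    have h1 : ((l : L ⧸ N.subgroupOf L)) ^ m = 1 := by
      rw [← QuotientGroup.mk_pow, QuotientGroup.eq_one_iff]
      exact Subgroup.mem_subgroupOf.mpr (by simpa using hlm)
    have h2 : p ∣ m := by rw [← hlb]; exact orderOf_dvd_of_pow_eq_one h1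
    exact hm p hp h2
  have hcop : (Nat.card (N.subgroupOf L)).Coprime (N.subgroupOf L).index := by
    rw [hcardN']; exact (coprime_of_piNum hidx hN).symm
  obtain ⟨Q', hQ'⟩ := Subgroup.exists_right_complement'_of_coprime hcop
  have hQ'card : (N.subgroupOf L).index = Nat.card Q' := hQ'.symm.index_eq_card
  have hQ'π : PiNum π (Nat.card Q') := hQ'card ▸ hidx
  have hQπ : ∀ u : L, u ∈ Q' → PiNum π (orderOf (u : G)) := by
    intro u hu
    rw [Subgroup.orderOf_coe]
    exact PiNum.of_dvd hQ'π (Subgroup.orderOf_dvd_natCard Q' hu)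
  refine ⟨Q'.map L.subtype, fun x => ⟨?_, ?_⟩⟩
  · rintro ⟨u, hu, rfl⟩
    exact hQπ u hu
  · intro hx
    have hxL : x ∈ L := hL x hx
    obtain ⟨⟨⟨n, hn⟩, ⟨u, hu⟩⟩, hnu⟩ := hQ'.2 ⟨x, hxL⟩
    simp only at hnu
    have hnu' : (n : G) * (u : G) = x := congrArg Subtype.val hnu
    have hnN : (n : G) ∈ N := Subgroup.mem_subgroupOf.mp hn
    have hcomm : (u : G) * (n : G) = (n : G) * (u : G) := hcent _ (hQπ u hu) _ hnN
    have hue : (u : G) ^ Nat.card Q' = 1 := by
      have h0 : (⟨u, hu⟩ : Q') ^ Nat.card Q' = 1 := pow_card_eq_one'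
      have h0' : ((((⟨u, hu⟩ : Q') ^ Nat.card Q' : Q') : L) : G) = 1 := by rw [h0]; rfl
      exact h0'
    have hxe : x ^ Nat.card Q' = (n : G) ^ Nat.card Q' := by
      rw [← hnu', (Commute.mul_pow (show Commute (n : G) (u : G) from hcomm.symm) _), hue,
        mul_one]
    have h1 : PiNum π (orderOf ((n : G) ^ Nat.card Q')) := by
      rw [← hxe]; exact PiNum.of_dvd hx (orderOf_pow_dvd _)
    have h2 : PiNum' π (orderOf ((n : G) ^ Nat.card Q')) :=
      PiNum'.of_dvd hN (Subgroup.orderOf_dvd_natCard N (N.pow_mem hnN _))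
    have h3 : (n : G) ^ Nat.card Q' = 1 :=
      orderOf_eq_one_iff.mp (eq_one_of_piNum_of_piNum' h1 h2)
    have h4 : PiNum π (orderOf (n : G)) := PiNum.of_dvd hQ'π (orderOf_dvd_of_pow_eq_one h3)
    have h5 : PiNum' π (orderOf (n : G)) :=
      PiNum'.of_dvd hN (Subgroup.orderOf_dvd_natCard N hnN)
    have h6 : (n : G) = 1 := orderOf_eq_one_iff.mp (eq_one_of_piNum_of_piNum' h4 h5)
    rw [h6, one_mul] at hnu'
    exact ⟨u, hu, hnu'⟩

/-- `π`-separability via a normal chain of length `n` (as in the statement S4050). -/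
def Sep (π : Set ℕ) (G : Type u) [Group G] (n : ℕ) : Prop :=
  ∃ H : Fin (n + 1) → Subgroup G, H 0 = ⊥ ∧ H (Fin.last n) = ⊤ ∧ Monotone H ∧
    (∀ i, (H i).Normal) ∧
      ∀ i : Fin n, (∀ q : ℕ, q.Prime → q ∣ (H i.castSucc).relIndex (H i.succ) → q ∈ π) ∨
        (∀ q : ℕ, q.Prime → q ∣ (H i.castSucc).relIndex (H i.succ) → q ∉ π)

/-- a π-separable group satisfying `Hom` is π-closed. -/
theorem piClosed_of_sep (π : Set ℕ) (n : ℕ) :
    ∀ (G : Type u) [Group G] [Finite G], Sep π G n → Hom π G → IsPiClosed π G := by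
  induction n with
  | zero =>
    intro G _ _ ⟨H, h0, hlast, _⟩ _
    have hbt : (⊥ : Subgroup G) = ⊤ := by
      rw [← h0, ← hlast]; rfl
    refine ⟨⊤, fun x => ⟨fun _ => ?_, fun _ => Subgroup.mem_top x⟩⟩
    have hx : x = 1 := by
      have : x ∈ (⊥ : Subgroup G) := hbt ▸ Subgroup.mem_top x
      exact Subgroup.mem_bot.mp this
    rw [hx, orderOf_one]
    exact piNum_one
  | succ n ih =>
    intro G _ _ ⟨H, h0, hlast, hmono, hnorm, hstep⟩ hhom
    obtain ⟨N, hNdef⟩ : ∃ N : Subgroup G, N = H (Fin.succ 0) := ⟨_, rfl⟩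
    have hNn : N.Normal := hNdef ▸ hnorm _
    have hsurj : Function.Surjective (QuotientGroup.mk' N) := QuotientGroup.mk'_surjective N
    have hsepQ : Sep π (G ⧸ N) n := by
      refine ⟨fun i => (H i.succ).map (QuotientGroup.mk' N), ?_, ?_, ?_, ?_, ?_⟩
      · show (H (Fin.succ 0)).map (QuotientGroup.mk' N) = ⊥
        rw [(Subgroup.map_eq_bot_iff _), QuotientGroup.ker_mk', hNdef]
      · show (H (Fin.last n).succ).map (QuotientGroup.mk' N) = ⊤
        rw [Fin.succ_last, hlast, ← MonoidHom.range_eq_map, MonoidHom.range_eq_top]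
        exact hsurj
      · intro i j hij
        exact Subgroup.map_mono (hmono (Fin.succ_le_succ_iff.mpr hij))
      · intro i
        exact (hnorm i.succ).map _ hsurj
      · intro i
        have hNle : N ≤ H i.castSucc.succ := by
          rw [hNdef]; exact hmono (Fin.succ_le_succ_iff.mpr (Fin.zero_le _))
        have key : ((H i.castSucc.succ).map (QuotientGroup.mk' N)).relIndex
            ((H i.succ.succ).map (QuotientGroup.mk' N)) =
            (H i.succ.castSucc).relIndex (H i.succ.succ) := by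
          rw [← Subgroup.relIndex_comap, Subgroup.comap_map_eq, QuotientGroup.ker_mk',
            sup_of_le_left hNle, Fin.succ_castSucc]
        show (∀ q : ℕ, q.Prime → q ∣ ((H i.castSucc.succ).map (QuotientGroup.mk' N)).relIndex
            ((H i.succ.succ).map (QuotientGroup.mk' N)) → q ∈ π) ∨
          (∀ q : ℕ, q.Prime → q ∣ ((H i.castSucc.succ).map (QuotientGroup.mk' N)).relIndex
            ((H i.succ.succ).map (QuotientGroup.mk' N)) → q ∉ π)
        rw [key]
        exact hstep i.succ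
    have h01 := hstep 0
    have hcardN : (H (Fin.castSucc 0)).relIndex (H (Fin.succ 0)) = Nat.card N := by
      rw [Fin.castSucc_zero, h0, Subgroup.relIndex_bot_left, hNdef]
    rw [hcardN] at h01
    by_cases hB : PiNum π (Nat.card N)
    · exact piClosed_of_quotient_piNum N hB
        (ih (G ⧸ N) hsepQ (hom_quotient_of_piNum N hB hhom))
    · have hA : PiNum' π (Nat.card N) := h01.resolve_left hB
      have hNbot : N ≠ ⊥ := by
        intro hb
        apply hB
        rw [hb, Subgroup.card_bot]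
        exact piNum_one
      obtain ⟨Kb, hKb⟩ := ih (G ⧸ N) hsepQ (hom_quotient_of_piNum' N hA hhom)
      apply piClosed_of_central_compl N (Kb.comap (QuotientGroup.mk' N)) hA
      · intro n hn
        rw [Subgroup.mem_comap, mk'_eq_one N hn]
        exact Kb.one_mem
      · intro x hx n hn
        have hxN : x ∈ normalizer (N : Set G) := by
          rw [Subgroup.normalizer_eq_top]; exact Subgroup.mem_top x
        have hc := mem_centralizer_of_hom hhom N hNbot hA x hxN hx
        exact (Subgroup.mem_centralizer_iff.mp hc n hn).symm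
      · intro x hx
        rw [Subgroup.mem_comap, hKb]
        exact PiNum.of_dvd hx (orderOf_map_dvd _ x)
      · intro l hl
        rw [Subgroup.mem_comap, hKb] at hl
        refine ⟨orderOf (QuotientGroup.mk' N l), hl, ?_⟩
        rw [← QuotientGroup.eq_one_iff, ← QuotientGroup.mk'_apply, map_pow, pow_orderOf_eq_one]

theorem orderOf_conj_eq (g x : G) : orderOf (g * x * g⁻¹) = orderOf x :=
  orderOf_injective (MulAut.conj g).toMonoidHom (MulAut.conj g).injective x

theorem normal_of_piClosed {K : Subgroup G} (hK : ∀ x : G, x ∈ K ↔ PiNum π (orderOf x)) :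
    K.Normal := by
  constructor
  intro x hx g
  rw [hK] at hx ⊢
  rw [orderOf_conj_eq]; exact hx

/-- necessity of `Hom`. -/
theorem hom_of_piClosed [Finite G] (h : IsPiClosed π G) : Hom π G := by
  obtain ⟨K, hK⟩ := h
  have hKn : K.Normal := normal_of_piClosed hK
  intro H hH hH'
  apply piNum'_relIndex_of_forall
  intro r hr hrπ x hx ⟨k, hk⟩
  have hxK : x ∈ K := (hK x).mpr (by rw [hk]; exact piNum_prime_pow hr hrπ k)
  rw [Subgroup.mem_centralizer_iff]
  intro u hu
  have hcK : x * u * x⁻¹ * u⁻¹ ∈ K := by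
    have e : x * u * x⁻¹ * u⁻¹ = x * (u * x⁻¹ * u⁻¹) := by group
    rw [e]
    exact K.mul_mem hxK (hKn.conj_mem _ (K.inv_mem hxK) u)
  have hcH : x * u * x⁻¹ * u⁻¹ ∈ H :=
    H.mul_mem ((Subgroup.mem_normalizer_iff.mp hx u).mp hu) (H.inv_mem hu)
  have h1 : PiNum π (orderOf (x * u * x⁻¹ * u⁻¹)) := (hK _).mp hcK
  have h2 : PiNum' π (orderOf (x * u * x⁻¹ * u⁻¹)) :=
    PiNum'.of_dvd hH' (Subgroup.orderOf_dvd_natCard H hcH)
  have h3 : x * u * x⁻¹ * u⁻¹ = 1 := orderOf_eq_one_iff.mp (eq_one_of_piNum_of_piNum' h1 h2)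
  have e : x * u = (x * u * x⁻¹ * u⁻¹) * (u * x) := by group
  rw [e, h3, one_mul]

/-- necessity of π-separability (a chain of length 2). -/
theorem sep_of_piClosed [Finite G] (h : IsPiClosed π G) : Sep π G 2 := by
  obtain ⟨K, hK⟩ := h
  have hKn : K.Normal := normal_of_piClosed hK
  have hKπ : PiNum π (Nat.card K) := piNum_card_of_forall K (fun x hx => (hK x).mp hx)
  have hidx : PiNum' π K.index := by
    intro p hp hd hpπ
    have := Fact.mk hp
    obtain ⟨S⟩ : Nonempty (Sylow p G) := inferInstance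
    have hle : (S : Subgroup G) ≤ K := by
      intro s hs
      obtain ⟨k, hk⟩ := (IsPGroup.iff_orderOf.mp S.2) ⟨s, hs⟩
      rw [hK, ← Subgroup.orderOf_mk s hs, hk]
      exact piNum_prime_pow hp hpπ k
    exact S.not_dvd_index (hd.trans (Subgroup.index_dvd_of_le hle))
  refine ⟨![⊥, K, ⊤], rfl, rfl, ?_, ?_, ?_⟩
  · intro i j hij
    fin_cases i <;> fin_cases j <;> first | exact le_refl _ | exact bot_le | exact le_top | (exfalso; revert hij; decide)
  · intro i
    fin_cases i
    · exact Subgroup.normal_bot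
    · exact hKn
    · exact Subgroup.normal_top
  · intro i
    fin_cases i
    · left
      show PiNum π ((⊥ : Subgroup G).relIndex K)
      rw [Subgroup.relIndex_bot_left]; exact hKπ
    · right
      show PiNum' π (K.relIndex ⊤)
      rw [Subgroup.relIndex_top_right]; exact hidx

/-- S4051: π-closedness from a normal subgroup and its quotient, under `Hom`. -/
theorem piClosed_of_normal [Finite G] (hhom : Hom π G) (K : Subgroup G) [hKn : K.Normal]
    (hK : IsPiClosed π K) (hQ : IsPiClosed π (G ⧸ K)) : IsPiClosed π G := by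
  obtain ⟨K₀, hK₀⟩ := hK
  obtain ⟨Kb, hKb⟩ := hQ
  obtain ⟨K₁, hK₁def⟩ : ∃ K₁ : Subgroup G, K₁ = K₀.map K.subtype := ⟨_, rfl⟩
  have hmem : ∀ x : G, x ∈ K₁ ↔ x ∈ K ∧ PiNum π (orderOf x) := by
    intro x
    rw [hK₁def]
    constructor
    · rintro ⟨k, hk, rfl⟩
      refine ⟨k.2, ?_⟩
      have h1 := (hK₀ k).mp hk
      rw [← Subgroup.orderOf_coe] at h1
      exact h1
    · rintro ⟨hxK, hx⟩
      refine ⟨⟨x, hxK⟩, (hK₀ _).mpr ?_, rfl⟩
      rw [Subgroup.orderOf_mk]; exact hx
  have hK₁n : K₁.Normal := by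
    constructor
    intro x hx g
    rw [hmem] at hx ⊢
    refine ⟨hKn.conj_mem x hx.1 g, ?_⟩
    rw [orderOf_conj_eq]; exact hx.2
  have hK₁π : PiNum π (Nat.card K₁) :=
    piNum_card_of_forall K₁ (fun x hx => ((hmem x).mp hx).2)
  have hK₁K : K₁ ≤ K := fun x hx => ((hmem x).mp hx).1
  have hhomQ : Hom π (G ⧸ K₁) := hom_quotient_of_piNum K₁ hK₁π hhom
  apply piClosed_of_quotient_piNum K₁ hK₁π
  have hsurj : Function.Surjective (QuotientGroup.mk' K₁) := QuotientGroup.mk'_surjective K₁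
  have hNn : (K.map (QuotientGroup.mk' K₁)).Normal := Subgroup.Normal.map hKn _ hsurj
  have hNπ' : PiNum' π (Nat.card (K.map (QuotientGroup.mk' K₁))) := by
    apply piNum'_card_of_forall
    rintro _ ⟨k, hk, rfl⟩
    intro p hp hd hpπ
    obtain ⟨a, t, ht, hat⟩ :=
      Nat.exists_eq_pow_mul_and_not_dvd (orderOf_pos k).ne' p hp.ne_one
    have h1 : k ^ t ∈ K₁ := by
      rw [hmem]
      refine ⟨K.pow_mem hk t, ?_⟩
      have h0 : orderOf (k ^ t) ∣ p ^ a := by
        apply orderOf_dvd_of_pow_eq_one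
        rw [← pow_mul, mul_comm, ← hat, pow_orderOf_eq_one]
      exact PiNum.of_dvd (piNum_prime_pow hp hpπ a) h0
    have h2 : (QuotientGroup.mk' K₁ k) ^ t = 1 := by
      rw [← map_pow]; exact mk'_eq_one K₁ h1
    exact ht (hd.trans (orderOf_dvd_of_pow_eq_one h2))
  apply piClosed_of_central_compl (K.map (QuotientGroup.mk' K₁))
    ((Kb.comap (QuotientGroup.mk' K)).map (QuotientGroup.mk' K₁)) hNπ'
  · apply Subgroup.map_mono
    intro k hk
    rw [Subgroup.mem_comap, mk'_eq_one K hk]; exact Kb.one_mem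
  · intro xb hxb nb hnb
    by_cases hbot : K.map (QuotientGroup.mk' K₁) = ⊥
    · rw [hbot, Subgroup.mem_bot] at hnb
      rw [hnb]; simp
    · have hxN : xb ∈ normalizer ((K.map (QuotientGroup.mk' K₁) : Subgroup (G ⧸ K₁)) : Set (G ⧸ K₁)) := by
        rw [Subgroup.normalizer_eq_top]; exact Subgroup.mem_top xb
      have hc := mem_centralizer_of_hom hhomQ _ hbot hNπ' xb hxN hxb
      exact (Subgroup.mem_centralizer_iff.mp hc nb hnb).symm
  · intro xb hxb
    obtain ⟨g, rfl⟩ := hsurj xb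
    refine ⟨g, ?_, rfl⟩
    rw [SetLike.mem_coe, Subgroup.mem_comap, hKb]
    apply PiNum.of_dvd hxb
    apply orderOf_dvd_of_pow_eq_one
    rw [← map_pow]
    apply mk'_eq_one K
    apply hK₁K
    rw [← QuotientGroup.eq_one_iff, ← QuotientGroup.mk'_apply, map_pow, pow_orderOf_eq_one]
  · rintro _ ⟨l, hl, rfl⟩
    rw [SetLike.mem_coe, Subgroup.mem_comap, hKb] at hl
    refine ⟨orderOf (QuotientGroup.mk' K l), hl, ?_⟩
    rw [← map_pow]
    refine ⟨l ^ orderOf (QuotientGroup.mk' K l), ?_, rfl⟩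
    rw [SetLike.mem_coe, ← QuotientGroup.eq_one_iff, ← QuotientGroup.mk'_apply, map_pow, pow_orderOf_eq_one]

end Group

end Cfsg.Agent.Lib.Helper67.PiClosed
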