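import Cfsg.Agent.Lib.Helper42.ReeDegStmt

/-!
# S2343 piece INDEP (helper67): simultaneous eigenvectors with pairwise distinct characters are
linearly independent
-/

set_option autoImplicit false

namespace Cfsg.Agent.Lib.Helper67.ReeDegINDEP

open Cfsg.Agent.Lib.Helper42.ReeDegStmt

universe u

theorem main : IndepP.{u} := by
  intro G _ A k n ρ μ w hw heig hdist
  classical
  rw [linearIndependent_iff']
  intro s
  induction s using Finset.induction_on with
  | empty => intro c _ i hi; exact absurd hi (Finset.notMem_empty i)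
  | insert i₀ s' hi₀ ih =>
    intro c hsum
    rw [Finset.sum_insert hi₀] at hsum
    have hc : ∀ i ∈ s', c i = 0 := by
      intro i hi
      have hne : i ≠ i₀ := fun h => hi₀ (h ▸ hi)
      obtain ⟨a, ha, hμ⟩ := hdist i i₀ hne
      have h2 : ∑ j ∈ s', (c j * (μ j a - μ i₀ a)) • w j = 0 := by
        have h3 := congrArg (ρ a) hsum
        rw [map_add, map_smul, map_sum, map_zero, heig i₀ a ha] at h3
        have h4 : μ i₀ a • (c i₀ • w i₀ + ∑ j ∈ s', c j • w j) = 0 := by rw [hsum, smul_zero]
        have h5 : ∑ j ∈ s', (c j * (μ j a - μ i₀ a)) • w j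
            = (c i₀ • μ i₀ a • w i₀ + ∑ j ∈ s', ρ a (c j • w j))
              - μ i₀ a • (c i₀ • w i₀ + ∑ j ∈ s', c j • w j) := by
          rw [smul_add, Finset.smul_sum, add_sub_add_comm, smul_comm, sub_self, zero_add,
            ← Finset.sum_sub_distrib]
          refine Finset.sum_congr rfl fun j _ => ?_
          rw [map_smul, heig j a ha, smul_smul, smul_smul, ← sub_smul]
          congr 1; ring
        rw [h5, h3, h4, sub_zero]
      have h6 := ih (fun j => c j * (μ j a - μ i₀ a)) h2 i hi
      exact (mul_eq_zero.mp h6).resolve_right (sub_ne_zero.mpr hμ)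
    have hs0 : ∑ j ∈ s', c j • w j = 0 :=
      Finset.sum_eq_zero fun j hj => by rw [hc j hj, zero_smul]
    rw [hs0, add_zero] at hsum
    have hci₀ : c i₀ = 0 := (smul_eq_zero.mp hsum).resolve_right (hw i₀)
    intro i hi
    rcases Finset.mem_insert.mp hi with rfl | hi'
    · exact hci₀
    · exact hc i hi'

end Cfsg.Agent.Lib.Helper67.ReeDegINDEP
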