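import Cfsg.Agent.Lib.Helper42.ReeDegStmt

/-!
# S2343 piece K4 (helper67): three trace-zero involutions of a Klein four-group force `4 ∣ k`
-/

set_option autoImplicit false

namespace Cfsg.Agent.Lib.Helper67.ReeDegK4

open Cfsg.Agent.Lib.Helper42.ReeDegStmt

universe u

theorem main : K4P.{u} := by
  intro G _ k ρ a b haa hbb hab hta htb htab
  -- the idempotent
  let E : (Fin k → ℂ) →ₗ[ℂ] (Fin k → ℂ) := (4 : ℂ)⁻¹ • (1 + ρ a + ρ b + ρ (a * b))
  have hρaa : ρ a * ρ a = 1 := by rw [← map_mul, haa, map_one]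
  have hρbb : ρ b * ρ b = 1 := by rw [← map_mul, hbb, map_one]
  have hρab : ρ (a * b) = ρ a * ρ b := map_mul ρ a b
  have hρba : ρ b * ρ a = ρ a * ρ b := by rw [← map_mul, ← map_mul, hab]
  have hEE : E * E = E := by
    simp only [E]
    rw [smul_mul_smul_comm, hρab]
    have h1 : (1 + ρ a + ρ b + ρ a * ρ b) * (1 + ρ a + ρ b + ρ a * ρ b)
        = (4 : ℂ) • (1 + ρ a + ρ b + ρ a * ρ b) := by
      have e1 : ρ a * (ρ a * ρ b) = ρ b := by rw [← mul_assoc, hρaa, one_mul]
      have e2 : ρ b * (ρ a * ρ b) = ρ a := by rw [← mul_assoc, hρba, mul_assoc, hρbb, mul_one]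
      have e3 : ρ a * ρ b * ρ a = ρ b := by rw [mul_assoc, hρba, ← mul_assoc, hρaa, one_mul]
      have e4 : ρ a * ρ b * ρ b = ρ a := by rw [mul_assoc, hρbb, mul_one]
      have e5 : ρ a * ρ b * (ρ a * ρ b) = 1 := by
        rw [mul_assoc, e2, hρaa]
      simp only [mul_add, add_mul, mul_one, one_mul, hρaa, hρbb, hρba, e1, e2, e3, e4, e5]
      rw [show (4 : ℂ) = 1 + 1 + 1 + 1 by norm_num]
      simp only [add_smul, one_smul]
      abel
    rw [h1, smul_smul]
    congr 1
    norm_num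
  have htr : LinearMap.trace ℂ (Fin k → ℂ) E = (k : ℂ) / 4 := by
    simp only [E]
    rw [map_smul, map_add, map_add, map_add, hta, htb, htab, LinearMap.trace_one]
    simp
    ring
  have hproj : LinearMap.IsProj (LinearMap.range E) E := by
    refine ⟨fun m => LinearMap.mem_range_self E m, fun m hm => ?_⟩
    obtain ⟨y, rfl⟩ := hm
    have := congrArg (fun f : (Fin k → ℂ) →ₗ[ℂ] (Fin k → ℂ) => f y) hEE
    simpa using this
  have htr2 := hproj.trace
  rw [htr] at htr2
  have h3 : (k : ℂ) = ((4 * Module.finrank ℂ (LinearMap.range E) : ℕ) : ℂ) := by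
    push_cast
    rw [← htr2]
    ring
  have h4 : k = 4 * Module.finrank ℂ (LinearMap.range E) := by exact_mod_cast h3
  exact ⟨_, h4⟩

end Cfsg.Agent.Lib.Helper67.ReeDegK4
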